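import Mathlib
import Cfsg.Agent.Lib.RV.Defs

/-!
# Package A9: elements of order five in the alternating group of degree nine (plans/RV.md)
-/

set_option autoImplicit false

namespace CfsgLib.RV

open Subgroup Matrix Cfsg CfsgLib.Fusion

namespace A9

open Equiv Equiv.Perm

theorem cyc {σ : Perm (Fin 9)} (hσ : orderOf σ = 5) : σ.IsCycle ∧ σ.support.card = 5 ∧ σ.supportᶜ.card = 4 := by
  have h1 := isCycle_of_prime_order' (σ := σ) (by rw [hσ]; decide) (by rw [hσ]; decide)
  have h2 : σ.support.card = 5 := by rw [← h1.orderOf, hσ]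
  exact ⟨h1, h2, by rw [Finset.card_compl, h2]; rfl⟩

theorem dec {σ τ : Perm (Fin 9)} (hσ : orderOf σ = 5) (h : Commute τ σ) :
    ∃ i : ℤ, ((σ ^ i)⁻¹ * τ).support ⊆ σ.supportᶜ := by
  have hc := (cyc hσ).1
  obtain ⟨a, ha⟩ := hc.nonempty_support
  obtain ⟨i, hi⟩ := hc.sameCycle (mem_support.1 ha) (mem_support.1 ((mem_support_iff_of_commute h a).2 ha))
  refine ⟨i, fun x hx => Finset.mem_compl.2 fun hx' => mem_support.1 hx ?_⟩
  obtain ⟨j, rfl⟩ := hc.sameCycle (mem_support.1 ha) (mem_support.1 hx')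
  rw [mul_apply, inv_eq_iff_eq, ← mul_apply, (h.zpow_right j).eq, mul_apply, ← hi, ← mul_apply, ← mul_apply,
    (Commute.zpow_zpow_self σ i j).eq]

theorem small {σ : Perm (Fin 9)} (h : σ.support.card ≤ 4) (hs : σ ∈ alternatingGroup (Fin 9)) :
    σ ^ 2 = 1 ∨ σ ^ 3 = 1 := by
  rw [mem_alternatingGroup, sign_of_cycleType] at hs
  rw [← sum_cycleType] at h
  have h2 : ∀ n ∈ σ.cycleType, 2 ≤ n := fun n hn => two_le_of_mem_cycleType hn
  rw [← orderOf_dvd_iff_pow_eq_one, ← orderOf_dvd_iff_pow_eq_one, ← lcm_cycleType, Multiset.lcm_dvd,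
    Multiset.lcm_dvd]
  generalize σ.cycleType = m at h hs h2
  have h3 := Multiset.card_nsmul_le_sum h2
  rw [smul_eq_mul] at h3
  obtain h0 | h0 | h0 : m.card = 0 ∨ m.card = 1 ∨ m.card = 2 := by omega
  · simp [Multiset.card_eq_zero.1 h0]
  · obtain ⟨a, rfl⟩ := Multiset.card_eq_one.1 h0
    have := h2 a (by simp)
    simp only [Multiset.sum_singleton, Multiset.card_singleton] at h hs
    interval_cases a
    · exact absurd hs (by decide)
    · simp
    · exact absurd hs (by decide)
  · obtain ⟨a, b, rfl⟩ := Multiset.card_eq_two.1 h0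
    have := h2 a (by simp)
    have := h2 b (by simp)
    simp only [Multiset.insert_eq_cons, Multiset.sum_cons, Multiset.sum_singleton] at h
    obtain rfl : a = 2 := by omega
    obtain rfl : b = 2 := by omega
    simp

end A9

theorem hypQ_A9 {y : alternatingGroup (Fin 9)} (hy : orderOf y = 5) : HypQ 5 y := by

  have hy' : orderOf (y : Equiv.Perm (Fin 9)) = 5 := by rw [orderOf_coe, hy]
  obtain ⟨c1, c2, c3⟩ := A9.cyc hy'
  refine ⟨hy, ?_, ?_, fun b hb => ?_, ?_⟩
  · have := two_mul_nat_card_alternatingGroup (α := Fin 9)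
    rw [Nat.card_perm, Nat.card_fin] at this
    have h2 : Nat.card (alternatingGroup (Fin 9)) = 181440 := by
      have : Nat.factorial 9 = 362880 := by decide
      omega
    rw [h2]; decide
  · have e1 : centralizer ({y} : Set (alternatingGroup (Fin 9))) =
        (centralizer {(y : Equiv.Perm (Fin 9))}).subgroupOf (alternatingGroup (Fin 9)) := by
      ext a
      rw [mem_subgroupOf, mem_centralizer_singleton_iff, mem_centralizer_singleton_iff, Subtype.ext_iff]
      rfl
    have e2 : Nat.card (centralizer {(y : Equiv.Perm (Fin 9))}) = 120 := by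
      rw [Equiv.Perm.nat_card_centralizer, c1.cycleType, c2]
      simp [Nat.factorial]
    have e3 : (alternatingGroup (Fin 9)).relIndex (centralizer {(y : Equiv.Perm (Fin 9))}) = 2 := by
      have d := relIndex_dvd_index_of_normal (alternatingGroup (Fin 9)) (centralizer {(y : Equiv.Perm (Fin 9))})
      rw [alternatingGroup.index_eq_two] at d
      refine ((Nat.dvd_prime Nat.prime_two).1 d).resolve_left fun h => ?_
      obtain ⟨a, ha, b, hb, ab⟩ := Finset.one_lt_card.1 (show 1 < (y : Equiv.Perm (Fin 9)).supportᶜ.card by omega)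
      have hd : Equiv.Perm.Disjoint (Equiv.swap a b) (y : Equiv.Perm (Fin 9)) := by
        rw [Equiv.Perm.disjoint_iff_disjoint_support, Equiv.Perm.support_swap ab, Finset.disjoint_insert_left,
          Finset.disjoint_singleton_left]
        exact ⟨Finset.mem_compl.1 ha, Finset.mem_compl.1 hb⟩
      have := relIndex_eq_one.1 h (mem_centralizer_singleton_iff.2 hd.commute.eq)
      rw [Equiv.Perm.mem_alternatingGroup, Equiv.Perm.sign_swap ab] at this
      exact absurd this (by decide)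
    have e4 := (alternatingGroup (Fin 9)).subgroupOf (centralizer {(y : Equiv.Perm (Fin 9))}) |>.card_mul_index
    rw [← relIndex, e3, e2, ← inf_subgroupOf_right,
      Nat.card_congr (subgroupOfEquivOfLe inf_le_right).toEquiv] at e4
    rw [e1, ← inf_subgroupOf_right, Nat.card_congr (subgroupOfEquivOfLe inf_le_right).toEquiv, inf_comm]
    omega
  · obtain ⟨i, hi⟩ := A9.dec hy' (τ := b) (congrArg Subtype.val hb.eq)
    have hc : Commute (y ^ i) ((y ^ i)⁻¹ * b) := (Commute.refl _).inv_right.mul_right (hb.symm.zpow_left i)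
    have e5 : (y ^ i) ^ 5 = 1 := by
      rw [← zpow_natCast, ← _root_.zpow_mul, mul_comm, _root_.zpow_mul, zpow_natCast, ← hy, pow_orderOf_eq_one,
        _root_.one_zpow]
    have key : ∀ n, ((y ^ i)⁻¹ * b) ^ n = 1 → b ^ (n * 5) = 1 := fun n hn => by
      rw [← mul_inv_cancel_left (y ^ i) b, hc.mul_pow, pow_mul, pow_mul ((y ^ i)⁻¹ * b), hn, ← pow_mul,
        mul_comm n, pow_mul, e5]
      simp
    refine (A9.small (σ := (((y ^ i)⁻¹ * b : alternatingGroup (Fin 9)) : Equiv.Perm (Fin 9)))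
      (c3 ▸ Finset.card_le_card hi) ((y ^ i)⁻¹ * b).2).imp (fun h => key 2 (Subtype.ext h))
      fun h => key 3 (Subtype.ext h)
  · have h2 : orderOf ((y ^ 2 : alternatingGroup (Fin 9)) : Equiv.Perm (Fin 9)) = 5 := by
      rw [orderOf_coe, Nat.Coprime.orderOf_pow (by rw [hy]; decide), hy]
    obtain ⟨d1, d2, -⟩ := A9.cyc h2
    obtain ⟨s, hs⟩ := isConj_iff.1 (alternatingGroup.isConj_of (c1.isConj d1 (c2.trans d2.symm)) (by simp [c2]))
    exact ⟨s, 2, hs, by decide⟩

theorem not_comm_S9 {σ τ : Equiv.Perm (Fin 9)} (hσ : orderOf σ = 5) (hτ : τ * τ = 1) (h8 : τ.support.card = 8) :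
    ¬ Commute σ τ := by

  intro h
  obtain ⟨i, hi⟩ := A9.dec hσ h.symm
  have e5 : (σ ^ i) ^ 5 = 1 := by
    rw [← zpow_natCast, ← _root_.zpow_mul, mul_comm, _root_.zpow_mul, zpow_natCast, ← hσ, pow_orderOf_eq_one,
      _root_.one_zpow]
  have fx : ∀ x ∈ σ.support, τ x = (σ ^ i) x := fun x hx => by
    have : ((σ ^ i)⁻¹ * τ) x = x := Equiv.Perm.notMem_support.1 fun h => Finset.mem_compl.1 (hi h) hx
    rwa [Equiv.Perm.mul_apply, Equiv.Perm.inv_eq_iff_eq] at this
  have e2 : (σ ^ i) ^ 2 = 1 := by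
    ext x
    by_cases hx : x ∈ σ.support
    · rw [pow_two, Equiv.Perm.mul_apply, ← fx _ (Equiv.Perm.zpow_apply_mem_support.2 hx), ← fx x hx,
        ← Equiv.Perm.mul_apply, hτ]
    · have := Equiv.Perm.zpow_apply_eq_self_of_apply_eq_self (Equiv.Perm.notMem_support.1 hx) i
      rw [pow_two, Equiv.Perm.mul_apply, this, this, Equiv.Perm.one_apply]
  have e1 : σ ^ i = 1 := by
    have := pow_gcd_eq_one.2 ⟨e2, e5⟩
    simpa using this
  rw [e1, inv_one, one_mul] at hi
  have := Finset.card_le_card hi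
  rw [h8, (A9.cyc hσ).2.2] at this
  omega

end CfsgLib.RV
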