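import Mathlib
import Cfsg.Agent.Lib.RV.Defs

/-!
# Package LL: two reflections of order four (plans/RV.md)
-/

set_option autoImplicit false

namespace CfsgLib.RV

open Subgroup Matrix Cfsg CfsgLib.Fusion

namespace LL

/-- the entries of a product of two matrices -/
def mu {R : Type*} [CommRing R] (A B : R × R × R × R) : R × R × R × R :=
  (A.1 * B.1 + A.2.1 * B.2.2.1, A.1 * B.2.1 + A.2.1 * B.2.2.2,
    A.2.2.1 * B.1 + A.2.2.2 * B.2.2.1, A.2.2.1 * B.2.1 + A.2.2.2 * B.2.2.2)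

/-- the entries of a word -/
def ev {R : Type*} [CommRing R] (A B : R × R × R × R) : List Bool → R × R × R × R
  | [] => (1, 0, 0, 1)
  | x :: w => mu (bif x then B else A) (ev A B w)

/-- a non-scalar matrix with a double eigenvalue -/
def Bad {R : Type*} [CommRing R] (M : R × R × R × R) : Prop :=
  (M.1 + M.2.2.2) ^ 2 = 4 * (M.1 * M.2.2.2 - M.2.1 * M.2.2.1) ∧ ¬ (M.2.1 = 0 ∧ M.2.2.1 = 0 ∧ M.1 = M.2.2.2)

instance {R : Type*} [CommRing R] [DecidableEq R] (M : R × R × R × R) : Decidable (Bad M) := by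
  unfold Bad; infer_instance

/-- the words -/
def ws : List (List Bool) := [[false, true], [false, false, false, true, false, true], [false, false, false, true],
  [false, false, false, true, false, true, true, true], [false, false, true, false, false, true, false, false, true, true]]

theorem cert {p : ℕ} (h : p = 5 ∨ p = 13) (m α β : ZMod p) : m * m = -1 → (α = 0 ∧ β = 0) ∨ 2 * (α * β) = 1 ∨
    ∃ w ∈ ws, Bad (ev (m, (m - 1) * α, 0, 1) (1, 0, (m - 1) * β, m) w) := by
  rcases h with rfl | rfl <;> revert m α β <;> decide +kernel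

/-- the matrix with given entries -/
def mx {R : Type*} (M : R × R × R × R) : Matrix (Fin 2) (Fin 2) R := !![M.1, M.2.1; M.2.2.1, M.2.2.2]

theorem mx_mu {R : Type*} [CommRing R] (A B : R × R × R × R) : mx (mu A B) = mx A * mx B := by
  simp [mx, mu]

theorem not_bad {F : Type*} [Field F] (h2 : (2 : F) ≠ 0) {M : F × F × F × F} {k : F} {N : ℕ} (hN : (N : F) ≠ 0)
    (h : (k • mx M) ^ N = 1) : ¬ Bad M := fun ⟨h1, h3⟩ => by
  obtain ⟨n, rfl⟩ : ∃ n, N = n + 1 := Nat.exists_eq_succ_of_ne_zero (by rintro rfl; simp at hN)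
  obtain ⟨a, b, c, d⟩ := M
  simp only at h1 h3
  obtain ⟨e, he⟩ : ∃ e, a + d = 2 * e := ⟨(a + d) / 2, by field_simp⟩
  have h4 : a * d - b * c = e ^ 2 := mul_left_cancel₀ (mul_ne_zero h2 h2) (by
    rw [he] at h1; linear_combination -h1)
  have key : ∀ j : ℕ, (k • mx (a, b, c, d)) ^ (j + 1) = !![(k * e) ^ (j + 1) + (j + 1) * (k * e) ^ j * (k * (a - e)),
      (j + 1) * (k * e) ^ j * (k * b); (j + 1) * (k * e) ^ j * (k * c),
      (k * e) ^ (j + 1) + (j + 1) * (k * e) ^ j * (k * (d - e))] := fun j => by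
    induction j with
    | zero => ext i j; fin_cases i <;> fin_cases j <;> simp [mx] <;> ring
    | succ j ih =>
      rw [pow_succ, ih]
      ext i l
      fin_cases i <;> fin_cases l <;> simp [mx, mul_apply, Fin.sum_univ_two]
      · linear_combination (j + 1) * (k * e) ^ j * k ^ 2 * (a * he - h4)
      · linear_combination (j + 1) * (k * e) ^ j * k ^ 2 * b * he
      · linear_combination (j + 1) * (k * e) ^ j * k ^ 2 * c * he
      · linear_combination (j + 1) * (k * e) ^ j * k ^ 2 * (d * he - h4)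
  rw [key] at h
  have e00 := congrFun (congrFun h 0) 0
  have e01 := congrFun (congrFun h 0) 1
  have e10 := congrFun (congrFun h 1) 0
  have e11 := congrFun (congrFun h 1) 1
  simp only [of_apply, cons_val', cons_val_zero, cons_val_one, cons_val_fin_one, one_apply_eq, ne_eq, zero_ne_one,
    one_ne_zero, not_false_eq_true, one_apply_ne] at e00 e01 e10 e11
  have h5 : (k * e) ^ (n + 1) = 1 := mul_left_cancel₀ h2 (by
    linear_combination e00 + e11 - (n + 1) * (k * e) ^ n * k * he)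
  have h6 : k * e ≠ 0 := fun e => by rw [e, zero_pow n.succ_ne_zero] at h5; exact zero_ne_one h5
  have h7 : ((n : F) + 1) * (k * e) ^ n * k ≠ 0 :=
    mul_ne_zero (mul_ne_zero (by exact_mod_cast hN) (pow_ne_zero _ h6)) (left_ne_zero_of_mul h6)
  exact h3 ⟨mul_left_cancel₀ h7 (by linear_combination e01), mul_left_cancel₀ h7 (by linear_combination e10),
    mul_left_cancel₀ h7 (by linear_combination e00 - e11)⟩

end LL

open LL

variable {p : ℕ} [hp : Fact p.Prime]

/-- two reflections of order four (up to scalars) in a group of order prime to `p` -/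
theorem lemL (h : p = 5 ∨ p = 13) {n : ℕ} {W : Subgroup (GL (Fin n) (ZMod p))} (hW : ¬ p ∣ Nat.card W)
    {m : ZMod p} (hm : m * m = -1) {a b : GL (Fin n) (ZMod p)} (ha : a ∈ W) (hb : b ∈ W)
    {u v φ ψ : Fin n → ZMod p} (hu : φ ⬝ᵥ u = 1) (hv : ψ ⬝ᵥ v = 1) {s t : ZMod p}
    (ea : a.1 = s • (1 + (m - 1) • vecMulVec u φ)) (eb : b.1 = t • (1 + (m - 1) • vecMulVec v ψ)) :
    (∃ r : ZMod p, v = r • u) ∨ (φ ⬝ᵥ v = 0 ∧ ψ ⬝ᵥ u = 0) ∨ 2 * ((φ ⬝ᵥ v) * (ψ ⬝ᵥ u)) = 1 := by
  refine or_iff_not_imp_left.2 fun hr => ?_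
  rcases cert h m (φ ⬝ᵥ v) (ψ ⬝ᵥ u) hm with e | e | ⟨w, -, hw⟩
  · exact Or.inl e
  · exact Or.inr e
  exfalso
  let L : (Fin 2 → ZMod p) → Fin n → ZMod p := fun c => c 0 • u + c 1 • v
  have hL : ∀ c d, L c = L d → c = d := fun c d e => by
    have h1 : c 1 = d 1 := by_contra fun h1 => hr ⟨(c 1 - d 1)⁻¹ * (d 0 - c 0), by
      rw [mul_smul, eq_inv_smul_iff₀ (sub_ne_zero.2 h1), sub_smul, sub_smul, sub_eq_sub_iff_add_eq_add, add_comm]
      exact e⟩
    have h0 := congrArg (φ ⬝ᵥ ·) e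
    simp only [L, h1, dotProduct_add, dotProduct_smul, hu, smul_eq_mul, mul_one, add_left_inj] at h0
    ext i
    fin_cases i
    exacts [h0, h1]
  have hs : ∀ (k : ZMod p) c, L (k • c) = k • L c := fun k c => by simp only [L, Pi.smul_apply, smul_add, smul_smul, smul_eq_mul]
  have hA : ∀ c, a.1 *ᵥ L c = L ((s • mx (m, (m - 1) * (φ ⬝ᵥ v), 0, 1)) *ᵥ c) := fun c => by
    rw [ea, smul_mulVec, smul_mulVec, hs, add_mulVec, one_mulVec, smul_mulVec, vecMulVec_mulVec]
    simp only [L, dotProduct_add, dotProduct_smul, hu, mx, op_smul_eq_smul]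
    simp [vecHead, vecTail]
    module
  have hB : ∀ c, b.1 *ᵥ L c = L ((t • mx (1, 0, (m - 1) * (ψ ⬝ᵥ u), m)) *ᵥ c) := fun c => by
    rw [eb, smul_mulVec, smul_mulVec, hs, add_mulVec, one_mulVec, smul_mulVec, vecMulVec_mulVec]
    simp only [L, dotProduct_add, dotProduct_smul, hv, mx, op_smul_eq_smul]
    simp [vecHead, vecTail]
    module
  have key : ∀ w : List Bool, ∃ g ∈ W, ∃ k : ZMod p, ∀ c, g.1 *ᵥ L c =
      L ((k • mx (ev (m, (m - 1) * (φ ⬝ᵥ v), 0, 1) (1, 0, (m - 1) * (ψ ⬝ᵥ u), m) w)) *ᵥ c) := fun w => by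
    induction w with
    | nil => exact ⟨1, one_mem _, 1, fun c => by
        rw [Units.val_one, one_mulVec, one_smul, ev, mx, ← one_fin_two, one_mulVec]⟩
    | cons x w ih =>
      obtain ⟨g, hg, k, e⟩ := ih
      cases x
      · exact ⟨a * g, mul_mem ha hg, s * k, fun c => by
          rw [Units.val_mul, ← mulVec_mulVec, e, hA, mulVec_mulVec, smul_mul_smul_comm, ev, mx_mu, cond_false]⟩
      · exact ⟨b * g, mul_mem hb hg, t * k, fun c => by
          rw [Units.val_mul, ← mulVec_mulVec, e, hB, mulVec_mulVec, smul_mul_smul_comm, ev, mx_mu, cond_true]⟩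
  obtain ⟨g, hg, k, e⟩ := key w
  generalize ev (m, (m - 1) * (φ ⬝ᵥ v), 0, 1) (1, 0, (m - 1) * (ψ ⬝ᵥ u), m) w = M at hw e
  have h1 : ∀ j : ℕ, ∀ c, (g ^ j).1 *ᵥ L c = L ((k • mx M) ^ j *ᵥ c) := fun j => by
    induction j with
    | zero => simp
    | succ j ih => intro c; rw [pow_succ', Units.val_mul, ← mulVec_mulVec, ih, e, mulVec_mulVec, ← pow_succ']
  have h2 : g ^ Nat.card W = 1 := congrArg Subtype.val (pow_card_eq_one' (x := (⟨g, hg⟩ : W)))
  refine not_bad (N := Nat.card W) (k := k) ?_ (fun e => hW ((ZMod.natCast_eq_zero_iff _ _).1 e)) ?_ hw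
  · refine fun e => absurd ((ZMod.natCast_eq_zero_iff 2 p).1 (by exact_mod_cast e)) ?_
    rcases h with rfl | rfl <;> norm_num
  · refine Matrix.toLin'.injective (LinearMap.ext fun c => hL _ _ ?_)
    rw [toLin'_apply, toLin'_apply, ← h1, h2, Units.val_one, one_mulVec, one_mulVec]

end CfsgLib.RV
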