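import Mathlib
import Cfsg.Agent.Lib.RV.LL

/-!
# Package ABL: the configuration in dimension three does not exist (plans/RV.md)
-/

set_option autoImplicit false
set_option maxHeartbeats 400000

namespace CfsgLib.RV

open Subgroup Matrix Cfsg CfsgLib.Fusion

variable {p : ℕ} [hp : Fact p.Prime]

namespace Abl

theorem ent (a b : GL (Fin 3) (ZMod p)) (i j : Fin 3) :
    (a * b).1 i j = a.1 i 0 * b.1 0 j + a.1 i 1 * b.1 1 j + a.1 i 2 * b.1 2 j := by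
  simp [mul_apply, Fin.sum_univ_three]

theorem alg {F : Type*} [CommRing F] {m1 m2 f1 f2 x0 x1 x2 a0 a1 a2 n1 n2 b1 b2 : F}
    (h1 : f1 * m1 + f2 * m2 = 1) (h2 : a0 * x0 + a1 * x1 + a2 * x2 = 1) (h3 : 2 * (x0 * a0) = 1)
    (h4 : f1 * x1 + f2 * x2 = 0) (h5 : a1 * m1 + a2 * m2 = 0) (h6 : b1 * n1 + b2 * n2 = 1)
    (h7 : 2 * ((f1 * n1 + f2 * n2) * (b1 * m1 + b2 * m2)) = 1) :
    4 * ((a1 * n1 + a2 * n2) * (b1 * x1 + b2 * x2)) = 1 := by
  have k : ∀ u1 u2 v1 v2 : F, u1 * v1 + u2 * v2 =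
      (u1 * m1 + u2 * m2) * (f1 * v1 + f2 * v2) + (u1 * f2 - u2 * f1) * (m2 * v1 - m1 * v2) := fun u1 u2 v1 v2 => by
    linear_combination (-(u1 * v1 + u2 * v2)) * h1
  have e1 : 2 * ((a1 * f2 - a2 * f1) * (m2 * x1 - m1 * x2)) = 1 := by
    have := k a1 a2 x1 x2
    rw [h5] at this
    linear_combination -2 * this + 2 * h2 - h3
  have e2 : 2 * ((b1 * f2 - b2 * f1) * (m2 * n1 - m1 * n2)) = 1 := by
    linear_combination -2 * k b1 b2 n1 n2 + 2 * h6 - h7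
  rw [k a1 a2 n1 n2, k b1 b2 x1 x2, h5, h4]
  linear_combination (2 * ((b1 * f2 - b2 * f1) * (m2 * n1 - m1 * n2))) * e1 + e2

variable (h : p = 5 ∨ p = 13) {W : Subgroup (GL (Fin 3) (ZMod p))} (hW : ¬ p ∣ Nat.card W) {m : ZMod p}
  (hm : m * m = -1) {c : GL (Fin 3) (ZMod p)} (hc : c ∈ W) (ec : c.1 = diagonal ![-1, m, m])
include h hW hm hc ec

theorem alt {k : GL (Fin 3) (ZMod p)} (hk : k ∈ W) : (k.1 1 0 = 0 ∧ k.1 2 0 = 0) ∨
    (k.1 0 0 = 0 ∧ (k⁻¹).1 0 0 = 0) ∨ 2 * (k.1 0 0 * (k⁻¹).1 0 0) = 1 := by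
  have e : c.1 = m • (1 + (m - 1) • vecMulVec ![1, 0, 0] ![1, 0, 0]) := by
    rw [ec]
    ext i j
    fin_cases i <;> fin_cases j <;> simp [vecMulVec_apply]
    linear_combination -hm
  have e1 : (k * c * k⁻¹).1 = m • (1 + (m - 1) • vecMulVec (k.1 *ᵥ ![1, 0, 0]) (![1, 0, 0] ᵥ* (k⁻¹).1)) := by
    rw [Units.val_mul, Units.val_mul, e, Matrix.mul_smul, Matrix.smul_mul, mul_add, add_mul, mul_one,
      ← Units.val_mul, mul_inv_cancel, Units.val_one, Matrix.mul_smul, Matrix.smul_mul, mul_vecMulVec,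
      vecMulVec_mul]
  have e2 : ∀ i, (k.1 *ᵥ ![1, 0, 0]) i = k.1 i 0 := fun i => by simp [mulVec, dotProduct, Fin.sum_univ_three]
  have e3 : ∀ i, (![1, 0, 0] ᵥ* (k⁻¹).1) i = (k⁻¹).1 0 i := fun i => by
    simp only [vecMul, dotProduct, Fin.sum_univ_three]; simp
  have e4 : ∀ v : Fin 3 → ZMod p, ![1, 0, 0] ⬝ᵥ v = v 0 := fun v => by simp [dotProduct, Fin.sum_univ_three]
  have e5 : ∀ v : Fin 3 → ZMod p, v ⬝ᵥ ![1, 0, 0] = v 0 := fun v => by simp [dotProduct, Fin.sum_univ_three]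
  have := lemL h hW hm hc (W.mul_mem (W.mul_mem hk hc) (W.inv_mem hk)) (by rw [e4]; rfl) (by
    rw [← dotProduct_mulVec, mulVec_mulVec, ← Units.val_mul, inv_mul_cancel, Units.val_one, one_mulVec, e4]
    rfl) e e1
  rw [e4, e5, e2, e3] at this
  refine this.imp_left fun ⟨r, hr⟩ => ?_
  rw [← e2, ← e2, hr]
  simp

theorem step (hk : ∀ a b : V2 p, a ≠ 0 → b ≠ 0 → ∃ k ∈ W, ∃ A : G2 p,
      k.1 = !![1, 0, 0; 0, A.1 0 0, A.1 0 1; 0, A.1 1 0, A.1 1 1] ∧ om (A.1 *ᵥ a) a ≠ 0 ∧ om (A.1 *ᵥ a) b ≠ 0)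
    {g : GL (Fin 3) (ZMod p)} (hg : g ∈ W) (e1 : g.1 0 0 = 0) (e2 : (g⁻¹).1 0 0 = 0) :
    ∃ k ∈ W, (k * g).1 0 0 = 0 ∧ (g⁻¹ * k⁻¹).1 0 0 = 0 ∧
      2 * ((g⁻¹ * (k * g)).1 0 0 * ((g⁻¹ * (k * g))⁻¹).1 0 0) = 1 := by
  have h1 := ent g⁻¹ g 0 0
  rw [inv_mul_cancel, e1, mul_zero, zero_add, Units.val_one, one_apply_eq] at h1
  obtain ⟨k, hkW, A, ek, a1, a2⟩ := hk ![g.1 1 0, g.1 2 0] ![(g⁻¹).1 0 2, -(g⁻¹).1 0 1]
    (fun e => by
      rw [show g.1 1 0 = 0 from congrFun e 0, show g.1 2 0 = 0 from congrFun e 1] at h1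
      simp at h1)
    (fun e => by
      rw [show (g⁻¹).1 0 2 = 0 from congrFun e 0, neg_eq_zero.1 (show -(g⁻¹).1 0 1 = 0 from congrFun e 1)] at h1
      simp at h1)
  have b0 : (k * g).1 0 0 = 0 := by rw [ent, ek, e1]; simp
  have b1 : (k * g).1 1 0 = (A.1 *ᵥ ![g.1 1 0, g.1 2 0]) 0 := by
    rw [ent, ek]; simp [mulVec, dotProduct, Fin.sum_univ_two]
  have b2 : (k * g).1 2 0 = (A.1 *ᵥ ![g.1 1 0, g.1 2 0]) 1 := by
    rw [ent, ek]; simp [mulVec, dotProduct, Fin.sum_univ_two]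
  have c1 : ∀ i, i ≠ 0 → (k⁻¹).1 i 0 = 0 := fun i hi => by
    have := ent k⁻¹ k i 0
    rw [inv_mul_cancel, Units.val_one, one_apply_ne hi, ek] at this
    simpa using this.symm
  refine ⟨k, hkW, b0, by rw [ent, e2, c1 1 (by decide), c1 2 (by decide)]; simp, ?_⟩
  rcases alt h hW hm hc ec (W.mul_mem (W.inv_mem hg) (W.mul_mem hkW hg)) with ⟨d1, d2⟩ | ⟨d1, -⟩ | d
  · refine (a1 ?_).elim
    have d3 := ent g (g⁻¹ * (k * g))
    rw [mul_inv_cancel_left] at d3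
    unfold om
    rw [← b1, ← b2, d3, d3, d1, d2]
    simp only [cons_val_zero, cons_val_one]
    ring
  · refine (a2 ?_).elim
    rw [ent, b0, b1, b2] at d1
    unfold om
    simp only [cons_val_zero, cons_val_one]
    linear_combination -d1
  · exact d

end Abl


theorem abl (h : p = 5 ∨ p = 13) {W : Subgroup (GL (Fin 3) (ZMod p))} (hW : ¬ p ∣ Nat.card W) {m : ZMod p}
    (hm : m * m = -1) {c g : GL (Fin 3) (ZMod p)} (hc : c ∈ W) (ec : c.1 = diagonal ![-1, m, m]) (hg : g ∈ W)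
    (eg : g.1 0 0 = 0) (hk : ∀ a b : V2 p, a ≠ 0 → b ≠ 0 → ∃ k ∈ W, ∃ A : G2 p,
      k.1 = !![1, 0, 0; 0, A.1 0 0, A.1 0 1; 0, A.1 1 0, A.1 1 1] ∧ om (A.1 *ᵥ a) a ≠ 0 ∧ om (A.1 *ᵥ a) b ≠ 0) :
    False := by
  have eg' : (g⁻¹).1 0 0 = 0 := by
    rcases Abl.alt h hW hm hc ec hg with ⟨d1, d2⟩ | ⟨-, d⟩ | d
    · have := Abl.ent g⁻¹ g 0 0
      rw [inv_mul_cancel, eg, d1, d2] at this
      simp at this
    · exact d
    · rw [eg] at d
      simp at d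
  obtain ⟨k, hkW, a1, a2, a3⟩ := Abl.step h hW hm hc ec hk hg eg eg'
  obtain ⟨l, hlW, b1, b2, b3⟩ := Abl.step h hW hm hc ec hk (W.inv_mem hg) eg' (by rwa [inv_inv])
  rw [inv_inv] at b2 b3
  have hx := W.mul_mem (W.inv_mem hg) (W.mul_mem hkW hg)
  have hn := W.mul_mem hlW (W.inv_mem hg)
  have c4 : (g * (g⁻¹ * (k * g))).1 0 0 = 0 := by rwa [mul_inv_cancel_left]
  have c5 : ((g⁻¹ * (k * g))⁻¹ * g⁻¹).1 0 0 = 0 := by
    rwa [show (g⁻¹ * (k * g))⁻¹ * g⁻¹ = g⁻¹ * k⁻¹ by group]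
  have c6 : ((l * g⁻¹)⁻¹).1 0 0 = 0 := by rwa [_root_.mul_inv_rev, inv_inv]
  generalize g⁻¹ * (k * g) = x at *
  generalize l * g⁻¹ = n at *
  have c1 := Abl.ent g g⁻¹ 0 0
  have c2 := Abl.ent x⁻¹ x 0 0
  have c3 := Abl.ent n⁻¹ n 0 0
  rw [mul_inv_cancel, Units.val_one, one_apply_eq, eg, zero_mul, zero_add] at c1
  rw [inv_mul_cancel, Units.val_one, one_apply_eq] at c2 c3
  rw [b1, mul_zero, zero_add] at c3
  rw [Abl.ent, eg, zero_mul, zero_add] at c4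
  rw [Abl.ent, eg', mul_zero, zero_add] at c5
  rw [_root_.mul_inv_rev, Abl.ent, Abl.ent, eg, eg', zero_mul, mul_zero, zero_add, zero_add] at b3
  have key := Abl.alg c1.symm c2.symm a3 c4 c5 c3.symm b3
  have d1 := Abl.ent x⁻¹ n 0 0
  have d2 := Abl.ent n⁻¹ x 0 0
  rw [b1, mul_zero, zero_add] at d1
  rw [c6, zero_mul, zero_add] at d2
  rw [← d1, ← d2] at key
  have := Abl.alt h hW hm hc ec (W.mul_mem (W.inv_mem hx) hn)
  rw [_root_.mul_inv_rev, inv_inv] at this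
  rcases this with ⟨d3, d4⟩ | ⟨d3, -⟩ | d3
  · have d5 := Abl.ent x (x⁻¹ * n) 0 0
    rw [mul_inv_cancel_left, b1, d3, d4, mul_zero, mul_zero, add_zero, add_zero] at d5
    rcases mul_eq_zero.1 d5.symm with e | e
    · rw [e] at a3; simp at a3
    · rw [e] at key; simp at key
  · rw [d3] at key; simp at key
  · exact one_ne_zero (α := ZMod p) (by linear_combination key - 2 * d3)

theorem scalar_of_comm (hp2 : p ≠ 2) {I J C : Matrix (Fin 2) (Fin 2) (ZMod p)} (hI : I * I = -1) (hJ : J * J = -1)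
    (hIJ : J * I = -(I * J)) (h1 : C * I = I * C) (h2 : C * J = J * C) : ∃ m : ZMod p, C = m • 1 := by
  have h0 : (2 : ZMod p) ≠ 0 := fun h =>
    hp2 ((Nat.prime_dvd_prime_iff_eq hp.out Nat.prime_two).1 ((ZMod.natCast_eq_zero_iff 2 p).1 (by exact_mod_cast h)))
  have hn : I * J ≠ J * I := fun e => by
    have e1 : (2 : ZMod p) • (I * J) = 0 := by rw [two_smul]; nth_rewrite 1 [e, hIJ]; exact neg_add_cancel _
    have e2 := congrArg (fun X => I * X * J) ((smul_eq_zero.1 e1).resolve_left h0)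
    simp only [← mul_assoc, hI] at e2
    rw [mul_assoc, hJ] at e2
    simp at e2
  have a := fun i j => congrFun (congrFun h1 i) j
  have b := fun i j => congrFun (congrFun h2 i) j
  simp only [mul_apply, Fin.sum_univ_two] at a b
  have key : ∀ t : ZMod p, t * (I 0 1 * J 1 0 - J 0 1 * I 1 0) = 0 →
      t * ((I 0 0 - I 1 1) * J 0 1 - (J 0 0 - J 1 1) * I 0 1) = 0 →
      t * ((I 0 0 - I 1 1) * J 1 0 - (J 0 0 - J 1 1) * I 1 0) = 0 → t = 0 := fun t e1 e2 e3 => by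
    by_contra ht
    have f1 := (mul_eq_zero.1 e1).resolve_left ht
    have f2 := (mul_eq_zero.1 e2).resolve_left ht
    have f3 := (mul_eq_zero.1 e3).resolve_left ht
    refine hn ?_
    ext i j
    fin_cases i <;> fin_cases j <;> simp only [mul_apply, Fin.sum_univ_two, Fin.zero_eta, Fin.mk_one]
    · linear_combination f1
    · linear_combination f2
    · linear_combination -f3
    · linear_combination -f1
  have k1 : C 0 1 = 0 := key _ (by linear_combination I 0 1 * b 0 0 - J 0 1 * a 0 0)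
    (by linear_combination -J 0 1 * a 0 1 + I 0 1 * b 0 1)
    (by linear_combination (I 0 0 - I 1 1) * b 0 0 + J 0 1 * a 1 0 + I 1 0 * b 0 1)
  have k2 : C 1 0 = 0 := key _ (by linear_combination -J 1 0 * a 0 0 + I 1 0 * b 0 0)
    (by linear_combination -J 1 0 * a 0 1 - (I 0 0 - I 1 1) * b 0 0 - I 0 1 * b 1 0)
    (by linear_combination J 1 0 * a 1 0 - I 1 0 * b 1 0)
  have k3 : C 0 0 - C 1 1 = 0 := key _
    (by linear_combination J 1 0 * a 0 1 + J 0 1 * a 1 0 + (I 0 0 - I 1 1) * b 0 0)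
    (by linear_combination (I 0 0 - I 1 1) * b 0 1 - (J 0 0 - J 1 1) * a 0 1)
    (by linear_combination -(I 0 0 - I 1 1) * b 1 0 + (J 0 0 - J 1 1) * a 1 0)
  refine ⟨C 0 0, ?_⟩
  ext i j
  fin_cases i <;> fin_cases j <;> simp [k1, k2, sub_eq_zero.1 k3]

end CfsgLib.RV
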