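import Mathlib
import Cfsg.Agent.Lib.RV.Defs
import Cfsg.Agent.Lib.TezYag.Basic

/-!
# Package LIN: admissible data with two lines, and the primes for three lines (plans/RV.md)
-/

set_option autoImplicit false
set_option linter.unusedSectionVars false

namespace CfsgLib.RV

open Subgroup Matrix Cfsg CfsgLib.Fusion

variable {p : ℕ} [hp : Fact p.Prime] {W : Subgroup (G2 p)} {E : Set (V2 p)}

namespace LinP

theorem det_ne (g : G2 p) : g.1.det ≠ 0 := (GeneralLinearGroup.det g).ne_zero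

theorem inv_mulVec (g : G2 p) (v : V2 p) : (g⁻¹).1 *ᵥ (g.1 *ᵥ v) = v := by
  rw [mulVec_mulVec, ← Units.val_mul, inv_mul_cancel, Units.val_one, one_mulVec]

theorem mulVec_inv (g : G2 p) (v : V2 p) : g.1 *ᵥ ((g⁻¹).1 *ᵥ v) = v := inv_mulVec g⁻¹ v

theorem ext2 {v w : V2 p} (h0 : v 0 = w 0) (h1 : v 1 = w 1) : v = w := funext (Fin.forall_fin_two.2 ⟨h0, h1⟩)

theorem om_swap (v w : V2 p) : om v w = -om w v := by simp only [om]; ring

theorem unip {N : Matrix (Fin 2) (Fin 2) (ZMod p)} {v : V2 p} (hv : v ≠ 0) (h : N *ᵥ v = 0) (hd : (1 + N).det = 1) :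
    (1 + N) ^ p = 1 := by
  have h1 : N.det = 0 := exists_mulVec_eq_zero_iff.1 ⟨v, hv, h⟩
  have h2 : N * N = 0 := by
    simp only [det_fin_two, Matrix.add_apply, one_apply_eq, one_apply_ne (by decide : (0 : Fin 2) ≠ 1),
      one_apply_ne (by decide : (1 : Fin 2) ≠ 0)] at h1 hd
    have h3 : N 0 0 + N 1 1 = 0 := by linear_combination hd - h1
    ext i j
    fin_cases i <;> fin_cases j <;> simp only [mul_apply, Fin.sum_univ_two, Fin.zero_eta, Fin.mk_one, Matrix.zero_apply]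
    · linear_combination N 0 0 * h3 - h1
    · linear_combination N 0 1 * h3
    · linear_combination N 1 0 * h3
    · linear_combination N 1 1 * h3 - h1
  have h4 : ∀ n : ℕ, (1 + N) ^ n = 1 + (n : ZMod p) • N := fun n => by
    induction n with
    | zero => simp
    | succ n ih =>
      rw [pow_succ, ih, add_mul, mul_add, mul_add, smul_mul_assoc, smul_mul_assoc, h2]
      simp only [Nat.cast_succ, add_smul, one_smul, one_mul, mul_one, smul_zero, add_zero]
      abel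
  rw [h4, ZMod.natCast_self, zero_smul, add_zero]

end LinP

open LinP

theorem Adm.conj (h : Adm W E) (g : G2 p) : Adm (cjW g W) (cjE g E) := by
  refine ⟨by rw [cjW, card_map_of_injective (MulAut.conj g).injective]; exact h.cop, ?_, ?_, ?_, ?_⟩
  · rintro _ ⟨v, hv, rfl⟩ e
    exact h.ne v hv (by rw [← inv_mulVec g v]; exact (congrArg _ e).trans (mulVec_zero _))
  · rintro _ ⟨v, hv, rfl⟩ t ht
    exact ⟨_, h.smul v hv t ht, mulVec_smul _ _ _⟩
  · intro A hA v hv
    have := h.inv _ (mem_cjW.1 hA) _ (mem_cjE.1 hv)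
    rw [Units.val_mul, ← mulVec_mulVec, mulVec_inv, Units.val_mul, ← mulVec_mulVec] at this
    exact mem_cjE.2 this
  · rintro _ ⟨v, hv, rfl⟩ l
    obtain ⟨A, hA, e1, e2⟩ := h.tor v hv l
    refine ⟨g * A * g⁻¹, ⟨A, hA, rfl⟩, ?_, ?_⟩
    · rw [Units.val_mul, ← mulVec_mulVec, inv_mulVec, Units.val_mul, ← mulVec_mulVec, e1, mulVec_smul]
    · rw [Units.val_mul, Units.val_mul, det_units_conj, e2]

theorem Three.conj (h : Three E) (g : G2 p) : Three (cjE g E) := by
  obtain ⟨u, hu, v, hv, w, hw, h1, h2, h3⟩ := h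
  refine ⟨_, ⟨u, hu, rfl⟩, _, ⟨v, hv, rfl⟩, _, ⟨w, hw, rfl⟩, ?_, ?_, ?_⟩ <;> rw [om_mulVec] <;>
    exact mul_ne_zero (det_ne g) ‹_›

theorem exists_smul_of_om {v w : V2 p} (hv : v ≠ 0) (h : om v w = 0) : ∃ t : ZMod p, w = t • v := by
  rw [om] at h
  by_cases h0 : v 0 = 0
  · have h1 : v 1 ≠ 0 := fun e => hv (ext2 h0 e)
    refine ⟨w 1 / v 1, ext2 ?_ ?_⟩ <;> rw [Pi.smul_apply, smul_eq_mul] <;> field_simp
    linear_combination -h
  · refine ⟨w 0 / v 0, ext2 ?_ ?_⟩ <;> rw [Pi.smul_apply, smul_eq_mul] <;> field_simp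
    linear_combination h

/-- a change of basis -/
theorem exists_basis {v w : V2 p} (h : om v w ≠ 0) : ∃ g : G2 p, g.1 *ᵥ v = ![1, 0] ∧ g.1 *ᵥ w = ![0, 1] := by
  let a : G2 p := GeneralLinearGroup.mkOfDetNeZero !![v 0, w 0; v 1, w 1] (by
    rw [det_fin_two_of, mul_comm (w 0)]; exact h)
  have e1 : a.1 *ᵥ ![1, 0] = v := ext2 (by simp [a]) (by simp [a])
  have e2 : a.1 *ᵥ ![0, 1] = w := ext2 (by simp [a]) (by simp [a])
  exact ⟨a⁻¹, by rw [← e1, inv_mulVec], by rw [← e2, inv_mulVec]⟩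

/-- the stabiliser of a line in a `p'`-group is abelian -/
theorem comm_of_fix (hW : ¬ p ∣ Nat.card W) {v : V2 p} (hv : v ≠ 0) {A B : G2 p} (hA : A ∈ W) (hB : B ∈ W)
    (eA : om (A.1 *ᵥ v) v = 0) (eB : om (B.1 *ᵥ v) v = 0) : A * B = B * A := by
  obtain ⟨a, ha⟩ := exists_smul_of_om hv (by rw [om_swap, eA, neg_zero])
  obtain ⟨b, hb⟩ := exists_smul_of_om hv (by rw [om_swap, eB, neg_zero])
  have hC : (B * A)⁻¹ * (A * B) ∈ W := mul_mem (inv_mem (mul_mem hB hA)) (mul_mem hA hB)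
  generalize hc : (B * A)⁻¹ * (A * B) = C at hC
  have e1 : C.1 *ᵥ v = v := by
    have : (A * B).1 *ᵥ v = (B * A).1 *ᵥ v := by
      rw [Units.val_mul, Units.val_mul, ← mulVec_mulVec, ← mulVec_mulVec, ha, hb, mulVec_smul, mulVec_smul, ha, hb,
        smul_comm]
    rw [← hc, Units.val_mul, ← mulVec_mulVec, this, inv_mulVec]
  have e2 : C.1.det = 1 := by
    have : GeneralLinearGroup.det C = 1 := by rw [← hc, map_mul, map_inv, map_mul, map_mul, mul_comm _ (GeneralLinearGroup.det B), inv_mul_cancel]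
    exact congrArg Units.val this
  have e3 := unip (N := C.1 - 1) hv (by rw [sub_mulVec, e1, one_mulVec, sub_self]) (by rw [add_sub_cancel, e2])
  rw [add_sub_cancel] at e3
  have e4 : C = 1 := orderOf_eq_one_iff.1 (Nat.eq_one_of_dvd_coprimes ((Nat.Prime.coprime_iff_not_dvd hp.out).2 hW)
    (orderOf_dvd_of_pow_eq_one (Units.ext e3)) (W.orderOf_dvd_natCard hC))
  rw [e4, inv_mul_eq_one] at hc
  exact hc.symm

theorem two_lines (h : Adm W E) (h2 : ∃ v ∈ E, ∃ w ∈ E, om v w ≠ 0) (h3 : ¬ Three E) :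
    ∃ g, cjE g E = axes p ∧ T0 p ⊆ cjW g W ∧ (cjW g W : Set (G2 p)) ⊆ Mono p := by
  obtain ⟨v, hv, w, hw, hvw⟩ := h2
  obtain ⟨g, e0, e1⟩ := exists_basis hvw
  have h' := h.conj g
  have m0 : ![1, 0] ∈ cjE g E := ⟨v, hv, e0⟩
  have m1 : ![0, 1] ∈ cjE g E := ⟨w, hw, e1⟩
  have h3' : ¬ Three (cjE g E) := fun k => h3 (by
    have := k.conj g⁻¹
    rwa [cjE_cjE, inv_mul_cancel, cjE_one] at this)
  refine ⟨g, ?_⟩
  generalize cjE g E = E' at *
  generalize cjW g W = W' at *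
  have hE : E' = axes p := by
    ext u
    refine ⟨fun hu => ⟨h'.ne u hu, by_contra fun k => h3' ⟨_, m0, _, m1, u, hu, ?_, ?_, ?_⟩⟩, fun hu => ?_⟩
    · simp [om]
    · simpa [om] using right_ne_zero_of_mul k
    · simpa [om] using left_ne_zero_of_mul k
    · rcases mul_eq_zero.1 hu.2 with k | k
      · have := h'.smul _ m1 (u 1) fun e => hu.1 (ext2 k e)
        rwa [show u 1 • ![0, 1] = u from ext2 (by simp [k]) (by simp)] at this
      · have := h'.smul _ m0 (u 0) fun e => hu.1 (ext2 e k)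
        rwa [show u 0 • ![1, 0] = u from ext2 (by simp) (by simp [k])] at this
  have hM : (W' : Set (G2 p)) ⊆ Mono p := fun A hA => by
    have a0 := (hE.le (h'.inv A hA _ m0)).2
    have a1 := (hE.le (h'.inv A hA _ m1)).2
    have d := det_ne A
    simp only [mulVec, dotProduct, Fin.sum_univ_two, cons_val_zero, cons_val_one, mul_one, mul_zero, add_zero,
      zero_add] at a0 a1
    rw [det_fin_two] at d
    rcases mul_eq_zero.1 a0 with a0 | a0 <;> rcases mul_eq_zero.1 a1 with a1 | a1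
    · exact absurd (by rw [a0, a1]; ring) d
    · exact Or.inr ⟨a0, a1⟩
    · exact Or.inl ⟨a1, a0⟩
    · exact absurd (by rw [a0, a1]; ring) d
  refine ⟨hE, fun A ⟨a1, a2, u, a3⟩ => ?_, hM⟩
  have d := det_ne A
  rw [det_fin_two, a1, zero_mul, sub_zero] at d
  have y0 : A.1 1 1 ≠ 0 := right_ne_zero_of_mul d
  have u0 : u ≠ 0 := fun e => left_ne_zero_of_mul d (by rw [a3, e]; ring)
  obtain ⟨B, hB, b1, b2⟩ := h'.tor _ m0 (Units.mk0 _ (mul_ne_zero y0 u0))
  obtain ⟨C, hC, c1, c2⟩ := h'.tor _ m1 (Units.mk0 _ (mul_ne_zero y0 (pow_ne_zero 2 u0)))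
  have b3 : B.1 0 0 = (A.1 1 1 * u)⁻¹ := by simpa [mulVec, dotProduct] using congrFun b1 0
  have c3 : C.1 1 1 = (A.1 1 1 * u ^ 2)⁻¹ := by simpa [mulVec, dotProduct] using congrFun c1 1
  obtain ⟨b4, b5⟩ := (hM hB).resolve_right fun k => inv_ne_zero (mul_ne_zero y0 u0) (b3.symm.trans k.1)
  obtain ⟨c4, c5⟩ := (hM hC).resolve_right fun k =>
    inv_ne_zero (mul_ne_zero y0 (pow_ne_zero 2 u0)) (c3.symm.trans k.2)
  rw [det_fin_two, b4, b3, zero_mul, sub_zero, Units.val_mk0, inv_mul_eq_iff_eq_mul₀ (mul_ne_zero y0 u0)] at b2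
  rw [det_fin_two, c4, c3, zero_mul, sub_zero, Units.val_mk0,
    mul_inv_eq_iff_eq_mul₀ (mul_ne_zero y0 (pow_ne_zero 2 u0))] at c2
  have : A = B * C := Units.ext (by
    ext i j
    fin_cases i <;> fin_cases j <;>
      simp only [Units.val_mul, mul_apply, Fin.sum_univ_two, Fin.zero_eta, Fin.mk_one, a1, a2, a3, b2, b3, b4, b5, c2, c3,
        c4, c5] <;> field_simp <;> ring)
  exact this ▸ mul_mem hB hC

theorem three_prime (hp2 : p ≠ 2) (hp7 : p ≠ 7) (h : Adm W E) (h3 : Three E) : p = 3 ∨ p = 5 ∨ p = 13 := by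
  by_cases h7 : 7 < p
  swap
  · have := hp.out
    have h8 : p ≤ 7 := by omega
    interval_cases p <;> first | omega | (exfalso; revert this; decide)
  obtain ⟨u, hu, v, hv, w, hw, h1, h2, h3⟩ := h3
  obtain ⟨l, hl⟩ := IsCyclic.exists_ofOrder_eq_natCard (α := (ZMod p)ˣ)
  have key : ∀ v ∈ E, ∃ d : W.map ProjGenLinGroup.mk, d.1 • TezYag.pnt v = TezYag.pnt v ∧
      ∀ k, d ^ k = 1 → p - 1 ∣ 3 * k := fun v hv => by
    obtain ⟨A, hA, e1, e0⟩ := h.tor v hv l
    refine ⟨⟨_, A, hA, rfl⟩, TezYag.smul_pnt (h.ne v hv) e1, fun k hk => ?_⟩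
    have e2 : A ^ k ∈ center (G2 p) := by
      rw [← ProjGenLinGroup.mk_eq_one, map_pow]
      exact congrArg Subtype.val hk
    obtain ⟨μ, hμ⟩ := GeneralLinearGroup.mem_center_iff_val_mem_range_scalar.1 e2
    have e5 : ∀ j : ℕ, (A ^ j).1 *ᵥ v = ((l⁻¹ : (ZMod p)ˣ) : ZMod p) ^ j • v := fun j => by
      induction j with
      | zero => rw [pow_zero, pow_zero, one_smul, Units.val_one, one_mulVec]
      | succ j ih => rw [pow_succ', Units.val_mul, ← mulVec_mulVec, ih, mulVec_smul, e1, smul_smul, pow_succ]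
    have e6 : μ ^ 2 = (l : ZMod p) ^ k := by
      rw [← e0, ← det_pow, ← Units.val_pow_eq_pow_val, ← hμ, scalar_apply, det_diagonal, Fin.prod_const]
    have e7 : μ = ((l⁻¹ : (ZMod p)ˣ) : ZMod p) ^ k := smul_left_injective _ (h.ne v hv) (by
      have := e5 k
      rwa [← hμ, scalar_apply, ← smul_one_eq_diagonal, smul_mulVec, one_mulVec] at this)
    have e8 : l ^ (3 * k) = 1 := by
      apply Units.val_injective
      have e9 : ((l⁻¹ : (ZMod p)ˣ) : ZMod p) ^ k * (l : ZMod p) ^ k = 1 := by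
        rw [← mul_pow, Units.inv_mul, one_pow]
      rw [Units.val_pow_eq_pow_val, Units.val_one, mul_comm, pow_mul]
      rw [← e7] at e9
      linear_combination (-((l : ZMod p) ^ k) ^ 2) * e6 + (μ * (l : ZMod p) ^ k + 1) * e9
    have := orderOf_dvd_of_pow_eq_one e8
    rwa [hl, Nat.card_eq_fintype_card, ZMod.card_units] at this
  have hx : ∀ i, ![u, v, w] i ∈ E := fun i => by fin_cases i <;> assumption
  choose d d1 d2 using fun i => key _ (hx i)
  have ne : ∀ {a b : V2 p}, a ∈ E → om a b ≠ 0 → TezYag.pnt a ≠ TezYag.pnt b := fun ha k e => by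
    obtain ⟨t, rfl⟩ := TezYag.exists_of_pnt_eq (h.ne _ ha) e
    exact k (by simp only [om, Pi.smul_apply, smul_eq_mul]; ring)
  have hi : Function.Injective fun i => TezYag.pnt (![u, v, w] i) := fun i j e => by
    fin_cases i <;> fin_cases j
    exacts [rfl, absurd e (ne hu h1), absurd e (ne hu h2), absurd e.symm (ne hu h1), rfl, absurd e (ne hv h3),
      absurd e.symm (ne hu h2), absurd e.symm (ne hv h3), rfl]
  have := TezYag.not_platonic (d2 0) h7 (TezYag.platonic_of_three _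
    (fun k => h.cop (k.trans (card_map_dvd _ _))) _ hi d d1 fun i e => by
      have := Nat.le_of_dvd (by omega) (d2 i 2 e)
      omega)
  exact Or.inr (Or.inr this.1)

end CfsgLib.RV
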