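import Mathlib
import Cfsg.Agent.Lib.RV.Lin
import Cfsg.Agent.Lib.Frob.Quaternion
import Cfsg.Agent.Lib.Perm.JordanPrime

/-!
# Package AL1: the centraliser of both elements (plans/RV.md)
-/

set_option autoImplicit false

namespace CfsgLib.RV

open Subgroup Matrix Cfsg CfsgLib.Fusion

variable {p : ℕ} [hp : Fact p.Prime] {G : Type*} [Group G] [Finite G] {z x : G}

namespace AL1

theorem six {α : Type*} {f : α → α} (hf : Function.Injective f) {a b c t : α}
    (T : ∀ k : ℕ, f^[k] t = a ∨ f^[k] t = b ∨ f^[k] t = c) : f^[6] t = t := by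
  have key : f t = t ∨ f (f t) = t ∨ f (f (f t)) = t := by
    by_contra hc
    simp only [not_or] at hc
    obtain ⟨h1, h2, h3⟩ := hc
    have g1 : f (f t) ≠ f t := fun e => h1 (hf e)
    have g2 : f (f (f t)) ≠ f t := fun e => h2 (hf e)
    have g3 : f (f (f t)) ≠ f (f t) := fun e => g1 (hf e)
    have t0 := T 0
    have t1 := T 1
    have t2 := T 2
    have t3 := T 3
    simp only [Function.iterate_succ, Function.iterate_zero, Function.comp_apply, id] at t0 t1 t2 t3
    grind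
  simp only [Function.iterate_succ, Function.iterate_zero, Function.comp_apply, id]
  rcases key with e | e | e
  · simp only [e]
  · simp only [e]
  · simp only [e]

/-- the common centraliser -/
abbrev BB (z x : G) : Subgroup G := centralizer ({z} : Set G) ⊓ centralizer {x}

omit [Finite G] in
theorem mem_BB {b : G} : b ∈ BB z x ↔ Commute b z ∧ Commute b x := by
  simp only [BB, mem_inf, mem_centralizer_singleton_iff, commute_iff_eq]

omit [Finite G] hp in
theorem zz (h : Hyp p z x) : z * z = 1 := by rw [← sq, ← h.oz, pow_orderOf_eq_one]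

omit [Finite G] hp in
theorem z_ne (h : Hyp p z x) : z ≠ 1 := fun e => by have := h.oz; rw [e, orderOf_one] at this; omega

omit [Finite G] hp in
theorem mem_z (h : Hyp p z x) {a : G} (ha : a ∈ zpowers z) : a = 1 ∨ a = z := by
  obtain ⟨k, rfl⟩ := mem_zpowers_iff.1 ha
  have h2 : z ^ (2 : ℤ) = 1 := by rw [zpow_two, zz h]
  rcases Int.even_or_odd' k with ⟨m, rfl | rfl⟩
  · left; rw [_root_.zpow_mul, h2, _root_.one_zpow]
  · right; rw [_root_.zpow_add, _root_.zpow_mul, h2, _root_.one_zpow, one_mul, zpow_one]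

omit [Finite G] hp in
theorem sq_z (h : Hyp p z x) {a : G} (ha : a ∈ zpowers z) : a * a = 1 := by
  rcases mem_z h ha with rfl | rfl
  · exact one_mul _
  · exact zz h

omit [Finite G] hp in
theorem invol (h : Hyp p z x) {b : G} (hb : b ∈ BB z x) (h2 : b * b = 1) : b = 1 ∨ b = z := by
  by_cases h1 : b = 1
  · exact Or.inl h1
  · have : Fact (Nat.Prime 2) := ⟨Nat.prime_two⟩
    exact Or.inr (h.inv b (mem_BB.1 hb).1 (mem_BB.1 hb).2 (orderOf_eq_prime (by rw [sq, h2]) h1))

omit [Finite G] hp in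
theorem z_mem (h : Hyp p z x) : z ∈ BB z x := mem_BB.2 ⟨Commute.refl z, h.zx⟩

omit [Finite G] hp in
theorem x_mem (h : Hyp p z x) : x ∈ BB z x := mem_BB.2 ⟨h.zx.symm, Commute.refl x⟩

omit [Finite G] hp in
theorem z_odd (h : Hyp p z x) {n : ℕ} (hn : Odd n) : z ^ n = z := by
  obtain ⟨m, rfl⟩ := hn
  rw [pow_succ, pow_mul, sq, zz h, one_pow, one_mul]

omit [Finite G] hp in
theorem p_odd (h : Hyp p z x) : Odd p := by rcases h.hp with rfl | rfl <;> decide

omit [Finite G] hp in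
/-- no element of order `12` modulo ... -/
theorem no12 (h : Hyp p z x) {w k : G} (hw : w ∈ BB z x) (hk : k ∈ BB z x) (w3 : w ^ 3 = 1) (w1 : w ≠ 1)
    (kk : k * k = z) (wk : Commute w k) : False := by
  have hb := mem_BB.1 ((BB z x).mul_mem hw hk)
  have ho : Odd p := p_odd h
  have : Fact (Nat.Prime 3) := ⟨Nat.prime_three⟩
  have ow : orderOf w = 3 := orderOf_eq_prime w3 w1
  rcases h.pow _ hb.1 hb.2 with e | e
  · have e2 := sq_z h e
    rw [← pow_add, wk.mul_pow, show 2 * p + 2 * p = 2 * (2 * p) by ring, pow_mul k, sq k, kk, pow_mul z, sq z, zz h,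
      one_pow, mul_one] at e2
    have := orderOf_dvd_of_pow_eq_one e2
    rw [ow] at this
    rcases h.hp with rfl | rfl <;> omega
  · have e2 := sq_z h e
    rw [← pow_add, wk.mul_pow, show 3 * p + 3 * p = 3 * (2 * p) by ring, pow_mul w, w3, one_pow, one_mul,
      show 3 * (2 * p) = 2 * (3 * p) by ring, pow_mul k, sq k, kk, z_odd h (by
        rcases h.hp with rfl | rfl <;> decide)] at e2
    exact z_ne h e2

theorem mem_x (h : Hyp p z x) {a : G} (ha : a ∈ BB z x) (hap : a ^ p = 1) : a ∈ zpowers x := by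
  by_cases h1 : a = 1
  · rw [h1]; exact one_mem _
  have oa : orderOf a = p := orderOf_eq_prime hap h1
  have hc : ¬ p ^ 2 ∣ Nat.card (BB z x) := by
    rw [h.cardB]; rcases h.hp with rfl | rfl <;> decide
  obtain ⟨k, hk⟩ := Perm.exists_conj_mem_zpowers_of_not_sq_dvd hp.out hc (x := ⟨x, x_mem h⟩) (y := ⟨a, ha⟩)
    ((orderOf_mk _ _).trans h.ox) ((orderOf_mk _ _).trans oa)
  obtain ⟨m, hm⟩ := mem_zpowers_iff.1 hk
  have hm' : x ^ m = (k : G) * a * (k : G)⁻¹ := by simpa using congrArg Subtype.val hm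
  have hkx : Commute (k : G) (x ^ m) := (mem_BB.1 k.2).2.zpow_right m
  refine mem_zpowers_iff.2 ⟨m, ?_⟩
  have : a = (k : G)⁻¹ * x ^ m * k := by rw [hm']; group
  rw [this, mul_assoc, ← hkx.eq, inv_mul_cancel_left]

omit [Finite G] hp in
theorem x3 (h : Hyp p z x) {y : G} (hy : y ∈ zpowers x) (y3 : y ^ 3 = 1) : y = 1 := by
  have h1 : orderOf y ∣ p := h.ox ▸ orderOf_dvd_of_mem_zpowers hy
  have h2 : orderOf y ∣ 3 := orderOf_dvd_of_pow_eq_one y3
  have h3 : Nat.Coprime p 3 := by rcases h.hp with rfl | rfl <;> decide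
  exact orderOf_eq_one_iff.1 (Nat.eq_one_of_dvd_coprimes h3 h1 h2)

omit [Finite G] in
theorem q_mem {i j c : G} (q : Quat8 z x i j c) : i ∈ BB z x ∧ j ∈ BB z x := by
  refine ⟨mem_BB.2 ⟨?_, q.ix⟩, mem_BB.2 ⟨?_, q.jx⟩⟩
  · rw [← q.ii]; exact (Commute.refl i).mul_right (Commute.refl i)
  · rw [← q.jj]; exact (Commute.refl j).mul_right (Commute.refl j)

omit [Finite G] hp in
theorem q_ij (h : Hyp p z x) {i j c : G} (q : Quat8 z x i j c) : (i * j) * (i * j) = z := by
  have hj := (mem_BB.1 (q_mem q).2).1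
  calc (i * j) * (i * j) = i * (j * i) * j := by group
    _ = (i * i) * (j * z) * j := by rw [q.ij]; group
    _ = (z * z) * (j * j) := by rw [q.ii, hj.eq]; group
    _ = z := by rw [zz h, q.jj, one_mul]

omit [Finite G] hp in
theorem q_ij' (h : Hyp p z x) {i j c : G} (q : Quat8 z x i j c) : (i⁻¹ * j) * (i⁻¹ * j) = z := by
  have hi := (mem_BB.1 (q_mem q).1).1
  have hj := (mem_BB.1 (q_mem q).2).1
  have e : i⁻¹ = z * i := by
    rw [inv_eq_iff_mul_eq_one, ← mul_assoc, hi.eq, mul_assoc, q.ii, zz h]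
  have hc : Commute z (i * j) := (hi.mul_left hj).symm
  rw [e, mul_assoc z i j, ← sq, hc.mul_pow, sq, sq, zz h, q_ij h q, one_mul]

end AL1

open AL1

theorem Hyp.exists_quat (h : Hyp p z x) : ∃ i j c, Quat8 z x i j c := by
  classical
  have : Fact (Nat.Prime 2) := ⟨Nat.prime_two⟩
  obtain ⟨R0⟩ : Nonempty (Sylow 2 (BB z x)) := inferInstance
  set R : Subgroup G := (R0 : Subgroup (BB z x)).map (BB z x).subtype with hR
  have cR : Nat.card R = 8 := by
    rw [hR, card_map_of_injective (BB z x).subtype_injective, Sylow.card_eq_multiplicity, h.cardB]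
    rcases h.hp with rfl | rfl
    · rw [show 24 * 5 = 2 ^ 3 * 15 by norm_num, Nat.factorization_mul (by norm_num) (by norm_num),
        Nat.prime_two.factorization_pow, Finsupp.add_apply, Finsupp.single_eq_same,
        Nat.factorization_eq_zero_of_not_dvd (by norm_num)]
      rfl
    · rw [show 24 * 13 = 2 ^ 3 * 39 by norm_num, Nat.factorization_mul (by norm_num) (by norm_num),
        Nat.prime_two.factorization_pow, Finsupp.add_apply, Finsupp.single_eq_same,
        Nat.factorization_eq_zero_of_not_dvd (by norm_num)]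
      rfl
  have RB : R ≤ BB z x := map_subtype_le _
  have r8 : ∀ r ∈ R, r ^ 8 = 1 := fun r hr => by
    have := pow_card_eq_one' (x := (⟨r, hr⟩ : R))
    rw [cR] at this
    exact congrArg Subtype.val this
  have r4 : ∀ r ∈ R, r ^ 4 = 1 := fun r hr => by
    have hb := mem_BB.1 (RB hr)
    have h8 := orderOf_dvd_of_pow_eq_one (r8 r hr)
    apply orderOf_dvd_iff_pow_eq_one.1
    rcases h.pow r hb.1 hb.2 with e | e
    · have e2 := sq_z h e
      rw [← pow_add] at e2
      have := Nat.dvd_gcd h8 (orderOf_dvd_of_pow_eq_one e2)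
      rcases h.hp with rfl | rfl <;> exact this
    · have e2 := sq_z h e
      rw [← pow_add] at e2
      have := Nat.dvd_gcd h8 (orderOf_dvd_of_pow_eq_one e2)
      rcases h.hp with rfl | rfl <;> exact this.trans (by decide)
  have rsq : ∀ r ∈ R, r ≠ 1 → r ≠ z → r * r = z := fun r hr h1 h2 => by
    rcases invol h (RB (R.mul_mem hr hr)) (by rw [← r4 r hr]; simp only [pow_succ, pow_zero, one_mul, mul_assoc]) with e | e
    · rcases invol h (RB hr) e with e' | e'
      · exact absurd e' h1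
      · exact absurd e' h2
    · exact e
  have big : ∀ a : G, orderOf a ≤ 4 → ∃ r ∈ R, r ∉ zpowers a := fun a ha => by
    by_contra hc
    push Not at hc
    have := Subgroup.card_le_of_le (show R ≤ zpowers a from hc)
    rw [cR, Nat.card_zpowers] at this
    omega
  obtain ⟨i, hi, hiz⟩ := big z (by rw [h.oz]; omega)
  have i1 : i ≠ 1 := fun e => hiz (e ▸ one_mem _)
  have i2 : i ≠ z := fun e => hiz (e ▸ mem_zpowers _)
  have ii := rsq i hi i1 i2
  have oi : orderOf i = 4 := by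
    have := orderOf_eq_prime_pow (p := 2) (n := 1) (x := i) (by rw [pow_one, sq, ii]; exact z_ne h) (r4 i hi)
    exact this
  obtain ⟨j, hj, hji⟩ := big i oi.le
  have zi : z ∈ zpowers i := ii ▸ mul_mem (mem_zpowers _) (mem_zpowers _)
  have zR : z ∈ R := ii ▸ R.mul_mem hi hi
  have jj := rsq j hj (fun e => hji (e ▸ one_mem _)) (fun e => hji (e ▸ zi))
  have hij : i * j ∉ zpowers i := fun e => hji ((mul_mem_cancel_left (mem_zpowers i)).1 e)
  have kk := rsq (i * j) (R.mul_mem hi hj) (fun e => hij (e ▸ one_mem _)) (fun e => hij (e ▸ zi))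
  have cz : ∀ r ∈ R, Commute r z := fun r hr => (mem_BB.1 (RB hr)).1
  have ji : j * i = i * j * z := by
    have e1 : j * i = i⁻¹ * (i * j * (i * j)) * j⁻¹ := by group
    have ei : i⁻¹ = i * z := by
      rw [inv_eq_iff_mul_eq_one, ← mul_assoc, ii, zz h]
    have ej : j⁻¹ = j * z := by
      rw [inv_eq_iff_mul_eq_one, ← mul_assoc, jj, zz h]
    rw [e1, kk, ei, ej, mul_assoc i z z, zz h, mul_one, mul_assoc]
  -- the elements of `⟨r⟩`
  have zp : ∀ r, r * r = z → ∀ u ∈ zpowers r, u = 1 ∨ u = z ∨ u = r ∨ u = r * z := fun r hr u hu => by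
    obtain ⟨k, rfl⟩ := mem_zpowers_iff.1 hu
    have h2 : r ^ (2 : ℤ) = z := by rw [zpow_two, hr]
    rcases Int.even_or_odd' k with ⟨m, rfl | rfl⟩
    · rw [_root_.zpow_mul, h2]
      rcases mem_z h (zpow_mem_zpowers z m) with e | e
      · exact Or.inl e
      · exact Or.inr (Or.inl e)
    · rw [add_comm, _root_.zpow_add, _root_.zpow_mul, h2, zpow_one]
      rcases mem_z h (zpow_mem_zpowers z m) with e | e
      · rw [e, mul_one]; exact Or.inr (Or.inr (Or.inl rfl))
      · rw [e]; exact Or.inr (Or.inr (Or.inr rfl))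
  have zpz : ∀ r, r * r = z → zpowers (r * z) = zpowers r := fun r hr => by
    have : r * z = r⁻¹ := by rw [eq_inv_iff_mul_eq_one, ← hr, show r * (r * r) * r = (r * r) * (r * r) by group, hr, zz h]
    rw [this, zpowers_inv]
  have idx : ((zpowers i).subgroupOf R).index = 2 := by
    have e := ((zpowers i).subgroupOf R).card_mul_index
    rw [cR, Nat.card_congr (subgroupOfEquivOfLe (zpowers_le.2 hi)).toEquiv, Nat.card_zpowers, oi] at e
    omega
  have cls : ∀ u ∈ R, u ≠ 1 → u ≠ z → zpowers u = zpowers i ∨ zpowers u = zpowers j ∨ zpowers u = zpowers (i * j) := by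
    intro u hu u1 u2
    by_cases hui : u ∈ zpowers i
    · rcases zp i ii u hui with e | e | e | e
      · exact absurd e u1
      · exact absurd e u2
      · exact Or.inl (by rw [e])
      · exact Or.inl (by rw [e, zpz i ii])
    · have : (⟨u, hu⟩ * ⟨j, hj⟩⁻¹ : R) ∈ (zpowers i).subgroupOf R := by
        rw [mul_mem_iff_of_index_two idx, inv_mem_iff, mem_subgroupOf, mem_subgroupOf]
        exact iff_of_false hui hji
      have hm : u * j⁻¹ ∈ zpowers i := this
      have hu' : u = (u * j⁻¹) * j := by group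
      rcases zp i ii _ hm with e | e | e | e
      · exact Or.inr (Or.inl (by rw [hu', e, one_mul]))
      · exact Or.inr (Or.inl (by rw [hu', e, ← (cz j hj).eq, zpz j jj]))
      · exact Or.inr (Or.inr (by rw [hu', e]))
      · exact Or.inr (Or.inr (by rw [hu', e, mul_assoc, ← (cz j hj).eq, ← mul_assoc, zpz _ kk]))
  -- the element acting with order four
  obtain ⟨s, l, sz, sx, hl⟩ := h.four
  have lcop : Nat.Coprime l p := by
    rw [Nat.coprime_comm, hp.out.coprime_iff_not_dvd]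
    intro hd
    have := (Nat.dvd_add_right (hd.trans (dvd_pow_self l two_ne_zero))).1 hl
    exact hp.out.one_lt.ne' (Nat.dvd_one.1 this)
  have sB : s ∈ normalizer (BB z x : Set G) := by
    refine mem_normalizer_fintype fun b hb => ?_
    have hb' := mem_BB.1 hb
    refine mem_BB.2 ⟨(sz.mul_left hb'.1).mul_left sz.inv_left, ?_⟩
    have h1 : Commute (s * b * s⁻¹) (x ^ l) := by
      rw [← sx]; exact hb'.2.map (MulAut.conj s)
    obtain ⟨m, hm⟩ := exists_pow_eq_self_of_coprime (x := x) (n := l) (by rw [h.ox]; exact lcop)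
    rw [← hm]; exact h1.pow_right m
  obtain ⟨b, hb⟩ := MulAction.exists_smul_eq (BB z x) ((BB z x).normalizerMonoidHom ⟨s, sB⟩ • R0) R0
  set t : G := (b : G) * s with ht
  have tR : ∀ r ∈ R, t * r * t⁻¹ ∈ R := by
    rintro _ ⟨r, hr, rfl⟩
    refine ⟨b * ((BB z x).normalizerMonoidHom ⟨s, sB⟩ r) * b⁻¹, ?_, by
      show (b : G) * (s * r * s⁻¹) * (b : G)⁻¹ = t * r * t⁻¹
      rw [ht]; group⟩
    rw [← hb]
    have h1 : ((BB z x).normalizerMonoidHom ⟨s, sB⟩ r) ∈
        (((BB z x).normalizerMonoidHom ⟨s, sB⟩ • R0 : Sylow 2 (BB z x)) : Subgroup (BB z x)) := by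
      rw [Sylow.pointwise_smul_def]
      exact smul_mem_pointwise_smul _ _ _ hr
    rw [Sylow.coe_subgroup_smul]
    exact smul_mem_pointwise_smul _ _ _ h1
  have tz : Commute t z := (mem_BB.1 b.2).1.mul_left sz
  have tx : t * x * t⁻¹ = x ^ l := by
    have : t * x * t⁻¹ = b * (s * x * s⁻¹) * (b : G)⁻¹ := by rw [ht]; group
    rw [this, sx, ((mem_BB.1 b.2).2.pow_right l).eq, mul_inv_cancel_right]
  have tRk : ∀ k : ℕ, ∀ r ∈ R, t ^ k * r * (t ^ k)⁻¹ ∈ R := fun k => by
    induction k with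
    | zero => intro r hr; simpa using hr
    | succ k ih =>
      intro r hr
      have := tR _ (ih r hr)
      rwa [show t * (t ^ k * r * (t ^ k)⁻¹) * t⁻¹ = t ^ (k + 1) * r * (t ^ (k + 1))⁻¹ by group] at this
  have txk : ∀ k : ℕ, t ^ k * x * (t ^ k)⁻¹ = x ^ l ^ k := fun k => by
    induction k with
    | zero => simp
    | succ k ih =>
      rw [show t ^ (k + 1) * x * (t ^ (k + 1))⁻¹ = t * (t ^ k * x * (t ^ k)⁻¹) * t⁻¹ by group, ih, ← conj_pow, tx,
        ← pow_mul, pow_succ']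
  have t6 : ∀ r ∈ R, r * r = z → t ^ 6 * r * (t ^ 6)⁻¹ = r ∨ t ^ 6 * r * (t ^ 6)⁻¹ = r * z := fun r hr rr => by
    have it : ∀ k : ℕ, (Subgroup.map (MulAut.conj t).toMonoidHom)^[k] (zpowers r) = zpowers (t ^ k * r * (t ^ k)⁻¹) :=
      fun k => by
        induction k with
        | zero => simp
        | succ k ih =>
          rw [Function.iterate_succ_apply', ih, MonoidHom.map_zpowers]
          congr 1
          simp only [MulEquiv.toMonoidHom_eq_coe, MonoidHom.coe_coe, MulAut.conj_apply]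
          group
    have ne : ∀ k : ℕ, t ^ k * r * (t ^ k)⁻¹ ≠ 1 ∧ t ^ k * r * (t ^ k)⁻¹ ≠ z := fun k => by
      have sq' : (t ^ k * r * (t ^ k)⁻¹) * (t ^ k * r * (t ^ k)⁻¹) = z := by
        rw [conj_mul, rr, (tz.pow_left k).eq, mul_inv_cancel_right]
      exact ⟨fun e => z_ne h (by rw [← sq', e, one_mul]), fun e => z_ne h (by rw [← sq', e, zz h])⟩
    have e6 := six (Subgroup.map_injective (MulAut.conj t).injective)
      (f := Subgroup.map (MulAut.conj t).toMonoidHom) (t := zpowers r)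
      (fun k => by rw [it]; exact cls _ (tRk k r hr) (ne k).1 (ne k).2)
    rw [it] at e6
    rcases zp r rr _ (e6 ▸ mem_zpowers _) with e | e | e | e
    · exact absurd e (ne 6).1
    · exact absurd e (ne 6).2
    · exact Or.inl e
    · exact Or.inr e
  have x6 : t ^ 6 * x * (t ^ 6)⁻¹ = x⁻¹ := by
    rw [txk, eq_inv_iff_mul_eq_one, ← pow_succ, ← orderOf_dvd_iff_pow_eq_one, h.ox]
    have h1 : (p : ℤ) ∣ (l : ℤ) ^ 2 + 1 := by exact_mod_cast hl
    have h2 : (p : ℤ) ∣ (l : ℤ) ^ 6 + 1 := h1.trans ⟨(l : ℤ) ^ 4 - l ^ 2 + 1, by ring⟩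
    exact_mod_cast h2
  -- correct by an element of `R`
  have iB := mem_BB.1 (RB hi)
  have jB := mem_BB.1 (RB hj)
  have ij' : i * j = j * i * z := by rw [ji, mul_assoc, zz h, mul_one]
  obtain ⟨d, di, dj, dx⟩ : ∃ d, Commute d i ∧ Commute d j ∧ d * x * d⁻¹ = x⁻¹ := by
    have fx : ∀ r ∈ R, (r * t ^ 6) * x * (r * t ^ 6)⁻¹ = x⁻¹ := fun r hr => by
      rw [show (r * t ^ 6) * x * (r * t ^ 6)⁻¹ = r * (t ^ 6 * x * (t ^ 6)⁻¹) * r⁻¹ by group, x6,
        (mem_BB.1 (RB hr)).2.inv_right.eq, mul_inv_cancel_right]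
    have cm : ∀ r u v : G, t ^ 6 * u * (t ^ 6)⁻¹ = v → r * v = u * r → Commute (r * t ^ 6) u := fun r u v e1 e2 => by
      rw [mul_inv_eq_iff_eq_mul] at e1
      show r * t ^ 6 * u = u * (r * t ^ 6)
      rw [mul_assoc, e1, ← mul_assoc, e2, mul_assoc]
    rcases t6 i hi ii with e | e <;> rcases t6 j hj jj with e' | e'
    · exact ⟨1 * t ^ 6, cm _ _ _ e (by simp), cm _ _ _ e' (by simp), fx 1 R.one_mem⟩
    · exact ⟨i * t ^ 6, cm _ _ _ e rfl, cm _ _ _ e' (by rw [ji, mul_assoc]), fx i hi⟩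
    · exact ⟨j * t ^ 6, cm _ _ _ e (by rw [ij', mul_assoc]), cm _ _ _ e' rfl, fx j hj⟩
    · refine ⟨(i * j) * t ^ 6, cm _ _ _ e ?_, cm _ _ _ e' ?_, fx _ (R.mul_mem hi hj)⟩
      · rw [mul_assoc i j, ← mul_assoc j i z, ← ij']
      · rw [← mul_assoc j i j, ji, mul_assoc (i * j) z j, jB.1.eq]
  have dz : Commute d z := by rw [← ii]; exact di.mul_right di
  have dd : d * d ∈ BB z x := by
    refine mem_BB.2 ⟨dz.mul_left dz, ?_⟩
    have : d * d * x * (d * d)⁻¹ = x := by
      rw [show d * d * x * (d * d)⁻¹ = d * (d * x * d⁻¹) * d⁻¹ by group, dx, ← conj_inv, dx, inv_inv]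
    exact mul_inv_eq_iff_eq_mul.1 this
  obtain ⟨m, hm⟩ : Odd (3 * p) := by rcases h.hp with rfl | rfl <;> decide
  have cc : d ^ (3 * p) * d ^ (3 * p) = (d * d) ^ (3 * p) := ((Commute.refl d).mul_pow _).symm
  have cB : (d * d) ^ (3 * p) ∈ BB z x := (BB z x).pow_mem dd _
  refine ⟨i, j, d ^ (3 * p), ii, jj, ji, iB.2, jB.2, di.pow_left _, dj.pow_left _, ?_, ?_⟩
  · have e : d ^ (3 * p) = (d * d) ^ m * d := by rw [hm, pow_succ, pow_mul, sq]
    have hc := (mem_BB.1 ((BB z x).pow_mem dd m)).2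
    rw [e, show (d * d) ^ m * d * x * ((d * d) ^ m * d)⁻¹ = (d * d) ^ m * (d * x * d⁻¹) * ((d * d) ^ m)⁻¹ by group, dx,
      hc.inv_right.eq, mul_inv_cancel_right]
  · rw [cc]
    rcases h.pow _ (mem_BB.1 dd).1 (mem_BB.1 dd).2 with e | e
    · have e2 : (d * d) ^ (3 * p) * (d * d) ^ (3 * p) ∈ zpowers z := by
        rw [← pow_add, show 3 * p + 3 * p = 2 * p * 3 by ring, pow_mul]
        exact pow_mem e 3
      rcases mem_z h e2 with e3 | e3
      · exact invol h cB e3
      · exfalso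
        have ui : Commute ((d * d) ^ (3 * p)) i := (di.mul_left di).pow_left _
        have uj : Commute ((d * d) ^ (3 * p)) j := (dj.mul_left dj).pow_left _
        have e4 : ((d * d) ^ (3 * p) * i) * ((d * d) ^ (3 * p) * i) = 1 := by
          rw [← sq, ui.mul_pow, sq, sq, e3, ii, zz h]
        have e5 : Commute ((d * d) ^ (3 * p) * i) j := by
          rcases invol h ((BB z x).mul_mem cB (RB hi)) e4 with e5 | e5 <;> rw [e5]
          · exact Commute.one_left _
          · exact jB.1.symm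
        have e6 : Commute i j := by
          have := uj.inv_left.mul_left e5
          rwa [inv_mul_cancel_left] at this
        rw [← e6.eq] at ji
        exact z_ne h (mul_eq_left.1 ji.symm)
    · exact mem_z h e

theorem Hyp.odd_le (h : Hyp p z x) {N : Subgroup G} (hN : ∀ n ∈ N, Commute n z ∧ Commute n x)
    (hn : ∀ b, Commute b z → Commute b x → ∀ n ∈ N, b * n * b⁻¹ ∈ N) (ho : Odd (Nat.card N)) : N ≤ zpowers x := by
  classical
  have NB : N ≤ BB z x := fun n hn' => mem_BB.2 (hN n hn')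
  have c1 : Nat.card N ∣ 3 * p := by
    have h1 : Nat.card N ∣ 8 * (3 * p) := by
      have := card_dvd_of_le NB
      rwa [h.cardB, show 24 * p = 8 * (3 * p) by ring] at this
    exact (Nat.Coprime.pow_right 3 (Nat.coprime_two_right.2 ho)).dvd_of_dvd_mul_left h1
  have np : ∀ n ∈ N, n ^ (3 * p) = 1 := fun n hn' => by
    obtain ⟨c, hc⟩ := c1
    have := pow_card_eq_one' (x := (⟨n, hn'⟩ : N))
    rw [hc, pow_mul, show n ^ Nat.card N = 1 from congrArg Subtype.val this, one_pow]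
  have cop : Nat.Coprime 3 p := by rcases h.hp with rfl | rfl <;> decide
  have no3 : ∀ w ∈ N, w ^ 3 = 1 → w = 1 := by
    intro w hw w3
    by_contra w1
    have : Fact (Nat.Prime 3) := ⟨Nat.prime_three⟩
    have ow : orderOf w = 3 := orderOf_eq_prime w3 w1
    have un : ∀ u ∈ N, u ^ 3 = 1 → u ∈ zpowers w := by
      intro u hu u3
      by_cases hx : x ∈ N
      · have wx : Commute w x := (hN w hw).2
        have o2 : orderOf (w * x) = 3 * p := by
          rw [wx.orderOf_mul_eq_mul_orderOf_of_coprime (by rw [ow, h.ox]; exact cop), ow, h.ox]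
        have e : zpowers (w * x) = N := eq_of_le_of_card_ge (zpowers_le.2 (N.mul_mem hw hx))
          (by rw [Nat.card_zpowers, o2]; exact Nat.le_of_dvd (by have := hp.out.pos; omega) c1)
        obtain ⟨m, rfl⟩ := mem_zpowers_iff.1 (e ▸ hu)
        rw [wx.mul_zpow] at u3 ⊢
        rw [(wx.zpow_zpow m m).mul_pow, ← zpow_natCast (w ^ m), ← _root_.zpow_mul, mul_comm, _root_.zpow_mul, zpow_natCast, w3,
          _root_.one_zpow, one_mul] at u3
        rw [x3 h (zpow_mem_zpowers x m) u3, mul_one]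
        exact zpow_mem_zpowers w m
      · have hpN : ¬ p ∣ Nat.card N := fun hd => by
          obtain ⟨a, ha⟩ := exists_prime_orderOf_dvd_card' p hd
          have oa : orderOf (a : G) = p := by rw [← ha, orderOf_coe]
          have h1 := mem_x h (NB a.2) (by rw [← oa, pow_orderOf_eq_one])
          have e : zpowers (a : G) = zpowers x := eq_of_le_of_card_ge (zpowers_le.2 h1)
            (by rw [Nat.card_zpowers, Nat.card_zpowers, oa, h.ox])
          exact hx ((zpowers_le.2 a.2) (e ▸ mem_zpowers x))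
        have c3 : Nat.card N ∣ 3 :=
          ((hp.out.coprime_iff_not_dvd.2 hpN).symm).dvd_of_dvd_mul_right c1
        have e : zpowers w = N := eq_of_le_of_card_ge (zpowers_le.2 hw)
          (by rw [Nat.card_zpowers, ow]; exact Nat.le_of_dvd (by omega) c3)
        exact e ▸ hu
    have act : ∀ k ∈ BB z x, Commute w k ∨ k * w * k⁻¹ = w⁻¹ := by
      intro k hk
      have hu := un _ (hn k (mem_BB.1 hk).1 (mem_BB.1 hk).2 w hw) (by rw [conj_pow, w3]; group)
      rw [mem_zpowers_iff_mem_range_orderOf, ow] at hu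
      obtain ⟨m, hm, e⟩ := Finset.mem_image.1 hu
      have hm' := Finset.mem_range.1 hm
      interval_cases m
      · exfalso
        apply w1
        rw [pow_zero] at e
        calc w = k⁻¹ * (k * w * k⁻¹) * k := by group
          _ = 1 := by rw [← e]; group
      · left
        rw [pow_one, eq_mul_inv_iff_mul_eq] at e
        exact e
      · right
        rw [← e, eq_inv_iff_mul_eq_one, ← pow_succ, w3]
    obtain ⟨i, j, c, q⟩ := h.exists_quat
    obtain ⟨iB, jB⟩ := q_mem q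
    rcases act i iB with e | e
    · exact no12 h (NB hw) iB w3 w1 q.ii e
    rcases act j jB with e' | e'
    · exact no12 h (NB hw) jB w3 w1 q.jj e'
    refine no12 h (NB hw) ((BB z x).mul_mem iB jB) w3 w1 (q_ij h q) ?_
    have : i * j * w * (i * j)⁻¹ = w := by
      rw [show i * j * w * (i * j)⁻¹ = i * (j * w * j⁻¹) * i⁻¹ by group, e', ← conj_inv, e, inv_inv]
    exact (mul_inv_eq_iff_eq_mul.1 this).symm
  intro n hn'
  have e := no3 _ (N.pow_mem hn' p) (by rw [← pow_mul, mul_comm, np n hn'])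
  exact mem_x h (NB hn') e

/-- no set of at most two lines is invariant -/
theorem Hyp.move (h : Hyp p z x) (R : G → G2 p → Prop) (tot : ∀ k, Commute k z → Commute k x → ∃ A, R k A)
    (mul : ∀ k A l B, R k A → R l B → R (k * l) (A * B)) (uniq : ∀ k A B, R k A → R k B → A = B) (hx : R x 1)
    (hz : ∀ A, R z A → A.1 = -1) {a b : V2 p} (ha : a ≠ 0) (hb : b ≠ 0) :
    ∃ k A, Commute k z ∧ Commute k x ∧ R k A ∧ om (A.1 *ᵥ a) a ≠ 0 ∧ om (A.1 *ᵥ a) b ≠ 0 := by
  classical
  by_contra hc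
  push Not at hc
  have tot' : ∀ k : BB z x, ∃ A, R k A := fun k => tot k (mem_BB.1 k.2).1 (mem_BB.1 k.2).2
  choose r hr using tot'
  let ρ : BB z x →* G2 p := MonoidHom.mk' r fun k l => uniq _ _ _ (hr (k * l)) (mul _ _ _ _ (hr k) (hr l))
  have hρ : ∀ k : BB z x, R k (ρ k) := hr
  have ρx : ρ ⟨x, x_mem h⟩ = 1 := uniq _ _ _ (hρ _) hx
  have ρz : ρ ⟨z, z_mem h⟩ ≠ 1 := fun e => by
    have e1 := hz _ (hρ ⟨z, z_mem h⟩)
    rw [e] at e1
    have e2 := congrFun (congrFun e1 0) 0
    simp only [Units.val_one, one_apply_eq, Matrix.neg_apply] at e2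
    have e3 : ((2 : ℕ) : ZMod p) = 0 := by push_cast; linear_combination e2
    rw [ZMod.natCast_eq_zero_iff] at e3
    rcases h.hp with rfl | rfl <;> omega
  have kodd : Odd (Nat.card ρ.ker) := by
    rw [← Nat.not_even_iff_odd, even_iff_two_dvd]
    intro hd
    have : Fact (Nat.Prime 2) := ⟨Nat.prime_two⟩
    obtain ⟨u, hu⟩ := exists_prime_orderOf_dvd_card' 2 hd
    have e : ((u : BB z x) : G) = z := h.inv _ (mem_BB.1 u.1.2).1 (mem_BB.1 u.1.2).2 (by
      rw [orderOf_coe, orderOf_coe, hu])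
    apply ρz
    have e' : (⟨z, z_mem h⟩ : BB z x) = u := Subtype.ext e.symm
    rw [e']; exact u.2
  have kle : ρ.ker.map (BB z x).subtype ≤ zpowers x := by
    refine h.odd_le (fun n hn => mem_BB.1 (map_subtype_le _ hn)) ?_ ?_
    · rintro k h1 h2 _ ⟨n, hn, rfl⟩
      exact ⟨⟨k, mem_BB.2 ⟨h1, h2⟩⟩ * n * ⟨k, mem_BB.2 ⟨h1, h2⟩⟩⁻¹, (MonoidHom.normal_ker ρ).conj_mem _ hn _, rfl⟩
    · rwa [card_map_of_injective (BB z x).subtype_injective]
  have hW : ¬ p ∣ Nat.card ρ.range := by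
    have e1 : Nat.card ρ.ker * ρ.ker.index = 24 * p := by rw [card_mul_index, h.cardB]
    rw [index_ker] at e1
    have e2 : p ∣ Nat.card ρ.ker := by
      have := orderOf_dvd_natCard (⟨⟨x, x_mem h⟩, ρx⟩ : ρ.ker)
      rwa [← orderOf_coe, ← orderOf_coe, show orderOf _ = p from h.ox] at this
    intro hd
    have e3 : p * p ∣ 24 * p := e1 ▸ mul_dvd_mul e2 hd
    rcases h.hp with rfl | rfl <;> omega
  -- the stabiliser of the line of `a`
  let Fx : BB z x → Prop := fun k => om ((ρ k).1 *ᵥ a) a = 0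
  have om_swap : ∀ u v : V2 p, om u v = - om v u := fun u v => by simp [om]; ring
  have om_smul : ∀ (s t : ZMod p) (u : V2 p), om (s • u) (t • u) = 0 := fun s t u => by simp [om]; ring
  have two : ∀ k l, ¬ Fx k → ¬ Fx l → Fx (k⁻¹ * l) := by
    intro k l hk hl
    have e1 := hc k _ (mem_BB.1 k.2).1 (mem_BB.1 k.2).2 (hρ k) hk
    have e2 := hc l _ (mem_BB.1 l.2).1 (mem_BB.1 l.2).2 (hρ l) hl
    obtain ⟨s, hs⟩ := exists_smul_of_om hb (show om b ((ρ k).1 *ᵥ a) = 0 by rw [om_swap, e1, neg_zero])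
    obtain ⟨t, ht⟩ := exists_smul_of_om hb (show om b ((ρ l).1 *ᵥ a) = 0 by rw [om_swap, e2, neg_zero])
    have e3 : om ((ρ l).1 *ᵥ a) ((ρ k).1 *ᵥ a) = 0 := by rw [hs, ht, om_smul]
    have e4 := om_mulVec (ρ k⁻¹).1 ((ρ l).1 *ᵥ a) ((ρ k).1 *ᵥ a)
    rw [e3, mul_zero, mulVec_mulVec, mulVec_mulVec, ← Units.val_mul, ← Units.val_mul, ← map_mul, ← map_mul,
      inv_mul_cancel, map_one, Units.val_one, one_mulVec] at e4
    exact e4
  have fmul : ∀ k l, Fx k → Fx l → Fx (k * l) := by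
    intro k l hk hl
    obtain ⟨s, hs⟩ := exists_smul_of_om ha (show om a ((ρ k).1 *ᵥ a) = 0 by rw [om_swap, hk, neg_zero])
    obtain ⟨t, ht⟩ := exists_smul_of_om ha (show om a ((ρ l).1 *ᵥ a) = 0 by rw [om_swap, hl, neg_zero])
    show om ((ρ (k * l)).1 *ᵥ a) a = 0
    rw [map_mul, Units.val_mul, ← mulVec_mulVec, ht, mulVec_smul, hs, smul_smul]
    have := om_smul (t * s) 1 a
    rwa [one_smul] at this
  have : Fact (Nat.Prime 3) := ⟨Nat.prime_three⟩
  obtain ⟨w, ow⟩ := exists_prime_orderOf_dvd_card' (G := BB z x) 3 (by rw [h.cardB]; exact Dvd.dvd.mul_right (by norm_num) _)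
  have w3 : w ^ 3 = 1 := by rw [← ow, pow_orderOf_eq_one]
  have Fw : Fx w := by
    by_contra h1
    by_cases h2 : Fx (w * w)
    · apply h1
      have := fmul _ _ h2 h2
      rwa [show w * w * (w * w) = w ^ 3 * w by simp only [pow_succ, pow_zero, one_mul, mul_assoc], w3, one_mul] at this
    · have := two _ _ h1 h2
      rw [inv_mul_cancel_left] at this
      exact h1 this
  obtain ⟨k, Fk, kk⟩ : ∃ k : BB z x, Fx k ∧ (k : G) * k = z := by
    obtain ⟨i, j, c, q⟩ := h.exists_quat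
    obtain ⟨iB, jB⟩ := q_mem q
    by_cases h1 : Fx ⟨i, iB⟩
    · exact ⟨_, h1, q.ii⟩
    by_cases h2 : Fx ⟨j, jB⟩
    · exact ⟨_, h2, q.jj⟩
    exact ⟨_, two _ _ h1 h2, q_ij' h q⟩
  have cm := comm_of_fix hW ha (⟨w, rfl⟩ : ρ w ∈ ρ.range) (⟨k, rfl⟩ : ρ k ∈ ρ.range) Fw Fk
  have hy : ((k * w * k⁻¹ * w⁻¹ : BB z x) : G) ∈ zpowers x := kle ⟨k * w * k⁻¹ * w⁻¹, by
    rw [SetLike.mem_coe, MonoidHom.mem_ker, map_mul, map_mul, map_mul, map_inv, map_inv, cm.symm]; group, rfl⟩
  have w3' : (w : G) ^ 3 = 1 := congrArg Subtype.val w3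
  have w1 : (w : G) ≠ 1 := fun e => by
    have : w = 1 := Subtype.ext e
    rw [this, orderOf_one] at ow; omega
  have hyw : Commute ((k * w * k⁻¹ * w⁻¹ : BB z x) : G) w := by
    obtain ⟨m, hm⟩ := mem_zpowers_iff.1 hy
    rw [← hm]; exact (mem_BB.1 w.2).2.symm.zpow_left m
  have y3 : ((k * w * k⁻¹ * w⁻¹ : BB z x) : G) ^ 3 = 1 := by
    have e := hyw.mul_pow 3
    rw [w3', mul_one] at e
    rw [← e]
    simp only [coe_mul, coe_inv, inv_mul_cancel_right]
    rw [conj_pow, w3']; group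
  have y1 := x3 h hy y3
  simp only [coe_mul, coe_inv] at y1
  refine no12 h w.2 k.2 w3' w1 kk ?_
  rw [mul_inv_eq_one, mul_inv_eq_iff_eq_mul] at y1
  exact y1.symm

end CfsgLib.RV
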