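import Mathlib
import Cfsg.Agent.Lib.RV.Ala
import Cfsg.Agent.Lib.ZStar.Main
import Cfsg.Agent.Lib.Tech.SylowIn
import Cfsg.Agent.Lib.Perm.JordanPrime

/-!
# Package AL2: the Sylow subgroup (plans/RV.md)
-/

set_option autoImplicit false

namespace CfsgLib.RV

open Subgroup Matrix Cfsg CfsgLib.Fusion CfsgLib.Tech

variable {p : ℕ} [hp : Fact p.Prime] {G : Type*} [Group G] [Finite G] {z x : G}

namespace AL2

theorem mem_zpowers_symm (ox : orderOf x = p) {y : G} (hy : y ∈ zpowers x) (y1 : y ≠ 1) :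
    x ∈ zpowers y := by
  have h1 : Nat.card (zpowers x) = p := by rw [Nat.card_zpowers, ox]
  have h2 := mem_zpowers_of_prime_card h1 (g := ⟨y, hy⟩) (g' := ⟨x, mem_zpowers x⟩)
    fun e => y1 (congrArg Subtype.val e)
  obtain ⟨k, hk⟩ := h2
  exact ⟨k, congrArg Subtype.val hk⟩

theorem comm_zp {a y : G} (h : Commute a x) (hy : y ∈ zpowers x) : Commute a y := by
  obtain ⟨k, rfl⟩ := hy; exact h.zpow_right k

theorem mem_of_pow {H : Subgroup G} {a : G} {m n : ℕ} (hc : m.Coprime n) (h1 : a ^ m ∈ H)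
    (h2 : a ^ n ∈ H) : a ∈ H := by
  have := mul_mem (zpow_mem h1 (Nat.gcdA m n)) (zpow_mem h2 (Nat.gcdB m n))
  rwa [← zpow_natCast, ← zpow_natCast, ← _root_.zpow_mul, ← _root_.zpow_mul, ← _root_.zpow_add, ← Nat.gcd_eq_gcd_ab, hc,
    Nat.cast_one, zpow_one] at this

theorem exists_sqrt {O : Subgroup G} (ho : Odd (Nat.card O)) {w : G} (hw : w ∈ O) :
    ∃ k : ℕ, w ^ k * w ^ k = w := by
  have h5 : orderOf w ∣ Nat.card O := by rw [← orderOf_mk _ hw]; exact orderOf_dvd_natCard _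
  obtain ⟨m, hm⟩ := exists_pow_eq_self_of_coprime (x := w) (n := 2)
    ((Nat.coprime_two_left.2 ho).coprime_dvd_right h5)
  exact ⟨m, by rw [← pow_two, ← pow_mul, mul_comm, pow_mul, hm]⟩

/-- the odd core of the centraliser of `x` -/
structure OC (z x : G) (O : Subgroup G) : Prop where
  odd : Odd (Nat.card O)
  cen : ∀ o ∈ O, Commute o x
  norm : ∀ d, Commute d x → ∀ o ∈ O, d * o * d⁻¹ ∈ O
  mem : x ∈ O
  com : ∀ d, Commute d x → z * d * z⁻¹ * d⁻¹ ∈ O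

theorem odd_p (h : Hyp p z x) : Odd p := by rcases h.hp with rfl | rfl <;> decide

theorem zz (h : Hyp p z x) : z * z = 1 := by rw [← pow_two, ← h.oz, pow_orderOf_eq_one]

theorem xp (h : Hyp p z x) : x ^ p = 1 := by rw [← h.ox, pow_orderOf_eq_one]

theorem exists_OC (h : Hyp p z x) : ∃ O, OC z x O := by
  set D := centralizer ({x} : Set G) with hD
  have m : ∀ {d}, Commute d x → d ∈ D := fun e => mem_centralizer_singleton_iff.2 e
  have hI : IsIsolatedInvolution (⟨z, m h.zx⟩ : D) := ⟨by rw [orderOf_mk]; exact h.oz, fun d hd =>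
    Subtype.ext (h.inv _ (congrArg Subtype.val hd.symm) (mem_centralizer_singleton_iff.1
      (d * ⟨z, m h.zx⟩ * d⁻¹).2) ((MulEquiv.orderOf_eq (MulAut.conj (d : G)) z).trans h.oz))⟩
  have := Core.pPrimeCore_characteristic 2 D
  refine ⟨(pPrimeCore 2 D).map D.subtype, by rw [card_subtype]; exact Core.odd_card_oddCore D,
    fun o ho => mem_centralizer_singleton_iff.1 (map_subtype_le _ ho), ?_, ?_,
    fun d hd => ⟨_, ZStar.zstar hI ⟨d, m hd⟩, rfl⟩⟩
  · rintro d hd _ ⟨o, ho, rfl⟩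
    exact ⟨_, Normal.conj_mem inferInstance o ho ⟨d, m hd⟩, rfl⟩
  · have hn : (zpowers (⟨x, m (Commute.refl x)⟩ : D)).Normal := ⟨fun y hy d => by
      have : Commute d y := comm_zp (Subtype.ext (mem_centralizer_singleton_iff.1 d.2)) hy
      rwa [this.eq, mul_inv_cancel_right]⟩
    exact ⟨_, Core.le_pPrimeCore (by
      rw [Nat.card_zpowers, orderOf_mk x (m (Commute.refl x)), h.ox]
      exact Nat.coprime_two_right.2 (odd_p h))
      (mem_zpowers _), rfl⟩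

variable {O : Subgroup G} (h : Hyp p z x) (hO : OC z x O)
include h hO

theorem fix {o : G} (ho : o ∈ O) (hc : Commute o z) : o ∈ zpowers x :=
  h.odd_le (N := O ⊓ centralizer {z}) (fun n hn => ⟨mem_centralizer_singleton_iff.1 hn.2, hO.cen n hn.1⟩)
    (fun b h1 h2 n hn => ⟨hO.norm b h2 n hn.1, mem_centralizer_singleton_iff.2
      ((h1.mul_left (mem_centralizer_singleton_iff.1 hn.2)).mul_left h1.inv_left)⟩)
    (hO.odd.of_dvd_nat (card_dvd_of_le inf_le_left)) ⟨ho, mem_centralizer_singleton_iff.2 hc⟩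

theorem exists_mul {d : G} (hd : Commute d x) :
    ∃ u ∈ O, z * u * z⁻¹ = u⁻¹ ∧ Commute (u⁻¹ * d) z := by
  obtain ⟨w, e⟩ : ∃ w, z * d * z⁻¹ * d⁻¹ = w := ⟨_, rfl⟩
  have hw : w ∈ O := e ▸ hO.com d hd
  have zi : z⁻¹ = z := inv_eq_of_mul_eq_one_right (zz h)
  have e1 : z * w * z⁻¹ = w⁻¹ := by
    rw [← e]
    simp only [_root_.mul_inv_rev, inv_inv, zi]
    rw [show z * (z * d * z * d⁻¹) * z = z * z * (d * (z * (d⁻¹ * z))) by group, zz h, one_mul]
  obtain ⟨k, hk⟩ := exists_sqrt hO.odd hw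
  have e2 : z * w ^ k * z⁻¹ = (w ^ k)⁻¹ := by rw [← conj_pow, e1, inv_pow]
  refine ⟨(w ^ k)⁻¹, inv_mem (pow_mem hw k), by rw [← conj_inv, e2], ?_⟩
  have e3 : z * (w ^ k * d) * z⁻¹ = w ^ k * d := by
    rw [← conj_mul, e2, show z * d * z⁻¹ = w * d by rw [← e]; group, ← mul_assoc]
    congr 1
    rw [inv_mul_eq_iff_eq_mul, hk]
  rw [inv_inv]
  exact (mul_inv_eq_iff_eq_mul.1 e3).symm

theorem neg {o : G} (ho : o ∈ O) : z * o * z⁻¹ * o ∈ zpowers x := by
  obtain ⟨u, hu, e1, e2⟩ := exists_mul h hO (hO.cen o ho)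
  have h1 := fix h hO (mul_mem (inv_mem hu) ho) e2
  obtain ⟨c, e⟩ : ∃ c, u⁻¹ * o = c := ⟨_, rfl⟩
  rw [e] at h1 e2
  rw [show o = u * c by rw [← e]; group, ← conj_mul, e1, ← e2.eq, mul_inv_cancel_right, ← mul_assoc,
    mul_assoc u⁻¹, ← (comm_zp (hO.cen u hu) h1).eq, inv_mul_cancel_left]
  exact mul_mem h1 h1

theorem comm {a b : G} (ha : a ∈ O) (hb : b ∈ O) : a * b * a⁻¹ * b⁻¹ ∈ zpowers x := by
  have h1 := neg h hO (inv_mem ha)
  have h2 := neg h hO (inv_mem hb)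
  have h3 := neg h hO (mul_mem (inv_mem ha) (inv_mem hb))
  obtain ⟨ξ, e1⟩ : ∃ ξ, z * a⁻¹ * z⁻¹ * a⁻¹ = ξ := ⟨_, rfl⟩
  obtain ⟨η, e2⟩ : ∃ η, z * b⁻¹ * z⁻¹ * b⁻¹ = η := ⟨_, rfl⟩
  rw [e1] at h1
  rw [e2] at h2
  rw [← conj_mul, show z * a⁻¹ * z⁻¹ = ξ * a by rw [← e1]; group,
    show z * b⁻¹ * z⁻¹ = η * b by rw [← e2]; group, mul_assoc ξ, ← mul_assoc a,
    (comm_zp (hO.cen a ha) h2).eq] at h3
  have := mul_mem (inv_mem (mul_mem h1 h2)) h3
  rwa [show (ξ * η)⁻¹ * (ξ * (η * a * b) * (a⁻¹ * b⁻¹)) = a * b * a⁻¹ * b⁻¹ by group] at this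

theorem mem_O {a : G} (ha : Commute a x) {k : ℕ} (hk : a ^ p ^ k = 1) : a ∈ O := by
  obtain ⟨u, hu, -, e2⟩ := exists_mul h hO ha
  obtain ⟨b, e⟩ : ∃ b, u⁻¹ * a = b := ⟨_, rfl⟩
  have hb : Commute b x := e ▸ (hO.cen u hu).inv_left.mul_left ha
  rw [e] at e2
  obtain rfl : a = u * b := by rw [← e]; group
  have h1 : ∀ n : ℕ, ∃ u' ∈ O, (u * b) ^ n = u' * b ^ n := fun n => by
    induction n with
    | zero => exact ⟨1, one_mem _, by simp⟩
    | succ n ih =>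
      obtain ⟨u', hu', e'⟩ := ih
      exact ⟨_, mul_mem hu' (hO.norm _ (hb.pow_left n) u hu), by rw [pow_succ, e', pow_succ]; group⟩
  obtain ⟨u', hu', e'⟩ := h1 (p ^ k)
  have h2 : b ^ p ^ k ∈ O := by rw [eq_inv_of_mul_eq_one_right (e'.symm.trans hk)]; exact inv_mem hu'
  have h3 : zpowers x ≤ centralizer {z} ⊓ centralizer {x} := zpowers_le.2
    ⟨mem_centralizer_singleton_iff.2 h.zx.symm, mem_centralizer_singleton_iff.2 rfl⟩
  have h4 := card_mul_relIndex' h3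
  rw [h.cardB, Nat.card_zpowers, h.ox, mul_comm 24] at h4
  have : ((zpowers x).subgroupOf (centralizer {z} ⊓ centralizer {x})).Normal := ⟨fun y hy d => by
    have : Commute (d : G) y := comm_zp (mem_centralizer_singleton_iff.1 d.2.2) hy
    rw [mem_subgroupOf, Subgroup.coe_mul, Subgroup.coe_mul, this.eq, Subgroup.coe_inv, mul_inv_cancel_right]
    exact hy⟩
  have h5 : b ^ (zpowers x).relIndex (centralizer {z} ⊓ centralizer {x}) ∈ zpowers x :=
    ((zpowers x).subgroupOf (centralizer {z} ⊓ centralizer {x})).pow_index_mem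
      ⟨b, mem_centralizer_singleton_iff.2 e2, mem_centralizer_singleton_iff.2 hb⟩
  rw [Nat.eq_of_mul_eq_mul_left hp.out.pos h4] at h5
  exact mul_mem hu (mem_of_pow (Nat.Coprime.pow_left k (by rcases h.hp with rfl | rfl <;> decide)) h2
    (zpowers_le.2 hO.mem h5))

omit hO in
theorem exists_notMem : ∃ a, Commute a x ∧ (∃ k, a ^ p ^ k = 1) ∧ a ∉ zpowers x := by
  by_contra hn
  push Not at hn
  obtain ⟨T, hT, h1⟩ := exists_isSylowIn_ge (H := ⊤) (isPGroup_zpowers_of_pow (k := 1)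
    ((pow_one p).symm ▸ xp h)) le_top
  have h2 : p ^ 3 ∣ Nat.card T := by
    rw [hT.card_eq_pow, card_top]
    exact pow_dvd_pow _ ((hp.out.pow_dvd_iff_le_factorization Nat.card_pos.ne').1 h.dvd)
  have h3 : ¬ T ≤ zpowers x := fun e => by
    have := h2.trans (card_dvd_of_le e)
    rw [Nat.card_zpowers, h.ox] at this
    have := Nat.le_of_dvd hp.out.pos this
    rcases h.hp with rfl | rfl <;> omega
  have : Nontrivial T := (nontrivial_iff_ne_bot T).2 fun e => h3 (e ▸ bot_le)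
  have := hT.pgroup.center_nontrivial
  obtain ⟨⟨c, hc⟩, c1⟩ := exists_ne (1 : center T)
  have h4 : ∀ t ∈ T, Commute t c := fun t ht => congrArg Subtype.val (mem_center_iff.1 hc ⟨t, ht⟩)
  have h5 := mem_zpowers_symm h.ox (hn c (h4 x (h1 (mem_zpowers x))).symm
    (isPGroup_iff_mem.1 hT.pgroup c c.2)) fun e => c1 (Subtype.ext (Subtype.ext e))
  exact h3 fun t ht => hn t (comm_zp (h4 t ht) h5) (isPGroup_iff_mem.1 hT.pgroup t ht)

theorem mem_of_le {a : G} (ha : a ∈ O) (hk : ∃ k, a ^ p ^ k = 1)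
    (hn : ∀ d, Commute d x → d * a * d⁻¹ ∈ zpowers a ⊔ zpowers x) : a ∈ zpowers x := by
  obtain ⟨i, j, c, q⟩ := h.exists_quat
  have hax := hO.cen a ha
  have h1 : ∀ d, Commute d x → ∃ r : ℤ, ∃ ξ ∈ zpowers x, d * a * d⁻¹ = a ^ r * ξ := fun d hd => by
    obtain ⟨_, ⟨r, rfl⟩, ξ, hξ, e⟩ := (Coprime.mem_sup_iff_of_le_normalizer' (zpowers_le.2
      (centralizer_le_normalizer _ fun y hy => (comm_zp hax hy).symm.eq))).1 (hn d hd)
    exact ⟨r, ξ, hξ, e.symm⟩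
  have h2 : ∀ d d', Commute d x → Commute d' x → ∀ (r s : ℤ), ∀ ξ ∈ zpowers x, ∀ η ∈ zpowers x,
      d * a * d⁻¹ = a ^ r * ξ → d' * a * d'⁻¹ = a ^ s * η →
        d * d' * a * (d * d')⁻¹ = a ^ (r * s) * (ξ ^ s * η) := fun d d' hd hd' r s ξ hξ η hη e e' => by
    rw [show d * d' * a * (d * d')⁻¹ = d * (d' * a * d'⁻¹) * d⁻¹ by group, e', ← conj_mul, ← conj_zpow, e,
      (comm_zp hd hη).eq, mul_inv_cancel_right, ((comm_zp hax hξ).zpow_left r).mul_zpow,
      ← _root_.zpow_mul, mul_assoc]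
  obtain ⟨r, ξ, hξ, e1⟩ := h1 i q.ix
  obtain ⟨s, η, hη, e2⟩ := h1 j q.jx
  have e3 := h2 i j q.ix q.jx r s ξ hξ η hη e1 e2
  have e4 := h2 j i q.jx q.ix s r η hη ξ hξ e2 e1
  have hij := q.ix.mul_left q.jx
  have h3 : i * j * (a⁻¹ * (z * a * z⁻¹)) * (i * j)⁻¹ ∈ zpowers x := by
    rw [← conj_mul, ← conj_inv, e3, show i * j * (z * a * z⁻¹) * (i * j)⁻¹ =
      i * j * z * a * (i * j * z)⁻¹ by group, ← q.ij, e4, mul_comm s r,
      show (a ^ (r * s) * (ξ ^ s * η))⁻¹ * (a ^ (r * s) * (η ^ r * ξ)) = (ξ ^ s * η)⁻¹ * (η ^ r * ξ) by group]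
    exact mul_mem (inv_mem (mul_mem (zpow_mem hξ s) hη)) (mul_mem (zpow_mem hη r) hξ)
  have h4 : a⁻¹ * (z * a * z⁻¹) ∈ zpowers x := by
    have := (comm_zp hij h3).inv_left.eq
    rw [← mul_inv_eq_iff_eq_mul, inv_inv, show (i * j)⁻¹ * (i * j * (a⁻¹ * (z * a * z⁻¹)) * (i * j)⁻¹) *
      (i * j) = a⁻¹ * (z * a * z⁻¹) by group] at this
    rwa [this]
  have h6 : a ^ 2 ∈ zpowers x := by
    have := mul_mem (neg h hO ha) (inv_mem h4)
    rwa [show z * a * z⁻¹ * a = a * (a⁻¹ * (z * a * z⁻¹) * a) by group, ← (comm_zp hax h4).eq,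
      ← mul_assoc, mul_inv_cancel_right, ← pow_two] at this
  obtain ⟨k, hk⟩ := hk
  exact mem_of_pow ((Nat.coprime_two_left.2 (odd_p h)).pow_right k) h6 (hk ▸ one_mem _)

end AL2

open AL2

theorem Hyp.exists_sy (h : Hyp p z x) : ∃ P, Sy p z x P := by
  obtain ⟨O, hO⟩ := exists_OC h
  obtain ⟨P, hP⟩ := exists_isSylowIn p O
  have hX : zpowers x ≤ P := hP.le_of_le_normalizer (isPGroup_zpowers_of_pow (k := 1)
    ((pow_one p).symm ▸ xp h)) (zpowers_le.2 hO.mem) fun o ho =>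
      centralizer_le_normalizer _ fun y hy => (comm_zp (hO.cen o ho) hy).symm.eq
  have uniq : ∀ a, Commute a x → (∃ k, a ^ p ^ k = 1) → a ∈ P := fun a ha ⟨k, hk⟩ =>
    hP.le_of_normalizes (isPGroup_zpowers_of_pow hk) (zpowers_le.2 (mem_O h hO ha hk))
      (zpowers_le.2 (mem_normalizer_of_forall fun b hb => by
        have := mul_mem (hX (comm h hO (mem_O h hO ha hk) (hP.le hb))) hb
        rwa [inv_mul_cancel_right] at this)) (mem_zpowers a)
  have pp := isPGroup_iff_mem.1 hP.pgroup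
  have hX1 : Nat.card (zpowers x) = p ^ 1 := by rw [Nat.card_zpowers, h.ox, pow_one]
  obtain ⟨n, hn⟩ := IsPGroup.iff_card.1 hP.pgroup
  have hn3 : n ≤ 3 := by
    by_contra hh
    exact h.ndvd ((pow_dvd_pow p (by omega)).trans (hn ▸ card_subgroup_dvd_card P))
  have key : ∀ a ∈ P, a ∉ zpowers x → n = 3 ∧ Nat.card (zpowers a ⊔ zpowers x : Subgroup G) = p ^ 2 := by
    intro a ha h1
    have h2 : zpowers a ⊔ zpowers x ≤ P := sup_le (zpowers_le.2 ha) hX
    obtain ⟨m, hm⟩ := IsPGroup.iff_card.1 (hP.pgroup.to_le h2)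
    have h3 := card_lt_of_lt (lt_of_le_of_ne h2 fun e => h1 (mem_of_le h hO (hP.le ha) (pp a ha)
      fun d hd => e.ge (uniq _ ((hd.mul_left (hO.cen a (hP.le ha))).mul_left hd.inv_left) (by
        obtain ⟨k, hk⟩ := pp a ha
        exact ⟨k, by rw [conj_pow, hk]; simp⟩))))
    have h4 := card_lt_of_lt (lt_of_le_of_ne (le_sup_right : zpowers x ≤ zpowers a ⊔ zpowers x)
      fun e => h1 (e.ge (mem_sup_left (mem_zpowers a))))
    rw [hm, hn] at h3
    rw [hm, hX1] at h4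
    have := (Nat.pow_lt_pow_iff_right hp.out.one_lt).1 h3
    have := (Nat.pow_lt_pow_iff_right hp.out.one_lt).1 h4
    exact ⟨by omega, by rw [hm, show m = 2 by omega]⟩
  obtain ⟨a0, h1, h2, h3⟩ := exists_notMem h
  have xp' : ∀ ξ ∈ zpowers x, ξ ^ p = 1 := fun ξ hξ => by
    obtain ⟨k, rfl⟩ := mem_powers_iff_mem_zpowers.2 hξ
    rw [← pow_mul, mul_comm, pow_mul, xp h, one_pow]
  refine ⟨P, by rw [hn, (key a0 (uniq a0 h1 h2) h3).1], hX (mem_zpowers x), fun a ha => hO.cen a (hP.le ha),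
    fun a ha => ?_, fun a ha b hb => comm h hO (hP.le ha) (hP.le hb), fun a ha => neg h hO (hP.le ha), uniq⟩
  by_cases h4 : a ∈ zpowers x
  · exact xp' a h4
  have hax := hO.cen a (hP.le ha)
  have h5 := card_mul_relIndex' (le_sup_right : zpowers x ≤ zpowers a ⊔ zpowers x)
  rw [(key a ha h4).2, hX1, pow_succ p 1] at h5
  have : ((zpowers x).subgroupOf (zpowers a ⊔ zpowers x)).Normal :=
    normal_subgroupOf_of_le_normalizer (sup_le (zpowers_le.2 (centralizer_le_normalizer _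
      fun y hy => (comm_zp hax hy).symm.eq)) le_normalizer)
  have h6 : a ^ (zpowers x).relIndex (zpowers a ⊔ zpowers x) ∈ zpowers x :=
    ((zpowers x).subgroupOf (zpowers a ⊔ zpowers x)).pow_index_mem ⟨a, mem_sup_left (mem_zpowers a)⟩
  rw [Nat.eq_of_mul_eq_mul_left (pow_pos hp.out.pos 1) h5] at h6
  have h7 := neg h hO (hP.le ha)
  have h8 : z * a ^ p * z⁻¹ * a ^ p = 1 := by
    have e : Commute (z * a * z⁻¹) a := by
      have := (comm_zp hax h7).symm.mul_left (Commute.refl a).inv_left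
      rwa [mul_inv_cancel_right] at this
    rw [← conj_pow, ← e.mul_pow, xp' _ h7]
  rw [(comm_zp h.zx h6).eq, mul_inv_cancel_right, ← pow_two] at h8
  exact mem_bot.1 (mem_of_pow (Nat.coprime_two_left.2 (odd_p h)) (h8 ▸ one_mem _) (xp' _ h6 ▸ one_mem _))

theorem Sy.norm {P : Subgroup G} (hs : Sy p z x P) (ox : orderOf x = p) {g : G} (hg : g * x * g⁻¹ ∈ zpowers x) :
    g ∈ normalizer (P : Set G) := by
  have x1 : g * x * g⁻¹ ≠ 1 := fun e => hp.out.ne_one (by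
    rw [← ox, orderOf_eq_one_iff]; simpa using e)
  refine mem_normalizer_of_forall fun a ha => hs.uniq _ (comm_zp ?_ (mem_zpowers_symm ox hg x1))
    ⟨1, by rw [pow_one, conj_pow, hs.pow a ha]; simp⟩
  exact (hs.cen a ha).map (MulAut.conj g).toMonoidHom

theorem Hyp.not_dvd_index (h : Hyp p z x) {P : Subgroup G} (hs : Sy p z x P) : ¬ p ∣ P.index := fun e =>
  h.ndvd (by rw [← P.card_mul_index, hs.card, pow_succ p 3]; exact Nat.mul_dvd_mul_left _ e)

theorem Hyp.conj_into (h : Hyp p z x) {t u : G} (ht : IsConj z t) (hu : orderOf u = p) (hc : Commute u t) :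
    ∃ (g : G) (k : ℕ), g * z * g⁻¹ = t ∧ g * x ^ k * g⁻¹ = u := by
  obtain ⟨c, rfl⟩ := isConj_iff.1 ht
  have h1 : Commute (c⁻¹ * u * c) z := by
    have := hc.map (MulAut.conj c⁻¹).toMonoidHom
    simpa [mul_assoc] using this
  obtain ⟨d, hd⟩ := Perm.exists_conj_mem_zpowers_of_not_sq_dvd hp.out h.cardC
    (x := ⟨x, mem_centralizer_singleton_iff.2 h.zx.symm⟩) (y := ⟨_, mem_centralizer_singleton_iff.2 h1⟩)
    (by rw [orderOf_mk, h.ox]) (by
      rw [orderOf_mk, ← hu, ← inv_inv c, inv_inv c⁻¹]; exact MulEquiv.orderOf_eq (MulAut.conj c⁻¹) u)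
  obtain ⟨k, hk⟩ := (mem_powers_iff_mem_zpowers.2 hd)
  have e : x ^ k = d * (c⁻¹ * u * c) * (d : G)⁻¹ := congrArg Subtype.val hk
  have hd' : Commute (d : G) z := mem_centralizer_singleton_iff.1 d.2
  refine ⟨c * (d : G)⁻¹, k, ?_, by rw [e]; group⟩
  rw [mul_assoc c, hd'.inv_left.eq]; group

end CfsgLib.RV
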