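import Mathlib
import Cfsg.Agent.Lib.RV.Alb
import Cfsg.Agent.Lib.RV.Heis

/-!
# Package AL3: the non-abelian case (plans/RV.md)
-/

set_option autoImplicit false

namespace CfsgLib.RV

open Subgroup Matrix Cfsg CfsgLib.Fusion

variable {p : ℕ} [hp : Fact p.Prime] {G : Type*} [Group G] [Finite G] {z x : G}

namespace AL3

omit [Finite G]

/-- `k` induces the matrix `A` up to an inner automorphism -/
def Rl (θ : Hs p →* G) (k : G) (A : G2 p) : Prop := ∃ s : Hs p, ∀ a, k * θ a * k⁻¹ = θ (s * act A a * s⁻¹)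

variable {θ : Hs p →* G}

theorem Rl.mul {k l : G} {A B : G2 p} (h : Rl θ k A) (h' : Rl θ l B) : Rl θ (k * l) (A * B) := by
  obtain ⟨s, e⟩ := h
  obtain ⟨s', e'⟩ := h'
  refine ⟨s * act A s', fun a => ?_⟩
  rw [show k * l * θ a * (k * l)⁻¹ = k * (l * θ a * l⁻¹) * k⁻¹ by group, e', e, map_mul act, MulAut.mul_apply,
    map_mul (act A), map_mul (act A), map_inv]
  congr 1; group

theorem mat_ext {A B : Matrix (Fin 2) (Fin 2) (ZMod p)} (h : ∀ v, A *ᵥ v = B *ᵥ v) : A = B :=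
  Matrix.ext fun i j => by simpa using congrFun (h (Pi.single j 1)) i

theorem Rl.uniq (hθ : Function.Injective θ) {k : G} {A B : G2 p} (h : Rl θ k A) (h' : Rl θ k B) : A = B := by
  obtain ⟨s, e⟩ := h
  obtain ⟨s', e'⟩ := h'
  refine Units.ext (mat_ext fun v => ?_)
  simpa using congrArg Hs.v (hθ ((e ⟨v, 0⟩).symm.trans (e' ⟨v, 0⟩)))

theorem Rl.mem_EL {k : G} {A : G2 p} (h : Rl θ k A) {v : V2 p} (hv : v ∈ EL ⊤ θ) : A.1 *ᵥ v ∈ EL ⊤ θ := by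
  obtain ⟨s, e⟩ := h
  obtain ⟨h0, g, -, c, e'⟩ := hv
  refine ⟨fun h1 => h0 ?_, g * k⁻¹ * θ s, trivial, c, ?_⟩
  · have := congrArg (fun w => (A⁻¹).1 *ᵥ w) h1
    simpa only [mulVec_mulVec, Units.inv_mul, one_mulVec, mulVec_zero] using this
  · have := e ⟨v, 0⟩
    rw [act_mk, mul_zero, map_mul, map_mul, map_inv] at this
    rw [← e', show g * k⁻¹ * θ s * θ ⟨A.1 *ᵥ v, 0⟩ * (g * k⁻¹ * θ s)⁻¹ =
      g * k⁻¹ * (θ s * θ ⟨A.1 *ᵥ v, 0⟩ * (θ s)⁻¹) * k * g⁻¹ by group, ← this]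
    group

end AL3

theorem Hyp.three_of_nonab (h : Hyp p z x) {P : Subgroup G} (hs : Sy p z x P)
    (hna : ∃ a ∈ P, ∃ b ∈ P, a * b ≠ b * a) : ∃ θ : Hs p →* G, SylH θ ∧ Three (EL ⊤ θ) := by
  have hp2 : p ≠ 2 := by obtain e | e := h.hp <;> omega
  have h2 : (2 : ZMod p) ≠ 0 := fun e => hp2 ((Nat.prime_dvd_prime_iff_eq hp.out Nat.prime_two).1
    ((ZMod.natCast_eq_zero_iff 2 p).1 (by exact_mod_cast e)))
  obtain ⟨θ, hθ, hx⟩ := exists_crd hp2 hs.card hs.mem h.ox hs.cen hs.pow hs.comm hna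
  refine ⟨θ, ⟨hθ.inj, hθ.range ▸ h.not_dvd_index hs⟩, ?_⟩
  have tot : ∀ k : G, k * x * k⁻¹ ∈ zpowers x → ∃ A, AL3.Rl θ k A := fun k hk =>
    let ⟨s, A, e⟩ := hθ.exists_act hp2 (hs.norm h.ox hk); ⟨A, s, e⟩
  have hxn : ∀ n : ℕ, x ^ n = θ ⟨0, n⟩ := fun n => by rw [← hx, ← map_pow, Hs.pow_eq]; simp
  have hzz : z * z = 1 := by rw [← sq, ← h.oz, pow_orderOf_eq_one]
  -- an involution inverting `x`
  obtain ⟨t, tt, tx⟩ : ∃ t : G, t * t = 1 ∧ t * x * t⁻¹ = x⁻¹ := by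
    obtain ⟨i, j, c, q⟩ := h.exists_quat
    obtain e | e := q.cc
    · exact ⟨c, e, q.cx⟩
    · refine ⟨c * i, ?_, ?_⟩
      · rw [mul_assoc, ← mul_assoc i, ← q.ci.eq, mul_assoc, q.ii, ← mul_assoc, e, hzz]
      · rw [← q.cx, mul_assoc c, q.ix.eq]; group
  obtain ⟨A, s, e⟩ := tot t (tx ▸ inv_mem (mem_zpowers x))
  have hd : A.1.det = -1 := by
    have := e ⟨0, 1⟩
    rw [hx, tx, ← hx, ← map_inv] at this
    simpa [Hs.conj_eq, om] using (congrArg Hs.c (hθ.inj this)).symm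
  have t1 : t ≠ 1 := fun e1 => by
    rw [e1, one_mul, inv_one, mul_one, ← hx, ← map_inv] at tx
    have : (1 : ZMod p) = -1 := congrArg Hs.c (hθ.inj tx)
    exact h2 (by linear_combination this)
  have := Fact.mk Nat.prime_two
  have ot : orderOf t = 2 := orderOf_eq_prime (by rw [sq, tt]) t1
  have hAA : A * A = 1 := AL3.Rl.uniq hθ.inj (AL3.Rl.mul ⟨s, e⟩ ⟨s, e⟩) ⟨1, fun a => by simp [tt]⟩
  obtain ⟨w, hw⟩ : ∃ w, w + A.1 *ᵥ w ≠ 0 := by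
    by_contra! hc
    have : A.1 = -1 := AL3.mat_ext fun v => by rw [neg_mulVec, one_mulVec, eq_neg_iff_add_eq_zero, add_comm, hc]
    rw [this, det_fin_two] at hd
    exact h2 (by simp at hd; linear_combination hd)
  obtain ⟨v, hv⟩ : ∃ v, v = w + A.1 *ᵥ w := ⟨_, rfl⟩
  have hAv : A.1 *ᵥ v = v := by
    rw [hv, mulVec_add, mulVec_mulVec, ← Units.val_mul, hAA, Units.val_one, one_mulVec, add_comm]
  rw [← hv] at hw
  obtain ⟨d, hd'⟩ : ∃ d, t * θ ⟨v, 0⟩ * t⁻¹ = θ ⟨v, d⟩ := ⟨_, by rw [e, act_mk, Hs.conj_eq, hAv]⟩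
  have hv2 : v + v ≠ 0 := by rw [← two_smul (ZMod p)]; exact smul_ne_zero h2 hw
  have hc : (⟨v, 0⟩ : Hs p) * ⟨v, d⟩ = ⟨v, d⟩ * ⟨v, 0⟩ := Hs.comm_iff.2 (by simp [om, mul_comm])
  have hu : (⟨v, 0⟩ : Hs p) * ⟨v, d⟩ = ⟨v + v, d⟩ := Hs.ext rfl (by simp [om, mul_comm])
  obtain ⟨g, k, -, hg⟩ := h.conj_into (u := θ ⟨v + v, d⟩) (h.cls t ot tx)
    (orderOf_eq_prime (by rw [← map_pow, Hs.pow_p, map_one]) fun e1 =>
      hv2 (congrArg Hs.v (hθ.inj (e1.trans (map_one θ).symm)))) (by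
      have ti : t⁻¹ = t := inv_eq_of_mul_eq_one_right tt
      have e1 : θ ⟨v + v, d⟩ = θ ⟨v, 0⟩ * (t * θ ⟨v, 0⟩ * t) := by rw [← hu, map_mul, ← hd', ti]
      have e2 : θ ⟨v + v, d⟩ = t * θ ⟨v, 0⟩ * t * θ ⟨v, 0⟩ := by rw [← hu, hc, map_mul, ← hd', ti]
      change _ * _ = _ * _
      nth_rw 1 [e1]
      rw [e2]
      simp only [← mul_assoc, tt, one_mul]
      rw [mul_assoc _ t t, tt, mul_one])
  obtain ⟨r, hr⟩ := exists_conj_c hp2 hv2 0 d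
  have m1 : v + v ∈ EL ⊤ θ := ⟨hv2, g⁻¹ * θ r, trivial, k, by
    rw [← hxn, show g⁻¹ * θ r * θ ⟨v + v, 0⟩ * (g⁻¹ * θ r)⁻¹ = g⁻¹ * θ (r * ⟨v + v, 0⟩ * r⁻¹) * g by
      rw [map_mul, map_mul, map_inv]; group, hr, ← hg]
    group⟩
  have mv := fun {a b : V2 p} => h.move (a := a) (b := b) (AL3.Rl θ)
    (fun k _ hk => tot k (by rw [hk.eq, mul_inv_cancel_right]; exact mem_zpowers x))
    (fun _ _ _ _ => AL3.Rl.mul) (fun _ _ _ => AL3.Rl.uniq hθ.inj)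
    ⟨1, fun a => by rw [← (hs.cen _ (hθ.mem a)).eq]; simp⟩ (by
      rintro B ⟨s', e'⟩
      refine AL3.mat_ext fun y => ?_
      obtain ⟨n, hn⟩ := (mem_powers_iff_mem_zpowers.2 (hs.neg _ (hθ.mem ⟨y, 0⟩)))
      simp only [hxn, e', ← map_mul] at hn
      rw [neg_mulVec, one_mulVec, eq_neg_iff_add_eq_zero]
      simpa using (congrArg Hs.v (hθ.inj hn)).symm)
  obtain ⟨k1, B, -, -, r1, o1, -⟩ := mv hv2 hv2
  obtain ⟨k2, C, -, -, r2, o2, o3⟩ := mv hv2 (r1.mem_EL m1).1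
  exact ⟨_, r2.mem_EL m1, _, r1.mem_EL m1, _, m1, o3, o2, o1⟩

end CfsgLib.RV
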