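import Mathlib
import Cfsg.Agent.Lib.RV.Alb
import Cfsg.Agent.Lib.RV.Abl

/-!
# Package AL4: the abelian case (plans/RV.md)
-/

set_option autoImplicit false

namespace CfsgLib.RV

open Subgroup Matrix Cfsg CfsgLib.Fusion CfsgLib.Tech Multiplicative

variable {p : ℕ} [hp : Fact p.Prime] {G : Type*} [Group G] [Finite G] {z x : G}

namespace AL4

open AL2

theorem exists_rho {n : ℕ} {κ : Multiplicative (Fin n → ZMod p) →* G} (inj : Function.Injective κ) :
    ∃ ρ : normalizer (κ.range : Set G) →* GL (Fin n) (ZMod p),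
      ∀ (g : G) (hg : g ∈ normalizer (κ.range : Set G)) (v : Fin n → ZMod p),
        g * κ (ofAdd v) * g⁻¹ = κ (ofAdd ((ρ ⟨g, hg⟩).1 *ᵥ v)) := by
  have h1 : ∀ g : normalizer (κ.range : Set G), ∃ M : Matrix (Fin n) (Fin n) (ZMod p),
      ∀ v, (g : G) * κ (ofAdd v) * (g : G)⁻¹ = κ (ofAdd (M *ᵥ v)) := fun g => by
    let e := MonoidHom.ofInjective inj
    let f := (e.trans ((κ.range.normalizerMonoidHom g).trans e.symm)).toMonoidHom
    refine ⟨LinearMap.toMatrix' ((AddMonoidHom.toMultiplicative.symm f).toZModLinearMap p), fun v => ?_⟩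
    rw [LinearMap.toMatrix'_mulVec]
    exact (MonoidHom.apply_ofInjective_symm inj (κ.range.normalizerMonoidHom g (e (ofAdd v)))).symm
  choose M hM using h1
  have hext : ∀ A B : Matrix (Fin n) (Fin n) (ZMod p),
      (∀ v, κ (ofAdd (A *ᵥ v)) = κ (ofAdd (B *ᵥ v))) → A = B := fun A B hAB =>
    Matrix.toLin'.injective (LinearMap.ext fun v => ofAdd.injective (inj (hAB v)))
  let m : normalizer (κ.range : Set G) →* Matrix (Fin n) (Fin n) (ZMod p) :=
    { toFun := M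
      map_one' := hext _ _ fun v => by rw [← hM, one_mulVec]; simp
      map_mul' := fun α β => hext _ _ fun s => by
        rw [← hM, ← mulVec_mulVec, ← hM, ← hM, Subgroup.coe_mul]; group }
  exact ⟨m.toHomUnits, fun g hg => hM ⟨g, hg⟩⟩

/-- block matrices -/
def bl (ε : ZMod p) (A : Matrix (Fin 2) (Fin 2) (ZMod p)) : Matrix (Fin 3) (Fin 3) (ZMod p) :=
  !![ε, 0, 0; 0, A 0 0, A 0 1; 0, A 1 0, A 1 1]

theorem bl_mul (ε δ : ZMod p) (A B : Matrix (Fin 2) (Fin 2) (ZMod p)) :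
    bl ε A * bl δ B = bl (ε * δ) (A * B) := by
  ext i j; fin_cases i <;> fin_cases j <;> simp [bl, Matrix.mul_apply, Fin.sum_univ_succ]

theorem bl_inj {ε δ : ZMod p} {A B : Matrix (Fin 2) (Fin 2) (ZMod p)} (h : bl ε A = bl δ B) : A = B := by
  ext i j
  fin_cases i <;> fin_cases j
  exacts [congrFun (congrFun h 1) 1, congrFun (congrFun h 1) 2, congrFun (congrFun h 2) 1,
    congrFun (congrFun h 2) 2]

theorem bl_one : bl (1 : ZMod p) 1 = 1 := by
  ext i j; fin_cases i <;> fin_cases j <;> simp [bl]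

theorem bl_det (ε : ZMod p) (A : Matrix (Fin 2) (Fin 2) (ZMod p)) : (bl ε A).det = ε * A.det := by
  simp [bl, det_fin_three, det_fin_two]; ring

theorem bl_mulVec (ε : ZMod p) (A : Matrix (Fin 2) (Fin 2) (ZMod p)) (v : V2 p) :
    bl ε A *ᵥ ![0, v 0, v 1] = ![0, (A *ᵥ v) 0, (A *ᵥ v) 1] := by
  ext i; fin_cases i <;> simp [bl, mulVec, dotProduct, Fin.sum_univ_succ]

theorem two_ne (h : Hyp p z x) : (2 : ZMod p) ≠ 0 := by
  intro e
  have := (ZMod.natCast_eq_zero_iff 2 p).1 (by exact_mod_cast e)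
  rcases h.hp with rfl | rfl <;> omega

theorem exists_crd3 (h : Hyp p z x) {P : Subgroup G} (hs : Sy p z x P) (hc : ∀ a ∈ P, ∀ b ∈ P, Commute a b) :
    ∃ κ : Multiplicative (Fin 3 → ZMod p) →* G, Function.Injective κ ∧ κ.range = P ∧
      (∀ a, κ (ofAdd ![a, 0, 0]) = zpw x a) ∧
      ∀ v, z * κ (ofAdd v) * z⁻¹ = κ (ofAdd (bl 1 (-1) *ᵥ v)) := by
  haveI : NeZero p := ⟨hp.out.ne_zero⟩
  have zi : z⁻¹ = z := inv_eq_of_mul_eq_one_right (zz h)
  have hz := hs.norm h.ox (g := z) (by rw [h.zx.eq, mul_inv_cancel_right]; exact mem_zpowers x)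
  have h1 : ∀ H : Subgroup G, x ∈ H → (∀ u ∈ P, z * u * z⁻¹ = u⁻¹ → u ∈ H) → p ^ 3 ≤ Nat.card H := by
    intro H hx hH
    refine hs.card ▸ Subgroup.card_le_of_le fun a ha => mem_of_pow (Nat.coprime_two_left.2 (odd_p h)) ?_
      (hs.pow a ha ▸ one_mem _)
    have hb := Tech.conj_mem_of_mem_normalizer hz ha
    have := mul_mem (hH _ (mul_mem ha (inv_mem hb)) (by
      rw [← conj_mul, _root_.mul_inv_rev a, inv_inv]
      congr 1
      simp only [_root_.mul_inv_rev, zi]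
      rw [show z * (z * (a⁻¹ * z)) * z = z * z * a⁻¹ * (z * z) by group, zz h, one_mul, mul_one]))
      (zpowers_le.2 hx (hs.neg a ha))
    rwa [show a * (z * a * z⁻¹)⁻¹ * (z * a * z⁻¹ * a) = a * a by group, ← pow_two] at this
  have h2 : ∃ u ∈ P, z * u * z⁻¹ = u⁻¹ ∧ u ≠ 1 := by
    by_contra hn
    push Not at hn
    have := h1 (zpowers x) (mem_zpowers x) fun u hu e => hn u hu e ▸ one_mem _
    rw [Nat.card_zpowers, h.ox] at this
    rcases h.hp with rfl | rfl <;> omega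
  obtain ⟨u, hu, eu, u1⟩ := h2
  have ou : orderOf u = p := orderOf_eq_prime (hs.pow u hu) u1
  have h3 : ∃ w ∈ P, z * w * z⁻¹ = w⁻¹ ∧ w ∉ zpowers u := by
    by_contra hn
    push Not at hn
    have := h1 (zpowers x ⊔ zpowers u) (mem_sup_left (mem_zpowers x)) fun w hw e => mem_sup_right (hn w hw e)
    have h4 := Coprime.card_sup_mul_card_inf (K := zpowers x) (A := zpowers u) (zpowers_le.2
      (centralizer_le_normalizer _ fun y hy => (comm_zp (hs.cen u hu) hy).symm.eq))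
    rw [Nat.card_zpowers, Nat.card_zpowers, h.ox, ou] at h4
    have h5 : 0 < Nat.card (zpowers x ⊓ zpowers u : Subgroup G) := Nat.card_pos
    rcases h.hp with rfl | rfl <;> nlinarith
  obtain ⟨w, hw, ew, w1⟩ := h3
  let κ : Multiplicative (Fin 3 → ZMod p) →* G := MonoidHom.mk'
    (fun v => zpw x (v.toAdd 0) * (zpw u (v.toAdd 1) * zpw w (v.toAdd 2))) fun a b => by
      simp only [toAdd_mul, Pi.add_apply, zpw_add (xp h), zpw_add (hs.pow u hu), zpw_add (hs.pow w hw)]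
      rw [(hc _ (zpw_mem hu _) _ (zpw_mem hw _)).mul_mul_mul_comm,
        (hc _ (zpw_mem hs.mem _) _ (mul_mem (zpw_mem hu _) (zpw_mem hw _))).mul_mul_mul_comm]
  have hκ : ∀ v, κ (ofAdd v) = zpw x (v 0) * (zpw u (v 1) * zpw w (v 2)) := fun _ => rfl
  have cj : ∀ y (a : ZMod p), z * zpw y a * z⁻¹ = zpw (z * y * z⁻¹) a := fun y a =>
    map_zpw (MulAut.conj z) y a
  have iv : ∀ y ∈ P, ∀ a : ZMod p, zpw y⁻¹ a = zpw y (-a) := fun y hy a => by
    rw [← zpw_one (hs.pow y hy), ← zpw_neg (hs.pow y hy), zpw_zpw (hs.pow y hy), zpw_zpw (hs.pow y hy)]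
    simp
  have hz' : ∀ v, z * κ (ofAdd v) * z⁻¹ = κ (ofAdd (bl 1 (-1) *ᵥ v)) := fun v => by
    rw [hκ, hκ, ← conj_mul, ← conj_mul, cj, cj, cj, h.zx.eq, mul_inv_cancel_right, eu, ew, iv u hu, iv w hw]
    simp [bl, mulVec, dotProduct, Fin.sum_univ_succ]
  have inj : Function.Injective κ := (injective_iff_map_eq_one κ).2 fun v hv => by
    obtain ⟨v, rfl⟩ := ofAdd.surjective v
    have e1 : κ (ofAdd (v + bl 1 (-1) *ᵥ v)) = 1 := by rw [ofAdd_add, map_mul, ← hz', hv]; simp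
    have e2 : v 0 = 0 := by
      rw [hκ] at e1
      simp [bl, mulVec, dotProduct, Fin.sum_univ_succ, zpw_zero, zpw_eq_one_iff h.ox, ← two_mul,
        two_ne h] at e1
      exact e1
    rw [hκ, e2, zpw_zero, one_mul] at hv
    have e3 : v 2 = 0 := by
      by_contra e
      apply w1
      rw [← zpw_one (n := p) (hs.pow w hw), ← mul_inv_cancel₀ e, ← zpw_zpw (hs.pow w hw),
        eq_inv_of_mul_eq_one_right hv]
      exact zpw_mem (inv_mem (zpw_mem_zpowers _ _)) _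
    rw [e3, zpw_zero, mul_one, zpw_eq_one_iff ou] at hv
    ext i; fin_cases i
    exacts [e2, hv, e3]
  refine ⟨κ, inj, eq_of_le_of_card_ge ?_ ?_, fun a => by simp [hκ, zpw_zero], hz'⟩
  · rintro _ ⟨v, rfl⟩
    exact mul_mem (zpw_mem hs.mem _) (mul_mem (zpw_mem hu _) (zpw_mem hw _))
  · rw [hs.card, ← Nat.card_congr (MonoidHom.ofInjective inj).toEquiv]
    simp

end AL4

open AL2 AL4 in
theorem Hyp.nonab (h : Hyp p z x) {P : Subgroup G} (hs : Sy p z x P) : ∃ a ∈ P, ∃ b ∈ P, a * b ≠ b * a := by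
  haveI : NeZero p := ⟨hp.out.ne_zero⟩
  by_contra hc
  push Not at hc
  obtain ⟨κ, inj, rfl, κx, κz⟩ := exists_crd3 h hs hc
  obtain ⟨ρ, hρ⟩ := exists_rho inj
  have p2 : p ≠ 2 := by rcases h.hp with rfl | rfl <;> omega
  have x1 : x⁻¹ ≠ x := fun e => two_ne h (by
    rw [← zpw_eq_one_iff h.ox, ← one_add_one_eq_two, zpw_add (xp h), zpw_one (xp h)]
    exact mul_eq_one_iff_inv_eq.2 e)
  have hext : ∀ {g : G} (hg : g ∈ normalizer (κ.range : Set G)) {M : Matrix (Fin 3) (Fin 3) (ZMod p)},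
      (∀ v, g * κ (ofAdd v) * g⁻¹ = κ (ofAdd (M *ᵥ v))) → (ρ ⟨g, hg⟩).1 = M := fun hg M e =>
    Matrix.toLin'.injective (LinearMap.ext fun v => ofAdd.injective (inj ((hρ _ hg v).symm.trans (e v))))
  have ρm : ∀ {a b : G} (ha : a ∈ normalizer (κ.range : Set G)) (hb : b ∈ normalizer (κ.range : Set G)),
      (ρ ⟨a * b, mul_mem ha hb⟩).1 = (ρ ⟨a, ha⟩).1 * (ρ ⟨b, hb⟩).1 := fun ha hb =>
    congrArg Units.val (map_mul ρ ⟨_, ha⟩ ⟨_, hb⟩)
  have n1 : ∀ {k : G}, Commute k x → k ∈ normalizer (κ.range : Set G) := fun e =>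
    hs.norm h.ox (by rw [e.eq, mul_inv_cancel_right]; exact mem_zpowers x)
  have n2 : ∀ {k : G}, k * x * k⁻¹ = x⁻¹ → k ∈ normalizer (κ.range : Set G) := fun e =>
    hs.norm h.ox (e ▸ inv_mem (mem_zpowers x))
  have ρz : (ρ ⟨z, n1 h.zx⟩).1 = bl 1 (-1) := hext _ κz
  have ρP : ∀ a (ha : a ∈ κ.range), (ρ ⟨a, le_normalizer ha⟩).1 = 1 := fun a ha =>
    hext _ fun v => by rw [one_mulVec, hc a ha _ ⟨_, rfl⟩, mul_inv_cancel_right]
  have exb : ∀ {k : G} (hk : k ∈ normalizer (κ.range : Set G)) {ε : ZMod p}, Commute k z →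
      k * x * k⁻¹ = zpw x ε → ∃ A, (ρ ⟨k, hk⟩).1 = bl ε A := fun {k} hk ε e1 e2 => by
    have e3 : (ρ ⟨k, hk⟩).1 * bl 1 (-1) = bl 1 (-1) * (ρ ⟨k, hk⟩).1 := by
      rw [← ρz, ← ρm, ← ρm]; simp only [e1.eq]
    have e4 := hρ k hk ![1, 0, 0]
    rw [κx, zpw_one (xp h), e2, ← κx] at e4
    have e5 := congrFun (ofAdd.injective (inj e4))
    generalize (ρ ⟨k, hk⟩).1 = M at e3 e5
    have a0 := e5 0
    have a1 := e5 1
    have a2 := e5 2
    have a3 := congrFun (congrFun e3 0) 1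
    have a4 := congrFun (congrFun e3 0) 2
    simp [bl, mulVec, dotProduct, Fin.sum_univ_succ, Matrix.mul_apply] at a0 a1 a2 a3 a4
    have t : ∀ a : ZMod p, -a = a → a = 0 := fun a e =>
      (mul_eq_zero.1 (show 2 * a = 0 by linear_combination -e)).resolve_left (two_ne h)
    refine ⟨!![M 1 1, M 1 2; M 2 1, M 2 2], ?_⟩
    ext i j; fin_cases i <;> fin_cases j <;> simp [bl, ← a0, ← a1, ← a2, t _ a3, t _ a4]
  have ex1 : ∀ {k : G} (e : Commute k x), Commute k z → ∃ A, (ρ ⟨k, n1 e⟩).1 = bl 1 A := fun e e1 =>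
    exb _ e1 (by rw [e.eq, mul_inv_cancel_right, zpw_one (xp h)])
  have star : ∀ {t : G} (e : t * x * t⁻¹ = x⁻¹), t * t = 1 → (ρ ⟨t, n2 e⟩).1 ≠ bl (-1) 1 := by
    intro t e t2 e1
    obtain ⟨c, hc⟩ := isConj_iff.1 (h.cls t (orderOf_eq_prime ((pow_two t).trans t2) fun e0 =>
      x1 (by rw [← e, e0]; simp)) e)
    let L : Multiplicative (V2 p) →* Multiplicative (Fin 3 → ZMod p) := MonoidHom.mk'
      (fun v => ofAdd ![0, v.toAdd 0, v.toAdd 1]) fun a b => by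
        rw [← ofAdd_add]; congr 1; ext i; fin_cases i <;> simp
    have iL : Function.Injective (κ.comp L) := inj.comp fun a b e => by
      have := congrFun (ofAdd.injective e)
      ext i; fin_cases i
      exacts [this 1, this 2]
    have h1 : (κ.comp L).range ≤ centralizer {t} := by
      rintro _ ⟨v, rfl⟩
      have := hρ t (n2 e) ![0, v.toAdd 0, v.toAdd 1]
      rw [e1, bl_mulVec, one_mulVec] at this
      exact mem_centralizer_singleton_iff.2 (mul_inv_eq_iff_eq_mul.1 this).symm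
    have h2 := card_dvd_of_le h1
    rw [← Nat.card_congr (MonoidHom.ofInjective iL).toEquiv, ← hc, ← cj_centralizer_singleton, card_cj] at h2
    exact h.cardC (by simpa using h2)
  have star' : ∀ {t : G} (e : t * x * t⁻¹ = x⁻¹), t * t = 1 → Commute t z →
      (ρ ⟨t, n2 e⟩).1 ≠ bl (-1) (-1) := fun {t} e t2 tz e1 =>
    star (t := t * z) (by rw [show t * z * x * (t * z)⁻¹ = t * (z * x * z⁻¹) * t⁻¹ by group, h.zx.eq,
      mul_inv_cancel_right, e]) (by rw [tz.symm.mul_mul_mul_comm, t2, zz h, one_mul])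
      (by rw [ρm (n2 e) (n1 h.zx), e1, ρz, bl_mul]; simp)
  obtain ⟨i, j, c, q⟩ := h.exists_quat
  have iz : Commute i z := q.ii ▸ (Commute.refl i).mul_right (Commute.refl i)
  have cz : Commute c z := q.ii ▸ q.ci.mul_right q.ci
  obtain ⟨I, eI⟩ := ex1 q.ix iz
  obtain ⟨J, eJ⟩ := ex1 q.jx (q.jj ▸ (Commute.refl j).mul_right (Commute.refl j))
  obtain ⟨C, eC⟩ := exb (n2 q.cx) (ε := -1) cz (by rw [q.cx, zpw_neg (xp h), zpw_one (xp h)])
  have hI : I * I = -1 := bl_inj (by rw [← bl_mul, ← eI, ← ρm, ← ρz]; simp only [q.ii])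
  have hJ : J * J = -1 := bl_inj (by rw [← bl_mul, ← eJ, ← ρm, ← ρz]; simp only [q.jj])
  have hIJ : J * I = I * J * -1 := bl_inj (by
    rw [← bl_mul, ← bl_mul, ← bl_mul, ← eI, ← eJ, ← ρz, ← ρm, ← ρm, ← ρm]; simp only [q.ij])
  have hCI : C * I = I * C := bl_inj (by rw [← bl_mul, ← bl_mul, ← eI, ← eC, ← ρm, ← ρm]; simp only [q.ci.eq])
  have hCJ : C * J = J * C := bl_inj (by rw [← bl_mul, ← bl_mul, ← eJ, ← eC, ← ρm, ← ρm]; simp only [q.cj.eq])
  obtain ⟨m, rfl⟩ := scalar_of_comm p2 hI hJ (by simpa using hIJ) hCI hCJ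
  have hcc := ρm (n2 q.cx) (n2 q.cx)
  rw [eC, bl_mul] at hcc
  rcases q.cc with e | e
  · simp only [e] at hcc
    have h1 := congrFun (congrFun (bl_inj (bl_one.trans ((congrArg Units.val ρ.map_one).symm.trans hcc))) 0) 0
    simp at h1
    rcases mul_self_eq_one_iff.1 h1.symm with rfl | rfl
    · exact star q.cx e (by simpa using eC)
    · exact star' q.cx e cz (by simpa using eC)
  simp only [e] at hcc
  have hm := congrFun (congrFun (bl_inj (ρz.symm.trans hcc)) 0) 0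
  simp at hm
  have tx : c * i * x * (c * i)⁻¹ = x⁻¹ := by
    rw [show c * i * x * (c * i)⁻¹ = c * (i * x * i⁻¹) * c⁻¹ by group, q.ix.eq, mul_inv_cancel_right, q.cx]
  have t2 : c * i * (c * i) = 1 := by rw [q.ci.symm.mul_mul_mul_comm, e, q.ii, zz h]
  have eT : (ρ ⟨c * i, n2 tx⟩).1 = bl (-1) (m • I) := by
    rw [ρm (n2 q.cx) (n1 q.ix), eC, eI, bl_mul]; simp
  obtain ⟨w, hw⟩ : ∃ w : V2 p, w + (m • I) *ᵥ w ≠ 0 := by
    by_contra hn
    push Not at hn
    refine star' tx t2 (cz.mul_left iz) (eT.trans (congrArg _ (Matrix.toLin'.injective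
      (LinearMap.ext fun v => ?_))))
    rw [toLin'_apply, toLin'_apply, neg_mulVec, one_mulVec]
    exact eq_neg_of_add_eq_zero_right (hn v)
  obtain ⟨v, ev⟩ : ∃ v, w + (m • I) *ᵥ w = v := ⟨_, rfl⟩
  have hv : (m • I) *ᵥ v = v := by
    rw [← ev, mulVec_add, mulVec_mulVec, smul_mul_smul_comm, hI, ← hm, add_comm]; simp
  rw [ev] at hw
  have ω1 : κ (ofAdd ![0, v 0, v 1]) ≠ 1 := fun e => hw (by
    have := congrFun (ofAdd.injective (inj (e.trans (map_one κ).symm)))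
    ext i; fin_cases i
    exacts [this 1, this 2])
  have h1 := hρ _ (n2 tx) ![0, v 0, v 1]
  rw [eT, bl_mulVec, hv] at h1
  obtain ⟨g, k, -, e2⟩ := h.conj_into (h.cls _ (orderOf_eq_prime ((pow_two _).trans t2) fun e0 =>
    x1 (by rw [← tx, e0]; simp)) tx) (orderOf_eq_prime (hs.pow _ ⟨_, rfl⟩) ω1)
    (mul_inv_eq_iff_eq_mul.1 h1).symm
  have xk : x ^ k ≠ 1 := fun e => ω1 (by rw [← e2, e]; simp)
  have hg : g ∈ normalizer (κ.range : Set G) := inv_mem_iff.1 (mem_normalizer_of_forall fun a ha =>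
    hs.uniq _ (by
      obtain ⟨r, hr⟩ := mem_zpowers_symm h.ox (pow_mem (mem_zpowers x) k) xk
      have := (show Commute a (g * x ^ k * g⁻¹) from e2 ▸ hc a ha _ ⟨_, rfl⟩).map (MulAut.conj g⁻¹).toMonoidHom
      rw [← hr]
      exact Commute.zpow_right (by simpa [mul_assoc] using this) r)
      ⟨1, by rw [pow_one, conj_pow, hs.pow a ha]; simp⟩)
  refine abl h.hp (W := ρ.range) ?_ hm.symm (c := ρ ⟨c, n2 q.cx⟩) ⟨_, rfl⟩ ?_ (g := ρ ⟨g, hg⟩) ⟨_, rfl⟩ ?_
    fun a b ha hb => ?_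
  · rw [← index_ker]
    refine fun hd => h.not_dvd_index hs (hd.trans ((index_dvd_of_le (H := κ.range.subgroupOf _)
      fun a ha => Units.val_injective (ρP a ha)).trans (relIndex_dvd_index_of_le le_normalizer)))
  · rw [eC]; ext i j; fin_cases i <;> fin_cases j <;> simp [bl]
  · have e3 := hρ g hg ![k, 0, 0]
    rw [κx, zpw_natCast (xp h), e2] at e3
    have e4 := congrFun (ofAdd.injective (inj e3)) 0
    simp [mulVec, dotProduct, Fin.sum_univ_succ] at e4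
    exact e4.resolve_right fun e => xk (by rw [← zpw_natCast (xp h), e, zpw_zero])
  obtain ⟨k, A, -, -, ⟨hk, e3⟩, h2, h3⟩ := h.move (fun k A => ∃ hk, (ρ ⟨k, hk⟩).1 = bl 1 A.1)
    (fun k e1 e2 => by
      obtain ⟨A, eA⟩ := ex1 e2 e1
      refine ⟨GeneralLinearGroup.mkOfDetNeZero A fun e => ?_, _, eA⟩
      have := (ρ ⟨k, n1 e2⟩).det_ne_zero
      rw [eA, bl_det, e] at this
      exact this (mul_zero _))
    (fun k A l B ⟨hk, e1⟩ ⟨hl, e2⟩ => ⟨mul_mem hk hl, by rw [ρm hk hl, e1, e2, bl_mul, mul_one]; rfl⟩)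
    (fun k A B ⟨_, e1⟩ ⟨_, e2⟩ => Units.val_injective (bl_inj (e1.symm.trans e2)))
    ⟨_, (ρP x hs.mem).trans bl_one.symm⟩ (fun A ⟨_, e1⟩ => bl_inj (e1.symm.trans ρz)) ha hb
  exact ⟨_, ⟨_, rfl⟩, A, e3, h2, h3⟩

end CfsgLib.RV
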