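import Mathlib
import Cfsg.Agent.Lib.RV.Adm
import Cfsg.Agent.Lib.Fusion.Model
import Cfsg.Agent.Lib.Fusion.Normal

/-!
# Package CON: at most one essential plane (plans/RV.md)
-/

set_option autoImplicit false

namespace CfsgLib.RV

open Subgroup Matrix Cfsg CfsgLib.Fusion

variable {p : ℕ} [hp : Fact p.Prime] {Ω : Type*} [Group Ω] {S : Subgroup Ω} {F : FusionSystem S} {θ : Hs p →* Ω}

theorem essential_plane (hp2 : p ≠ 2) (h : Crd S θ) (hF : F.IsSaturated p) {P : Subgroup Ω}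
    (hP : F.IsEssential p P) : ∃ v ∈ EF F θ, P = (VV v).map θ := by
  have := h.finite
  have hS := h.isPGroup
  have hne := essential_ne_top hS hF hP
  obtain ⟨hc, hn, -⟩ := essential_iff.1 hP
  obtain ⟨v, hv, rfl⟩ := eq_plane_of_centric hp2 h hc hne
  have hlt := lt_of_le_of_ne hc.1 hne
  refine ⟨v, by_contra fun hE => (essential_iff_not_le_extendableAuts hS hF hlt hn).1 hP fun α hα => ?_, rfl⟩
  have hf := (mem_autGroup hc.1).1 hα
  obtain ⟨A, ⟨g, hg, e⟩, s, e'⟩ := ext_plane hp2 h hF hv hf (by_contra fun k => hE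
    (mem_EF_of_move hp2 h hv hf (fun a ha => extAut_mem α (mem_map_of_mem θ ha)) k))
  refine mem_extendableAuts hlt (hg.conj_left (h.mem s)) ?_
  rintro _ ⟨a, ha, rfl⟩
  rw [e' a ha, e, map_mul, map_mul, map_inv]

theorem realizable_of_line (hp2 : p ≠ 2) (h : Crd S θ) (hF : F.IsSaturated p)
    (hE : ∀ v ∈ EF F θ, ∀ w ∈ EF F θ, om v w = 0) : F.IsRealizable p := by
  have := h.finite
  have hS := h.isPGroup
  have fin : ∀ Q, F.IsNormal Q → F.IsCentric Q → F.IsRealizable p := fun Q hQ hc => by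
    obtain ⟨G, _, ι, hG⟩ := exists_model hS ⟨hF, Q, hQ, hc⟩
    exact ⟨G, _, hG.1, ι, hG.2.1, hG.2.2.1⟩
  by_cases h0 : ∃ v, v ∈ EF F θ
  swap
  · refine fin S (isNormal_top_of_no_essential hS hF fun R hR => ?_) (centric_top F)
    obtain ⟨v, hv, -⟩ := essential_plane hp2 h hF hR
    exact h0 ⟨v, hv⟩
  obtain ⟨v, hv⟩ := h0
  have hc := centric_plane hp2 h F hv.1
  refine fin _ (isNormal_of_alperin hS hF ?_) hc
  rintro R (rfl | hR)
  · refine ⟨hc.1, fun α hα => ?_⟩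
    have hf := (mem_autGroup le_rfl).1 hα
    have := finite_of_le hc.1
    refine (hf.mono hc.1).img_eq_self ?_
    rintro _ ⟨a, ⟨t, ht⟩, rfl⟩
    obtain ⟨A, hA, s, e⟩ := top_eq hp2 h hf
    have hA' := (adm hp2 h hF).inv A hA v hv
    rw [e, VV_eq_of_om hv.1 hA'.1 (hE _ hv _ hA')]
    exact mem_map_of_mem θ ⟨t, by rw [Hs.conj_eq, act_v, ht, mulVec_smul]⟩
  · obtain ⟨w, hw, rfl⟩ := essential_plane hp2 h hF hR
    rw [VV_eq_of_om hv.1 hw.1 (hE _ hv _ hw)]
    exact ⟨le_rfl, fun α _ => img_extAut α⟩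

end CfsgLib.RV
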