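import Mathlib
import Cfsg.Agent.Lib.RV.Lin
import Cfsg.Agent.Lib.Tech.SylowIn

/-!
# Package EX3: three lines for the prime three (plans/RV.md)
-/

set_option autoImplicit false

namespace CfsgLib.RV

open Subgroup Matrix Cfsg CfsgLib.Fusion

namespace EX3

/-- the matrices -/
abbrev X : Type := Matrix (Fin 2) (Fin 2) (ZMod 3)

/-- the determinant -/
abbrev dt (A : X) : ZMod 3 := A 0 0 * A 1 1 - A 0 1 * A 1 0

/-- monomial -/
abbrev pM (A : X) : Prop := (A 0 1 = 0 ∧ A 1 0 = 0) ∨ (A 0 0 = 0 ∧ A 1 1 = 0)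

/-- monomial or without zero entries -/
abbrev pD (A : X) : Prop := pM A ∨ A 0 0 * A 0 1 * A 1 0 * A 1 1 ≠ 0

theorem dt_ne (A : G2 3) : dt A.1 ≠ 0 := by
  have := (Matrix.isUnits_det_units A).ne_zero
  rwa [det_fin_two] at this

theorem all {P : X → Prop} (h : ∀ a b c d : ZMod 3, P !![a, b; c, d]) (A : X) : P A := by
  rw [eta_fin_two A]; exact h _ _ _ _

theorem mulM : ∀ A B : X, pM A → pM B → pM (A * B) :=
  all fun a b c d => all fun a' b' c' d' => by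
    rw [mul_fin_two]; revert a b c d a' b' c' d'; decide +kernel

theorem invM : ∀ A B : X, A * B = 1 → pM A → pM B :=
  all fun a b c d => all fun a' b' c' d' => by
    rw [mul_fin_two, one_fin_two]; revert a b c d a' b' c' d'; decide +kernel

theorem mulD : ∀ A B : X, dt A ≠ 0 → dt B ≠ 0 → pD A → pD B → pD (A * B) :=
  all fun a b c d => all fun a' b' c' d' => by
    rw [mul_fin_two]; revert a b c d a' b' c' d'; decide +kernel

theorem invD : ∀ A B : X, A * B = 1 → pD A → pD B :=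
  all fun a b c d => all fun a' b' c' d' => by
    rw [mul_fin_two, one_fin_two]; revert a b c d a' b' c' d'; decide +kernel

theorem mulDM : ∀ A B : X, dt A ≠ 0 → dt B ≠ 0 → pD A → pD B → ¬ pM A → ¬ pM B → pM (A * B) :=
  all fun a b c d => all fun a' b' c' d' => by
    rw [mul_fin_two]; revert a b c d a' b' c' d'; decide +kernel

/-- the monomial group -/
def M : Subgroup (G2 3) where
  carrier := {A | pM A.1}
  one_mem' := .inl ⟨rfl, rfl⟩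
  mul_mem' := fun h h' => mulM _ _ h h'
  inv_mem' := fun {A} h => invM _ _ A.val_inv h

/-- the Sylow 2-subgroup -/
def D : Subgroup (G2 3) where
  carrier := {A | pD A.1}
  one_mem' := .inl (.inl ⟨rfl, rfl⟩)
  mul_mem' := fun h h' => mulD _ _ (dt_ne _) (dt_ne _) h h'
  inv_mem' := fun {A} h => invD _ _ A.val_inv h

theorem ord0 : ∀ A : X, dt A ≠ 0 → (pD A → A ^ 8 = 1) ∧ (A ^ 8 = 1 ∨ (A ^ 6 = 1 ∧ A ^ 2 ≠ 1)) :=
  all (by decide +kernel)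

theorem ord (A : G2 3) : A ^ 2 ^ 3 = 1 ∨ (A ^ 6 = 1 ∧ A ^ 2 ≠ 1) :=
  (ord0 A.1 (dt_ne A)).2.imp (fun h => Units.ext h) fun h => ⟨Units.ext h.1, fun e => h.2 (congrArg Units.val e)⟩

/-- a matrix of order eight -/
def c8 : G2 3 := ⟨!![1, 1; -1, 1], !![-1, 1; -1, -1], by decide, by decide⟩

theorem out0 : ∀ A : X, dt A ≠ 0 → ¬ pD A → ∃ i : Fin 8, (c8.1 ^ (i : ℕ) * A) ^ 8 ≠ 1 :=
  all (by decide +kernel)

theorem syl : Tech.IsSylowIn 2 D ⊤ := by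
  refine Tech.isSylowIn_of_maximal (Tech.isPGroup_iff_mem.2 fun A hA => ⟨3, Units.ext ((ord0 A.1 (dt_ne A)).1 hA)⟩)
    le_top fun R hR h1 _ A hA => by_contra fun hn => ?_
  obtain ⟨i, hi⟩ := out0 A.1 (dt_ne A) hn
  have hc : c8 ∈ D := .inr (by decide)
  obtain ⟨k, hk⟩ := Tech.isPGroup_iff_mem.1 hR _ (mul_mem (pow_mem (h1 hc) i) hA)
  rcases ord (c8 ^ (i : ℕ) * A) with h | ⟨h6, h2⟩
  · exact hi (congrArg Units.val h)
  · have a1 : orderOf ((c8 ^ (i : ℕ) * A) ^ 2) = 3 := orderOf_eq_prime (by rw [← pow_mul]; exact h6) h2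
    have a2 : 3 ∣ 2 ^ k := by
      rw [← a1]
      exact orderOf_dvd_of_pow_eq_one (by rw [← pow_mul, mul_comm, pow_mul, hk, one_pow])
    exact absurd (Nat.prime_three.dvd_of_dvd_pow a2) (by decide)

theorem all2 {P : V2 3 → Prop} (h : ∀ a b : ZMod 3, P ![a, b]) (v : V2 3) : P v := by
  have : v = ![v 0, v 1] := by ext i; fin_cases i <;> rfl
  rw [this]; exact h _ _

set_option synthInstance.maxSize 4096 in
theorem pick : ∀ u v w : V2 3, om u v ≠ 0 → om u w ≠ 0 → om v w ≠ 0 →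
    (u 0 * u 1 = 0 ∨ v 0 * v 1 = 0 ∨ w 0 * w 1 = 0) ∧ (u 0 * u 1 ≠ 0 ∨ v 0 * v 1 ≠ 0 ∨ w 0 * w 1 ≠ 0) :=
  all2 fun a b => all2 fun c d => all2 fun e f => by
    simp only [om]; revert a b c d e f; decide +kernel

set_option synthInstance.maxSize 4096 in
theorem refl0 : ∀ (A : X) (v : V2 3), pD A → dt A = -1 → v ≠ 0 → A *ᵥ v = -v →
    (v 0 * v 1 = 0 → A = !![1, 0; 0, -1] ∨ A = !![-1, 0; 0, 1]) ∧
      (v 0 * v 1 ≠ 0 → A = !![0, 1; 1, 0] ∨ A = !![0, -1; -1, 0]) :=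
  all fun a b c d => all2 fun e f => by revert a b c d e f; decide +kernel

theorem gen0 : ∀ A ∈ [!![1, 0; 0, -1], !![-1, 0; 0, 1]], ∀ B ∈ [!![0, 1; 1, 0], !![0, -1; -1, 0]],
    ∀ a b c d : ZMod 3, ∀ C : X, C = !![a, b; c, d] → dt C ≠ 0 → pM C → ∃ i : Fin 4, ∃ j : Fin 2,
      C = (A * B) ^ (i : ℕ) * A ^ (j : ℕ) := by
  rintro A hA B hB a b c d _ rfl
  revert A B a b c d
  decide +kernel

theorem orb0 : ∀ A ∈ [!![1, 0; 0, -1], !![-1, 0; 0, 1]], ∀ B ∈ [!![0, 1; 1, 0], !![0, -1; -1, 0]],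
    ∀ a b c d : ZMod 3, ∀ v w : V2 3, v = ![a, b] → w = ![c, d] → v ≠ 0 → w ≠ 0 → (v 0 * v 1 = 0 ↔ w 0 * w 1 = 0) →
      ∃ i : Fin 4, w = ((A * B : X) ^ (i : ℕ)) *ᵥ v := by
  rintro A hA B hB a b c d _ _ rfl rfl
  revert A B a b c d
  decide +kernel

theorem main {W : Subgroup (G2 3)} {E : Set (V2 3)} (h : Adm W E) (h3 : Three E) (hD : W ≤ D) :
    E = {v | v ≠ 0} ∧ (W = M ∨ W = D) := by
  obtain ⟨u, hu, v, hv, w, hw, h1, h2, h4⟩ := h3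
  obtain ⟨⟨x, hx, x0⟩, y, hy, y0⟩ : (∃ x ∈ E, x 0 * x 1 = 0) ∧ ∃ y ∈ E, y 0 * y 1 ≠ 0 := by
    obtain ⟨a1, a2⟩ := pick u v w h1 h2 h4
    exact ⟨a1.elim (⟨u, hu, ·⟩) (·.elim (⟨v, hv, ·⟩) (⟨w, hw, ·⟩)),
      a2.elim (⟨u, hu, ·⟩) (·.elim (⟨v, hv, ·⟩) (⟨w, hw, ·⟩))⟩
  have key : ∀ x ∈ E, ∃ A ∈ W, dt A.1 = -1 ∧ A.1 *ᵥ x = -x := fun x hx => by
    obtain ⟨A, hA, e1, e2⟩ := h.tor x hx (-1)
    exact ⟨A, hA, by rw [det_fin_two] at e2; exact e2, by simpa using e1⟩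
  obtain ⟨A, hA, a1, a2⟩ := key x hx
  obtain ⟨B, hB, b1, b2⟩ := key y hy
  have a3 := List.mem_pair.2 ((refl0 A.1 x (hD hA) a1 (h.ne x hx) a2).1 x0)
  have b3 := List.mem_pair.2 ((refl0 B.1 y (hD hB) b1 (h.ne y hy) b2).2 y0)
  have eta : ∀ v : V2 3, v = ![v 0, v 1] := fun v => by ext i; fin_cases i <;> rfl
  have hM : M ≤ W := fun C hC => by
    obtain ⟨i, j, e⟩ := gen0 _ a3 _ b3 _ _ _ _ C.1 (eta_fin_two _) (dt_ne C) hC
    rw [show C = (A * B) ^ (i : ℕ) * A ^ (j : ℕ) from Units.ext e]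
    exact mul_mem (pow_mem (mul_mem hA hB) _) (pow_mem hA _)
  refine ⟨Set.ext fun z => ⟨h.ne z, fun hz => ?_⟩, ?_⟩
  · have fin : ∀ x ∈ E, (x 0 * x 1 = 0 ↔ z 0 * z 1 = 0) → z ∈ E := fun x hx e => by
      obtain ⟨i, e⟩ := orb0 _ a3 _ b3 _ _ _ _ x z (eta x) (eta z) (h.ne x hx) hz e
      rw [e]
      exact h.inv _ (pow_mem (mul_mem hA hB) i) x hx
    by_cases hz0 : z 0 * z 1 = 0
    · exact fin x hx (iff_of_true x0 hz0)
    · exact fin y hy (iff_of_false y0 hz0)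
  · by_cases hWM : W ≤ M
    · exact .inl (le_antisymm hWM hM)
    · obtain ⟨C, hC, hC'⟩ := SetLike.not_le_iff_exists.1 hWM
      refine .inr (le_antisymm hD fun Z hZ => ?_)
      by_cases hZM : Z ∈ M
      · exact hM hZM
      · exact (mul_mem_cancel_left hC).1 (hM (mulDM _ _ (dt_ne C) (dt_ne Z) (hD hC) hZ hC' hZM))

end EX3

theorem exc3 : ∃ M D : Subgroup (G2 3), ∀ (W : Subgroup (G2 3)) (E : Set (V2 3)), Adm W E → Three E →
    ∃ g, cjE g E = {v | v ≠ 0} ∧ (cjW g W = M ∨ cjW g W = D) := by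

  refine ⟨EX3.M, EX3.D, fun W E h h3 => ?_⟩
  have hW : IsPGroup 2 W := Tech.isPGroup_iff_mem.2 fun A hA => ⟨3, by
    refine (EX3.ord A).resolve_right fun ⟨h6, h2⟩ => h.cop ?_
    have : orderOf (A ^ 2) = 3 := orderOf_eq_prime (by rw [← pow_mul]; exact h6) h2
    exact this.symm.dvd.trans (orderOf_dvd_natCard W (pow_mem hA 2))⟩
  obtain ⟨g, -, hg⟩ := EX3.syl.exists_cj_le hW le_top
  exact ⟨g, EX3.main (h.conj g) (h3.conj g) hg⟩

end CfsgLib.RV
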