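import Mathlib
import Cfsg.Agent.Lib.RV.Lin
import Cfsg.Agent.Lib.RV.LL

/-!
# Package EXC: three lines for the primes five and thirteen (plans/RV.md)
-/

set_option autoImplicit false
set_option linter.unusedSimpArgs false

namespace CfsgLib.RV

open Subgroup Matrix Cfsg CfsgLib.Fusion

variable {p : ℕ} [hp : Fact p.Prime]

namespace ExcP

/-- the constants -/
structure Cst (m : ZMod p) : Prop where
  h : p = 5 ∨ p = 13
  mm : m * m = -1
  h8 : 8 * m = 1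
  two : (2 : ZMod p) ≠ 0
  cube : ∀ x y : ZMod p, x ^ 4 = y ^ 4 → ∃ u, x = y * u ^ 3

theorem c5 : (2 : ZMod 5) * 2 = -1 ∧ (8 : ZMod 5) * 2 = 1 ∧ (2 : ZMod 5) ≠ 0 ∧
    ∀ x y : ZMod 5, x ^ 4 = y ^ 4 → ∃ u, x = y * u ^ 3 := by decide +kernel

theorem c13 : (5 : ZMod 13) * 5 = -1 ∧ (8 : ZMod 13) * 5 = 1 ∧ (2 : ZMod 13) ≠ 0 ∧
    ∀ x y : ZMod 13, x ^ 4 = y ^ 4 → ∃ u, x = y * u ^ 3 := by decide +kernel

theorem exists_cst (h : p = 5 ∨ p = 13) : ∃ m : ZMod p, Cst m := by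
  rcases h with rfl | rfl
  · exact ⟨2, Or.inl rfl, c5.1, c5.2.1, c5.2.2.1, c5.2.2.2⟩
  · exact ⟨5, Or.inr rfl, c13.1, c13.2.1, c13.2.2.1, c13.2.2.2⟩

/-- a reflection with centre `v` and form `φ` -/
def Rf (m : ZMod p) (W : Subgroup (G2 p)) (v φ : V2 p) : Prop :=
  φ ⬝ᵥ v = 1 ∧ ∃ d ∈ W, d.1 = (4 : ZMod p) • (1 + (m - 1) • vecMulVec v φ)

/-- normalised data -/
structure Nm (m : ZMod p) (W : Subgroup (G2 p)) (E : Set (V2 p)) : Prop where
  adm : Adm W E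
  e0 : ![1, 0] ∈ E
  rf : Rf m W ![1, 0] ![1, 0]
  w : ![1, 1] ∈ E

/-- the six lines -/
def E0 (p : ℕ) : Set (V2 p) := {v | v ≠ 0 ∧ v 0 * v 1 * (v 0 ^ 4 - v 1 ^ 4) = 0}

/-- the group -/
def W0 (m : ZMod p) : Subgroup (G2 p) := sInf {W | ∃ E, Nm m W E}

variable {m : ZMod p} {W : Subgroup (G2 p)} {E : Set (V2 p)}

theorem Cst.m1 (c : Cst m) : m - 1 ≠ 0 := fun e => c.two (by
  have : m = 1 := sub_eq_zero.1 e
  have h := c.mm
  rw [this] at h
  linear_combination h)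

theorem Cst.four (c : Cst m) : (4 : ZMod p) ≠ 0 := by
  rw [show (4 : ZMod p) = 2 * 2 by norm_num]; exact mul_ne_zero c.two c.two

theorem exists_rf (c : Cst m) (h : Adm W E) {v : V2 p} (hv : v ∈ E) : ∃ φ, Rf m W v φ := by
  obtain ⟨A, hA, e1, e2⟩ := h.tor v hv (Units.mk0 2 c.two)
  have i2 : (2 : ZMod p)⁻¹ = 4 * m := inv_eq_of_mul_eq_one_right (by linear_combination c.h8)
  rw [Units.val_inv_eq_inv_val, Units.val_mk0, i2] at e1
  rw [Units.val_mk0] at e2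
  have k : ∀ x : V2 p, ∃ t : ZMod p, A.1 *ᵥ x - (4 : ZMod p) • x = t • v := fun x => by
    refine exists_smul_of_om (h.ne v hv) ?_
    have := om_mulVec A.1 v x
    rw [e1, e2] at this
    simp only [om, Pi.smul_apply, smul_eq_mul, Pi.sub_apply] at this ⊢
    linear_combination 2 * this - (v 0 * (A.1 *ᵥ x) 1 - v 1 * (A.1 *ᵥ x) 0) * c.h8
  obtain ⟨s, hs⟩ := k ![1, 0]
  obtain ⟨t, ht⟩ := k ![0, 1]
  have n := mul_ne_zero c.four c.m1
  have s0 := congrFun hs 0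
  have s1 := congrFun hs 1
  have t0 := congrFun ht 0
  have t1 := congrFun ht 1
  simp [mulVec, dotProduct, Fin.sum_univ_two] at s0 s1 t0 t1
  have eA : A.1 = (4 : ZMod p) • (1 + (m - 1) • vecMulVec v ![s / (4 * (m - 1)), t / (4 * (m - 1))]) := by
    have := c.four
    have := c.m1
    ext i j
    fin_cases i <;> fin_cases j <;> simp [vecMulVec_apply] <;> field_simp
    · linear_combination s0
    · linear_combination t0
    · linear_combination s1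
    · linear_combination t1
  refine ⟨_, ?_, A, hA, eA⟩
  rw [eA, smul_mulVec, add_mulVec, one_mulVec, smul_mulVec, vecMulVec_mulVec] at e1
  set r := ![s / (4 * (m - 1)), t / (4 * (m - 1))] ⬝ᵥ v
  have h1 : (4 * (m - 1) * (r - 1)) • v = 0 := by
    rw [op_smul_eq_smul] at e1
    linear_combination (norm := module) e1
  exact sub_eq_zero.1 ((mul_eq_zero.1 ((smul_eq_zero.1 h1).resolve_right (h.ne v hv))).resolve_left n)

theorem key (c : Cst m) (h : Adm W E) {v w φ ψ : V2 p} (hv : Rf m W v φ) (hw : Rf m W w ψ) (o : om v w ≠ 0)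
    (n : φ ⬝ᵥ w ≠ 0) : 2 * ((φ ⬝ᵥ w) * (ψ ⬝ᵥ v)) = 1 := by
  obtain ⟨v1, a, ha, ea⟩ := hv
  obtain ⟨w1, b, hb, eb⟩ := hw
  rcases lemL c.h h.cop c.mm ha hb v1 w1 ea eb with ⟨r, rfl⟩ | k | k
  · exact absurd (by simp [om]; ring) o
  · exact absurd k.1 n
  · exact k

theorem exists_nm (c : Cst m) (h : Adm W E) (h3 : Three E) : ∃ g, Nm m (cjW g W) (cjE g E) := by
  obtain ⟨u, hu, v, hv, w, hw, uv, uw, vw⟩ := h3
  obtain ⟨φ, φ1, d, hd, ed⟩ := exists_rf c h hu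
  have : ∃ w ∈ E, om u w ≠ 0 ∧ φ ⬝ᵥ w ≠ 0 := by
    by_contra hc
    push Not at hc
    have a := hc v hv uv
    have b := hc w hw uw
    simp only [dotProduct, Fin.sum_univ_two, om] at a b φ1 vw
    exact vw (by linear_combination (u 0 * w 1 - u 1 * w 0) * a - (u 0 * v 1 - u 1 * v 0) * b
      - (v 0 * w 1 - v 1 * w 0) * φ1)
  obtain ⟨w, hw, uw, n⟩ := this
  have hw' := h.smul w hw _ (inv_ne_zero n)
  set w' := (φ ⬝ᵥ w)⁻¹ • w with e
  have n' : φ ⬝ᵥ (w' - u) = 0 := by rw [dotProduct_sub, e, dotProduct_smul, smul_eq_mul, inv_mul_cancel₀ n, φ1, sub_self]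
  have o : om u (w' - u) ≠ 0 := by
    rw [show om u (w' - u) = (φ ⬝ᵥ w)⁻¹ * om u w by simp [om, e]; ring]
    exact mul_ne_zero (inv_ne_zero n) uw
  obtain ⟨g, g0, g1⟩ := exists_basis o
  have gi : ∀ x, (g⁻¹).1 *ᵥ (g.1 *ᵥ x) = x := fun x => by
    rw [mulVec_mulVec, ← Units.val_mul, inv_mul_cancel, Units.val_one, one_mulVec]
  refine ⟨g, h.conj g, ⟨u, hu, g0⟩, ⟨by simp, g * d * g⁻¹, ⟨d, hd, rfl⟩, ?_⟩, ⟨w', hw', ?_⟩⟩
  · have a0 : (g * d * g⁻¹).1 *ᵥ ![1, 0] = (4 * m) • ![1, 0] := by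
      rw [← g0, Units.val_mul, Units.val_mul, ← mulVec_mulVec, ← mulVec_mulVec, gi, ← mulVec_smul, ed, smul_mulVec,
        add_mulVec, one_mulVec, smul_mulVec, vecMulVec_mulVec, φ1]
      congr 1
      simp only [MulOpposite.op_one, one_smul]
      module
    have a1 : (g * d * g⁻¹).1 *ᵥ ![0, 1] = (4 : ZMod p) • ![0, 1] := by
      rw [← g1, Units.val_mul, Units.val_mul, ← mulVec_mulVec, ← mulVec_mulVec, gi, ← mulVec_smul, ed, smul_mulVec,
        add_mulVec, one_mulVec, smul_mulVec, vecMulVec_mulVec, n']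
      simp
    generalize (g * d * g⁻¹).1 = D at a0 a1
    have s0 := congrFun a0 0
    have s1 := congrFun a0 1
    have t0 := congrFun a1 0
    have t1 := congrFun a1 1
    simp [mulVec, dotProduct, Fin.sum_univ_two] at s0 s1 t0 t1
    ext i j
    fin_cases i <;> fin_cases j <;> simp [vecMulVec_apply, s0, s1, t0, t1]
  · show g.1 *ᵥ w' = _
    rw [show w' = u + (w' - u) by abel, mulVec_add, g0, g1]
    simp

namespace Nm

variable (c : Cst m) (h : Nm m W E)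
include c h

theorem diag {A : G2 p} (hA : A ∈ W) (e : A.1 1 0 = 0) : A.1 0 1 = 0 := by
  obtain ⟨-, d, hd, ed⟩ := h.rf
  have k := comm_of_fix h.adm.cop (h.adm.ne _ h.e0) hA hd (by simp [om, mulVec, dotProduct, Fin.sum_univ_two, e])
    (by simp [om, ed, mulVec, dotProduct, Fin.sum_univ_two, vecMulVec_apply])
  have k2 : (A * d).1 0 1 = (d * A).1 0 1 := by rw [k]
  simp [ed, Matrix.mul_apply, Fin.sum_univ_two, vecMulVec_apply] at k2
  have : 4 * (m - 1) * A.1 0 1 = 0 := by linear_combination -k2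
  exact (mul_eq_zero.1 this).resolve_left (mul_ne_zero c.four c.m1)

theorem rfw : Rf m W ![1, 1] ![4 * m, 4 * m] := by
  obtain ⟨ψ, hψ⟩ := exists_rf c h.adm h.w
  have k := key c h.adm h.rf hψ (by simp [om]) (by simp)
  have k1 := hψ.1
  simp [dotProduct, Fin.sum_univ_two] at k k1
  have : ψ = ![4 * m, 4 * m] := by
    ext i
    fin_cases i
    · simp; linear_combination 4 * m * k - ψ 0 * c.h8
    · simp; linear_combination k1 - 4 * m * k + (ψ 0 - 1) * c.h8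
  exact this ▸ hψ

theorem exists_J : ∃ d ∈ W, d.1 = !![2 * (m + 1), 2 * (m - 1); 2 * (m - 1), 2 * (m + 1)] := by
  obtain ⟨-, d, hd, ed⟩ := h.rfw c
  refine ⟨d, hd, ?_⟩
  rw [ed]
  ext i j
  fin_cases i <;> fin_cases j <;> simp [vecMulVec_apply] <;> linear_combination (2 * (m - 1)) * c.h8

theorem exists_S : ∃ d ∈ W, d.1 = !![0, -16; -16, 0] := by
  obtain ⟨d, hd, ed⟩ := h.exists_J c
  refine ⟨d * d, mul_mem hd hd, ?_⟩
  rw [Units.val_mul, ed]
  ext i j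
  fin_cases i <;> fin_cases j <;> simp [Matrix.mul_apply, Fin.sum_univ_two] <;> linear_combination 8 * c.mm

theorem exists_D {a : ZMod p} (ha : a ≠ 0) : ∃ d ∈ W, d.1 = !![a⁻¹, 0; 0, a ^ 2] := by
  obtain ⟨A, hA, e1, e2⟩ := h.adm.tor _ h.e0 (Units.mk0 a ha)
  rw [Units.val_inv_eq_inv_val, Units.val_mk0] at e1
  have s0 := congrFun e1 0
  have s1 := congrFun e1 1
  simp [mulVec, dotProduct, Fin.sum_univ_two] at s0 s1
  have s2 := h.diag c hA s1
  rw [det_fin_two, s0, s1, s2, Units.val_mk0] at e2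
  refine ⟨A, hA, ?_⟩
  ext i j
  fin_cases i <;> fin_cases j <;> simp [s0, s1, s2]
  field_simp at e2
  linear_combination e2

theorem T0_le {B : G2 p} (hB : B ∈ T0 p) : B ∈ W := by
  obtain ⟨b1, b2, u, b3⟩ := hB
  have n := B.det_ne_zero
  rw [det_fin_two, b1, b2, b3, mul_zero, sub_zero] at n
  have y0 : B.1 1 1 ≠ 0 := right_ne_zero_of_mul n
  have u0 : u ≠ 0 := by rintro rfl; simp at n
  obtain ⟨S, hS, eS⟩ := h.exists_S c
  obtain ⟨A1, h1, e1⟩ := h.exists_D c (mul_ne_zero y0 u0)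
  obtain ⟨A2, h2, e2⟩ := h.exists_D c (mul_ne_zero y0 (pow_ne_zero 2 u0))
  have : B * S = A1 * S * A2 := by
    refine Units.ext ?_
    rw [Units.val_mul, Units.val_mul, Units.val_mul, e1, e2, eS]
    ext i j
    fin_cases i <;> fin_cases j <;> simp [Matrix.mul_apply, Fin.sum_univ_two, b1, b2, b3] <;> field_simp
  rw [eq_mul_inv_of_mul_eq this]
  exact mul_mem (mul_mem (mul_mem h1 hS) h2) (inv_mem hS)

theorem le_E0 {v : V2 p} (hv : v ∈ E) : v ∈ E0 p := by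
  refine ⟨h.adm.ne v hv, ?_⟩
  by_cases v0 : v 0 = 0
  · simp [v0]
  by_cases v1 : v 1 = 0
  · simp [v1]
  by_cases a : v 0 - v 1 = 0
  · rw [sub_eq_zero.1 a]; simp
  by_cases b : v 0 + v 1 = 0
  · linear_combination v 0 * v 1 * (v 0 - v 1) * (v 0 ^ 2 + v 1 ^ 2) * b
  obtain ⟨χ, hχ⟩ := exists_rf c h.adm hv
  have k1 := key c h.adm h.rf hχ (by simpa [om] using v1) (by simpa [vecHead] using v0)
  have k0 := hχ.1
  simp [dotProduct, Fin.sum_univ_two] at k0 k1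
  have k3 : 2 * (v 1 * χ 1) = 1 := by linear_combination 2 * k0 - k1
  have k4 : 2 * (v 0 * v 1) * (χ 0 + χ 1) = v 0 + v 1 := by linear_combination v 1 * k1 + v 0 * k3
  have k2 := key c h.adm hχ (h.rfw c) (by simpa [om] using a) (fun e => b (by
    simp [dotProduct, Fin.sum_univ_two] at e
    rw [← k4, e, mul_zero]))
  simp [dotProduct, Fin.sum_univ_two] at k2
  have k5 : v 0 ^ 2 + v 1 ^ 2 = 0 := by
    linear_combination 2 * (v 0 * v 1) * k2 - (v 0 + v 1) * k4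
      - 2 * (v 0 * v 1) * (χ 0 + χ 1) * (v 0 + v 1) * c.h8
  linear_combination v 0 * v 1 * (v 0 ^ 2 - v 1 ^ 2) * k5

omit c in
theorem W0_le : W0 m ≤ W := sInf_le ⟨E, h⟩

omit h in
theorem T0_W0 {B : G2 p} (hB : B ∈ T0 p) : B ∈ W0 m :=
  Subgroup.mem_sInf.2 fun _ ⟨_, k⟩ => k.T0_le c hB

theorem trans {v : V2 p} (hv : v ∈ E0 p) : ∃ B ∈ W0 m, ∃ t : ZMod p, t ≠ 0 ∧ B.1 *ᵥ ![1, 0] = t • v := by
  obtain ⟨v0, hv⟩ := hv
  have nz : v 0 = 0 → v 1 = 0 → False := fun a b => v0 (by ext i; fin_cases i <;> simp [a, b])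
  by_cases a : v 1 = 0
  · refine ⟨1, one_mem _, (v 0)⁻¹, inv_ne_zero fun b => nz b a, ?_⟩
    ext i
    fin_cases i <;> simp [a, inv_mul_cancel₀ fun b => nz b a]
  obtain ⟨d, hd, ed⟩ := h.exists_J c
  have dW : d ∈ W0 m := Subgroup.mem_sInf.2 fun _ ⟨_, k⟩ => by
    obtain ⟨d', h1, h2⟩ := k.exists_J c
    exact (Units.ext (h2.trans ed.symm) : d' = d) ▸ h1
  by_cases b : v 0 = 0
  · refine ⟨d * d, mul_mem dW dW, -(4 * 4) * (v 1)⁻¹,
      mul_ne_zero (neg_ne_zero.2 (mul_ne_zero c.four c.four)) (inv_ne_zero a), ?_⟩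
    rw [Units.val_mul, ed]
    ext i
    fin_cases i <;> simp [b, mulVec, dotProduct, Fin.sum_univ_two, mul_assoc, inv_mul_cancel₀ a] <;>
      linear_combination 8 * c.mm
  have m0 : m ≠ 0 := fun e => by simpa [e] using c.mm
  have k : (v 0 * m) ^ 4 = v 1 ^ 4 := by
    have := (mul_eq_zero.1 hv).resolve_left (mul_ne_zero b a)
    linear_combination this + v 0 ^ 4 * (m * m - 1) * c.mm
  let T : G2 p := GeneralLinearGroup.mkOfDetNeZero !![v 0 * m, 0; 0, v 1] (by simp [det_fin_two, a, b, m0])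
  have eT : T.1 = !![v 0 * m, 0; 0, v 1] := rfl
  refine ⟨T * d, mul_mem (T0_W0 c ⟨by simp [eT], by simp [eT], by simpa [eT] using c.cube _ _ k⟩) dW, 2 * (m - 1),
    mul_ne_zero c.two c.m1, ?_⟩
  rw [Units.val_mul, ed, eT]
  ext i
  fin_cases i <;> simp [mulVec, dotProduct, Fin.sum_univ_two]
  · linear_combination 2 * v 0 * c.mm
  · ring

theorem E_eq : E = E0 p := by
  refine Set.Subset.antisymm (fun v hv => h.le_E0 c hv) fun v hv => ?_
  obtain ⟨B, hB, t, t0, e⟩ := h.trans c hv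
  have := h.adm.smul _ (h.adm.inv B (h.W0_le hB) _ h.e0) _ (inv_ne_zero t0)
  rwa [e, smul_smul, inv_mul_cancel₀ t0, one_smul] at this

theorem W_eq : W = W0 m := by
  refine le_antisymm (fun A hA => ?_) h.W0_le
  obtain ⟨B, hB, t, t0, e⟩ := h.trans c (h.le_E0 c (h.adm.inv A hA _ h.e0))
  have hC : B⁻¹ * A ∈ W := mul_mem (inv_mem (h.W0_le hB)) hA
  have e1 : t • ((B⁻¹ * A).1 *ᵥ ![1, 0]) = ![1, 0] := by
    rw [Units.val_mul, ← mulVec_mulVec, ← mulVec_smul, ← e, mulVec_mulVec, ← Units.val_mul, inv_mul_cancel,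
      Units.val_one, one_mulVec]
  suffices B⁻¹ * A ∈ W0 m by simpa using mul_mem hB this
  generalize B⁻¹ * A = C at hC e1
  have s1 := congrFun e1 1
  simp [mulVec, dotProduct, Fin.sum_univ_two, t0] at s1
  have s2 := h.diag c hC s1
  have n := C.det_ne_zero
  rw [det_fin_two, s1, mul_zero, sub_zero] at n
  have k := (h.le_E0 c (h.adm.inv C hC _ h.w)).2
  simp only [mulVec, dotProduct, Fin.sum_univ_two, s1, s2, cons_val_zero, cons_val_one, mul_one, add_zero,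
    zero_add] at k
  exact T0_W0 c ⟨s2, s1, c.cube _ _ (sub_eq_zero.1 ((mul_eq_zero.1 k).resolve_left n))⟩

end Nm

end ExcP

theorem exc513 (h : p = 5 ∨ p = 13) : ∃ (W₀ : Subgroup (G2 p)) (E₀ : Set (V2 p)),
    ∀ (W : Subgroup (G2 p)) (E : Set (V2 p)), Adm W E → Three E → ∃ g, cjW g W = W₀ ∧ cjE g E = E₀ := by
  obtain ⟨m, c⟩ := ExcP.exists_cst h
  refine ⟨ExcP.W0 m, ExcP.E0 p, fun W E hA h3 => ?_⟩
  obtain ⟨g, k⟩ := ExcP.exists_nm c hA h3
  exact ⟨g, k.W_eq c, k.E_eq c⟩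

end CfsgLib.RV
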