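import Mathlib
import Cfsg.Agent.Lib.RV.Adm

/-!
# Package INT: intermediate groups (plans/RV.md)
-/

set_option autoImplicit false
set_option maxHeartbeats 400000

namespace CfsgLib.RV

open Subgroup Matrix Cfsg CfsgLib.Fusion

variable {p : ℕ} [hp : Fact p.Prime]

theorem Rz.conj {W : Subgroup (G2 p)} {E : Set (V2 p)} (h : Rz W E) (g : G2 p) : Rz (cjW g W) (cjE g E) := by
  obtain ⟨G, _, _, θ, h, rfl, rfl⟩ := h
  have hr : (θ.comp (act g⁻¹).toMonoidHom).range = θ.range := by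
    rw [MonoidHom.range_comp, MonoidHom.range_eq_top.2 (act g⁻¹).surjective, ← MonoidHom.range_eq_map]
  have e1 : ∀ a, act g (act g⁻¹ a) = a := fun a => by
    rw [← MulAut.mul_apply, ← map_mul, mul_inv_cancel, map_one, MulAut.one_apply]
  have e2 : ∀ a, act g⁻¹ (act g a) = a := fun a => by
    rw [← MulAut.mul_apply, ← map_mul, inv_mul_cancel, map_one, MulAut.one_apply]
  refine ⟨G, _, ‹_›, θ.comp (act g⁻¹).toMonoidHom, ⟨h.inj.comp (act g⁻¹).injective, hr ▸ h.idx⟩, ?_, ?_⟩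
  · ext A
    rw [mem_cjW, mem_WL, mem_WL]
    refine exists_congr fun k => and_congr_right fun _ => ⟨fun H a => ?_, fun H a => ?_⟩
    · have := H (act g a)
      simp only [MonoidHom.comp_apply, MulEquiv.coe_toMonoidHom, e2] at this
      rw [this, map_mul, map_mul, MulAut.mul_apply, MulAut.mul_apply]
    · simp only [MonoidHom.comp_apply, MulEquiv.coe_toMonoidHom]
      rw [H, map_mul, map_mul, MulAut.mul_apply, MulAut.mul_apply, e1]
  · ext v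
    rw [mem_cjE]
    simp only [EL, Set.mem_setOf_eq, MonoidHom.comp_apply, MulEquiv.coe_toMonoidHom, act_mk, mul_zero, mulVec_zero]
    refine and_congr ⟨fun hv e => hv ?_, fun hv e => hv (by rw [e, mulVec_zero])⟩
      (exists_congr fun k => and_congr_right fun _ => ⟨fun ⟨c, e⟩ => ⟨_, e⟩, fun ⟨c, e⟩ => ⟨g.1.det * c, ?_⟩⟩)
    · have := congrArg (g.1 *ᵥ ·) e
      simpa only [mulVec_mulVec, ← Units.val_mul, mul_inv_cancel, Units.val_one, one_mulVec, mulVec_zero] using this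
    · rw [e, ← mul_assoc, ← det_mul, ← Units.val_mul, inv_mul_cancel, Units.val_one, det_one, one_mul]

variable {G : Type} [Group G] [Finite G] {θ : Hs p →* G}

theorem rz_sub (h : SylH θ) {L : Subgroup G} (hL : θ.range ≤ L) : Rz (WL L θ) (EL L θ) := by
  let θ' : Hs p →* L := θ.codRestrict L fun a => hL ⟨a, rfl⟩
  have hr : θ'.range = θ.range.subgroupOf L := by
    ext x
    exact ⟨fun ⟨a, e⟩ => ⟨a, congrArg Subtype.val e⟩, fun ⟨a, e⟩ => ⟨a, Subtype.ext e⟩⟩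
  refine ⟨L, _, inferInstance, θ', ⟨fun a b e => h.inj (congrArg Subtype.val e), fun e => h.idx ?_⟩, ?_, ?_⟩
  · rw [hr] at e
    exact e.trans (relIndex_dvd_index_of_le hL)
  · ext A
    exact ⟨fun ⟨g, _, e⟩ => ⟨g, g.2, fun a => congrArg Subtype.val (e a)⟩,
      fun ⟨g, hg, e⟩ => ⟨⟨g, hg⟩, mem_top _, fun a => Subtype.ext (e a)⟩⟩
  · ext v
    exact ⟨fun ⟨h0, g, _, c, e⟩ => ⟨h0, g, g.2, c, congrArg Subtype.val e⟩,
      fun ⟨h0, g, hg, c, e⟩ => ⟨h0, ⟨g, hg⟩, mem_top _, c, Subtype.ext e⟩⟩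

theorem rz_of_normal (h : SylH θ) {L : Subgroup G} [L.Normal] (hL : θ.range ≤ L) {W : Subgroup (G2 p)}
    (h1 : WL L θ ≤ W) (h2 : W ≤ WL ⊤ θ) (h3 : EL ⊤ θ ⊆ EL L θ) : Rz W (EL ⊤ θ) := by
  have inv : ∀ {g : G} {A : G2 p}, (∀ a, g * θ a * g⁻¹ = θ (act A a)) → ∀ a, g⁻¹ * θ a * g⁻¹⁻¹ = θ (act A⁻¹ a) :=
    fun {g A} e a => by
      have := e (act A⁻¹ a)
      rw [← MulAut.mul_apply, ← map_mul, mul_inv_cancel, map_one, MulAut.one_apply] at this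
      rw [← this]; group
  have mul : ∀ {g k : G} {A B : G2 p}, (∀ a, g * θ a * g⁻¹ = θ (act A a)) → (∀ a, k * θ a * k⁻¹ = θ (act B a)) →
      ∀ a, g * k * θ a * (g * k)⁻¹ = θ (act (A * B) a) := fun e f a => by
    rw [map_mul act, MulAut.mul_apply, ← e, ← f]; group
  let N : Subgroup G :=
    { carrier := {g | ∃ A ∈ W, ∀ a, g * θ a * g⁻¹ = θ (act A a)}
      one_mem' := ⟨1, one_mem _, fun a => by simp⟩
      mul_mem' := fun ⟨A, hA, e⟩ ⟨B, hB, f⟩ => ⟨A * B, mul_mem hA hB, mul e f⟩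
      inv_mem' := fun ⟨A, hA, e⟩ => ⟨A⁻¹, inv_mem hA, inv e⟩ }
  have h4 := rz_sub h (L := L ⊔ N) (hL.trans le_sup_left)
  have e1 : WL (L ⊔ N) θ = W := le_antisymm (by
    rintro A ⟨g, hg, e⟩
    obtain ⟨l, hl, n, ⟨B, hB, f⟩, rfl⟩ := mem_sup_of_normal_left.1 hg
    have h5 := mul e (inv f)
    rw [mul_inv_cancel_right] at h5
    exact (W.mul_mem_cancel_right (W.inv_mem hB)).1 (h1 ⟨l, hl, h5⟩)) fun A hA => by
      obtain ⟨g, -, e⟩ := h2 hA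
      exact ⟨g, mem_sup_right (show g ∈ N from ⟨A, hA, e⟩), e⟩
  have e2 : EL (L ⊔ N) θ = EL ⊤ θ := (EL_mono le_top θ).antisymm (h3.trans (EL_mono le_sup_left θ))
  rwa [e1, e2] at h4

theorem WL_lt (hp2 : p ≠ 2) (h : SylH θ) {L : Subgroup G} [L.Normal] (hL : θ.range ≤ L) (hne : L ≠ ⊤)
    (hC : centralizer (θ.range : Set G) ≤ L) : WL L θ < WL ⊤ θ := by
  obtain ⟨T, hT⟩ := h.exists_sylow
  have h1 := T.normalizer_sup_eq_top' (hT ▸ hL)
  obtain ⟨n, hn, hnL⟩ : ∃ n ∈ normalizer (θ.range : Set G), n ∉ L := by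
    by_contra! hn
    refine hne (eq_top_iff.2 (h1.ge.trans (sup_le (fun x hx => hn x ?_) le_rfl)))
    rw [← hT]
    exact hx
  obtain ⟨s, A, e⟩ := Crd.exists_act hp2 (P := θ.range) ⟨h.inj, rfl⟩ hn
  have e1 : ∀ a, (θ s)⁻¹ * n * θ a * ((θ s)⁻¹ * n)⁻¹ = θ (act A a) := fun a => by
    calc _ = (θ s)⁻¹ * (n * θ a * n⁻¹) * θ s := by group
      _ = _ := by rw [e, map_mul, map_mul, map_inv]; group
  refine lt_of_le_of_ne (WL_mono le_top θ) fun h2 => hnL ?_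
  obtain ⟨l, hl, e2⟩ : A ∈ WL L θ := h2 ▸ ⟨_, mem_top _, e1⟩
  have h3 : l⁻¹ * ((θ s)⁻¹ * n) ∈ L := hC (by
    rintro _ ⟨a, rfl⟩
    have := (e2 a).trans (e1 a).symm
    calc θ a * (l⁻¹ * ((θ s)⁻¹ * n)) = l⁻¹ * (l * θ a * l⁻¹) * ((θ s)⁻¹ * n) := by group
      _ = _ := by rw [this]; group)
  exact (L.mul_mem_cancel_left (L.inv_mem (hL ⟨s, rfl⟩))).1 ((L.mul_mem_cancel_left (L.inv_mem hl)).1 h3)

end CfsgLib.RV
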