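import Mathlib
import Cfsg.Agent.Lib.RV.Defs
import Cfsg.Agent.Lib.Coprime.Action
import Cfsg.Agent.Lib.Tech.SylowIn

/-!
# Package BL: lifting from the quotient of the centraliser of the involution (plans/RV.md)
-/

set_option autoImplicit false

namespace CfsgLib.RV

open Subgroup Matrix Cfsg CfsgLib.Fusion

theorem LiftP.lift {Y H : Type*} [Group Y] [Finite Y] [Group H] {π : Y →* H} (hs : Function.Surjective π) {r : Y}
    (hc : (Nat.card (zpowers r)).Coprime (Nat.card π.ker)) {g : H} {k : ℕ} (hg : g * π r * g⁻¹ = π r ^ k) :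
    ∃ y, π y = g ∧ y * r * y⁻¹ = r ^ k := by
  have := Finite.of_surjective π hs
  have h1 : g ∈ normalizer ((zpowers r).map π : Set H) := by
    rw [MonoidHom.map_zpowers]
    refine Tech.mem_normalizer_of_forall ?_
    rintro _ ⟨i, rfl⟩
    simp only
    rw [← conj_zpow, hg]
    exact zpow_mem (pow_mem (mem_zpowers _) _) _
  rw [← Coprime.map_normalizer_of_surjective hs hc (Or.inl (Coprime.isSolvable_zpowers r))] at h1
  obtain ⟨n, hn, e⟩ := h1
  refine ⟨n, e, mul_inv_eq_one.1 (disjoint_def.1 (disjoint_of_coprime_natCard hc) (mul_mem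
    (Tech.conj_mem_of_mem_normalizer hn (mem_zpowers r)) (inv_mem (pow_mem (mem_zpowers _) _))) ?_)⟩
  rw [MonoidHom.mem_ker, map_mul, map_inv, map_mul, map_mul, map_inv, map_pow, e, hg, mul_inv_cancel]

theorem hyp_of_quot {p : ℕ} (hp : p = 5 ∨ p = 13) {G C L : Type*} [Group G] [Group C] [Group L] [Finite G]
    (π : C →* G) (hπ : Function.Injective π) {z x : C} (hC : π.range = centralizer {π z}) (ψ : C →* L)
    (hψ : Function.Surjective ψ) (hQ : IsPGroup 2 ψ.ker) (hz : z ∈ ψ.ker) (oz : orderOf z = 2) (ox : orderOf x = p)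
    (hfix : ∀ q ∈ ψ.ker, Commute q x → q = 1 ∨ q = z) (hinv : ∀ b, Commute b x → b * b = 1 → b ∈ ψ.ker)
    (hY : HypQ p (ψ x)) (dvd : p ^ 3 ∣ Nat.card G) (ndvd : ¬ p ^ 4 ∣ Nat.card G)
    (cls : ∀ t : G, orderOf t = 2 → t * π x * t⁻¹ = (π x)⁻¹ → IsConj (π z) t) : Hyp p (π z) (π x) := by
  have : Finite C := Finite.of_injective π hπ
  have : Fact (Nat.Prime 2) := ⟨Nat.prime_two⟩
  obtain ⟨k, hk⟩ := IsPGroup.iff_card.1 hQ
  have cop : p.Coprime (Nat.card ψ.ker) := by
    rw [hk]
    exact Nat.Coprime.pow_right k (by rcases hp with rfl | rfl <;> norm_num)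
  have hc : (Nat.card (zpowers x)).Coprime (Nat.card ψ.ker) := by rwa [Nat.card_zpowers, ox]
  have cz : ∀ c, Commute (π c) (π z) := fun c => mem_centralizer_singleton_iff.1 (hC.le ⟨c, rfl⟩)
  have ex : ∀ {b}, Commute b (π z) → ∃ c, π c = b := fun e => hC.ge (mem_centralizer_singleton_iff.2 e)
  have dn : ∀ {a b}, Commute (π a) (π b) → Commute a b := fun e => hπ (by rw [map_mul, map_mul, e.eq])
  have zp : ∀ q ∈ ψ.ker, Commute q x → q ∈ zpowers z := fun q hq e =>
    (hfix q hq e).elim (fun e => e ▸ one_mem _) fun e => e ▸ mem_zpowers z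
  refine ⟨hp, (orderOf_injective π hπ z).trans oz, (orderOf_injective π hπ x).trans ox, (cz x).symm, dvd, ndvd,
    fun hd => hY.cardL ?_, ?_, fun b h1 h2 h3 => ?_, fun b h1 h2 => ?_, ?_, cls⟩
  · have h1 := ψ.ker.card_mul_index
    rw [index_ker, MonoidHom.range_eq_top.2 hψ, card_top] at h1
    rw [← hC, ← Nat.card_congr (MonoidHom.ofInjective hπ).toEquiv, ← h1] at hd
    exact (cop.pow_left 2).dvd_of_dvd_mul_left hd
  · have e1 : (centralizer {π z} ⊓ centralizer {π x} : Subgroup G) = (centralizer {x}).map π := by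
      refine le_antisymm (fun b hb => ?_) ?_
      · obtain ⟨c, rfl⟩ := hC.ge hb.1
        exact mem_map_of_mem π (mem_centralizer_singleton_iff.2 (dn (mem_centralizer_singleton_iff.1 hb.2)))
      · rintro _ ⟨c, hc, rfl⟩
        exact ⟨hC.le ⟨c, rfl⟩, mem_centralizer_singleton_iff.2
          (Commute.map (mem_centralizer_singleton_iff.1 hc) π)⟩
    have e2 : (ψ.comp (centralizer {x}).subtype).range = centralizer {ψ x} := by
      refine le_antisymm ?_ fun g hg => ?_
      · rintro _ ⟨c, rfl⟩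
        exact mem_centralizer_singleton_iff.2 (Commute.map (mem_centralizer_singleton_iff.1 c.2) ψ)
      · obtain ⟨y, e, e'⟩ := LiftP.lift hψ hc (g := g) (k := 1) (by
          rw [mem_centralizer_singleton_iff.1 hg, mul_inv_cancel_right, pow_one])
        exact ⟨⟨y, mem_centralizer_singleton_iff.2 (mul_inv_eq_iff_eq_mul.1 (e'.trans (pow_one x)))⟩, e⟩
    have e3 : zpowers z ≤ centralizer {x} := zpowers_le.2 (mem_centralizer_singleton_iff.2 (dn (cz x).symm))
    have e4 : (ψ.comp (centralizer {x}).subtype).ker = (zpowers z).subgroupOf (centralizer {x}) :=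
      Subgroup.ext fun c => ⟨fun h => zp _ h (mem_centralizer_singleton_iff.1 c.2), fun h => zpowers_le.2 hz h⟩
    have h1 := (ψ.comp (centralizer {x}).subtype).ker.card_mul_index
    rw [index_ker, e2, e4, Nat.card_congr (subgroupOfEquivOfLe e3).toEquiv, Nat.card_zpowers, oz, hY.cardY] at h1
    rw [e1, card_map_of_injective hπ, ← h1]
    ring
  · obtain ⟨c, rfl⟩ := ex h1
    rw [orderOf_injective π hπ] at h3
    rcases hfix c (hinv c (dn h2) (by rw [← pow_two, ← h3, pow_orderOf_eq_one])) (dn h2) with e | e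
    · rw [e, orderOf_one] at h3
      exact absurd h3 (by norm_num)
    · rw [e]
  · obtain ⟨c, rfl⟩ := ex h1
    have key : ∀ n, ψ c ^ n = 1 → π c ^ n ∈ zpowers (π z) := fun n e => by
      rw [← map_pow, ← MonoidHom.map_zpowers]
      exact mem_map_of_mem π (zp _ (by rw [MonoidHom.mem_ker, map_pow, e]) ((dn h2).pow_left n))
    exact (hY.pow _ ((dn h2).map ψ)).imp (key _) (key _)
  · obtain ⟨s, l, e, hl⟩ := hY.four
    obtain ⟨y, -, e'⟩ := LiftP.lift hψ hc e
    exact ⟨π y, l, cz y, by rw [← map_inv, ← map_mul, ← map_mul, e', map_pow], hl⟩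

end CfsgLib.RV
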