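import Mathlib
import Cfsg.Agent.Lib.RV.Int

/-!
# Package L3: the linear groups of degree three and their graph extensions (plans/RV.md)
-/

set_option autoImplicit false

namespace CfsgLib.RV

open Subgroup Matrix Cfsg CfsgLib.Fusion

variable {p : ℕ} [hp : Fact p.Prime]

namespace L3

/-- the general linear group of degree three -/
abbrev N3 (p : ℕ) : Type := GL (Fin 3) (ZMod p)

/-- the antidiagonal matrix -/
def J3 (p : ℕ) : Matrix (Fin 3) (Fin 3) (ZMod p) := !![0, 0, 1; 0, 1, 0; 1, 0, 0]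

theorem J3_mul : J3 p * J3 p = 1 := by
  ext i j; fin_cases i <;> fin_cases j <;> simp [J3, mul_apply, Fin.sum_univ_three]

theorem J3_tr : (J3 p)ᵀ = J3 p := by
  ext i j; fin_cases i <;> fin_cases j <;> rfl

theorem J3_key (a b : Matrix (Fin 3) (Fin 3) (ZMod p)) :
    J3 p * aᵀ * J3 p * (J3 p * bᵀ * J3 p) = J3 p * (b * a)ᵀ * J3 p := by
  rw [transpose_mul]
  simp only [mul_assoc]
  rw [← mul_assoc (J3 p) (J3 p), J3_mul, one_mul]

/-- the graph automorphism, as a function -/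
def gf (g : N3 p) : N3 p :=
  ⟨J3 p * (g⁻¹).1ᵀ * J3 p, J3 p * g.1ᵀ * J3 p,
    by rw [J3_key, Units.mul_inv, transpose_one, mul_one, J3_mul],
    by rw [J3_key, Units.inv_mul, transpose_one, mul_one, J3_mul]⟩

theorem gf_gf (g : N3 p) : gf (gf g) = g := Units.ext (by
  change J3 p * (J3 p * g.1ᵀ * J3 p)ᵀ * J3 p = g.1
  rw [transpose_mul, transpose_mul, J3_tr, transpose_transpose]
  simp only [← mul_assoc]
  rw [J3_mul, one_mul, mul_assoc, J3_mul, mul_one])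

/-- the graph automorphism -/
def gam (p : ℕ) [Fact p.Prime] : MulAut (N3 p) where
  toFun := gf
  invFun := gf
  left_inv := gf_gf
  right_inv := gf_gf
  map_mul' a b := Units.ext (by
    change J3 p * ((a * b)⁻¹).1ᵀ * J3 p = J3 p * (a⁻¹).1ᵀ * J3 p * (J3 p * (b⁻¹).1ᵀ * J3 p)
    rw [J3_key, _root_.mul_inv_rev, Units.val_mul])

theorem gam_val (g : N3 p) : (gam p g).1 = J3 p * (g⁻¹).1ᵀ * J3 p := rfl

theorem gam_sq : gam p ^ 2 = 1 := MulEquiv.ext gf_gf

theorem gam_cases (σ : zpowers (gam p)) : σ.1 = 1 ∨ σ.1 = gam p := by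
  obtain ⟨_, k, rfl⟩ := σ
  have h : ∀ m : ℤ, gam p ^ (2 * m) = 1 := fun m => by
    rw [_root_.zpow_mul, zpow_ofNat, gam_sq, _root_.one_zpow]
  obtain ⟨m, rfl | rfl⟩ := Int.even_or_odd' k
  · exact .inl (h m)
  · exact .inr (by simp only [_root_.zpow_add_one, h, one_mul])

/-- the extension by the graph automorphism -/
abbrev G3 (p : ℕ) [Fact p.Prime] : Type := N3 p ⋊[(zpowers (gam p)).subtype] zpowers (gam p)

instance : Finite (G3 p) := Finite.of_equiv _ SemidirectProduct.equivProd.symm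

theorem conj_inl (g : G3 p) (m : N3 p) :
    g * SemidirectProduct.inl m * g⁻¹ = SemidirectProduct.inl (g.left * g.right.1 m * g.left⁻¹) := by
  refine SemidirectProduct.ext ?_ (by simp)
  simp

theorem half (hp2 : p ≠ 2) : (2 : ZMod p)⁻¹ * 2 = 1 := inv_mul_cancel₀ fun h =>
  hp2 ((Nat.prime_dvd_prime_iff_eq hp.out Nat.prime_two).1 ((ZMod.natCast_eq_zero_iff 2 p).1 (by exact_mod_cast h)))

/-- the unitriangular matrices -/
def tm (a : Hs p) : Matrix (Fin 3) (Fin 3) (ZMod p) :=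
  !![1, a.v 0, 2⁻¹ * (a.c + a.v 0 * a.v 1); 0, 1, a.v 1; 0, 0, 1]

/-- the embedding of the Heisenberg group -/
def th0 (hp2 : p ≠ 2) : Hs p →* N3 p := MonoidHom.toHomUnits
  { toFun := tm
    map_one' := by ext i j; fin_cases i <;> fin_cases j <;> simp [tm]
    map_mul' := fun a b => by
      ext i j
      fin_cases i <;> fin_cases j <;> simp [tm, mul_apply, Fin.sum_univ_three, om, add_comm]
      linear_combination (a.v 0 * b.v 1) * half hp2 }

theorem th0_val (hp2 : p ≠ 2) (a : Hs p) : (th0 hp2 a).1 = tm a := rfl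

theorem th0_inj (hp2 : p ≠ 2) : Function.Injective (th0 hp2) := fun a b h => by
  have h : tm a = tm b := congrArg Units.val h
  have h0 : a.v 0 = b.v 0 := congrFun (congrFun h 0) 1
  have h1 : a.v 1 = b.v 1 := congrFun (congrFun h 1) 2
  have h2 : 2⁻¹ * (a.c + a.v 0 * a.v 1) = 2⁻¹ * (b.c + b.v 0 * b.v 1) := congrFun (congrFun h 0) 2
  rw [h0, h1] at h2
  refine Hs.ext (funext fun i => by fin_cases i; exacts [h0, h1]) ?_
  linear_combination 2 * h2 + (b.c - a.c) * half hp2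

/-- the matrix induced by the graph automorphism -/
def sw (p : ℕ) [Fact p.Prime] : G2 p := ⟨!![0, -1; -1, 0], !![0, -1; -1, 0],
  by ext i j; fin_cases i <;> fin_cases j <;> simp [mul_apply, Fin.sum_univ_two],
  by ext i j; fin_cases i <;> fin_cases j <;> simp [mul_apply, Fin.sum_univ_two]⟩

theorem gam_th0 (hp2 : p ≠ 2) (a : Hs p) : gam p (th0 hp2 a) = th0 hp2 (act (sw p) a) := Units.ext (by
  rw [gam_val, ← map_inv, th0_val, th0_val]
  ext i j
  fin_cases i <;> fin_cases j <;>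
    simp [tm, J3, sw, mul_apply, Fin.sum_univ_three, mulVec, vecMul, dotProduct, Fin.sum_univ_two, det_fin_two,
      mul_comm])

/-- the embedding into the extension -/
def th (hp2 : p ≠ 2) : Hs p →* G3 p := SemidirectProduct.inl.comp (th0 hp2)

theorem th_apply (hp2 : p ≠ 2) (a : Hs p) : th hp2 a = SemidirectProduct.inl (th0 hp2 a) := rfl

theorem sylH (hp2 : p ≠ 2) : SylH (th hp2) := by
  have hi : Function.Injective (th hp2) := SemidirectProduct.inl_injective.comp (th0_inj hp2)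
  refine ⟨hi, fun hd => ?_⟩
  have h := (th hp2).range.card_mul_index
  have h1 := hp.out.one_lt
  rw [← Nat.card_congr (MonoidHom.ofInjective hi).toEquiv, Hs.card_eq, SemidirectProduct.card, card_GL_field,
    ZMod.card, Fin.prod_univ_three, Nat.card_zpowers] at h
  have e : (p ^ 3 - p ^ ((0 : Fin 3) : ℕ)) * (p ^ 3 - p ^ ((1 : Fin 3) : ℕ)) * (p ^ 3 - p ^ ((2 : Fin 3) : ℕ)) *
      orderOf (gam p) = p ^ 3 * ((p ^ 3 - 1) * (p ^ 2 - 1) * (p ^ 1 - 1) * orderOf (gam p)) := by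
    have a1 : p ^ 3 - p ^ 1 = p * (p ^ 2 - 1) := by rw [Nat.mul_sub_one]; congr 1 <;> ring
    have a2 : p ^ 3 - p ^ 2 = p ^ 2 * (p ^ 1 - 1) := by rw [Nat.mul_sub_one]; congr 1; ring
    change (p ^ 3 - 1) * (p ^ 3 - p ^ 1) * (p ^ 3 - p ^ 2) * _ = _
    rw [a1, a2]; ring
  rw [e] at h
  rw [Nat.eq_of_mul_eq_mul_left (by positivity) h] at hd
  have k : ∀ n, n ≠ 0 → ¬ p ∣ p ^ n - 1 := fun n hn hd => hp.out.not_dvd_one
    ((Nat.dvd_sub_iff_right (Nat.one_le_pow _ _ (by omega)) (dvd_pow_self p hn)).1 hd)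
  obtain hd | hd := (Nat.Prime.dvd_mul hp.out).1 hd
  · obtain hd | hd := (Nat.Prime.dvd_mul hp.out).1 hd
    · obtain hd | hd := (Nat.Prime.dvd_mul hp.out).1 hd
      exacts [k 3 (by norm_num) hd, k 2 (by norm_num) hd]
    · exact k 1 (by norm_num) hd
  · exact hp2 ((Nat.prime_dvd_prime_iff_eq hp.out Nat.prime_two).1 (hd.trans (orderOf_dvd_of_pow_eq_one gam_sq)))

/-- the special linear group -/
def LS (p : ℕ) [Fact p.Prime] : Subgroup (G3 p) :=
  (GeneralLinearGroup.det : N3 p →* (ZMod p)ˣ).ker.map SemidirectProduct.inl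

theorem mem_LS {g : G3 p} : g ∈ LS p ↔ ∃ n : N3 p, n.1.det = 1 ∧ SemidirectProduct.inl n = g :=
  ⟨fun ⟨n, hn, e⟩ => ⟨n, congrArg Units.val hn, e⟩, fun ⟨n, hn, e⟩ => ⟨n, Units.ext hn, e⟩⟩

theorem det_gam {n : N3 p} (h : n.1.det = 1) : (gam p n).1.det = 1 := by
  have h1 : (n⁻¹).1.det = 1 := by
    have := congrArg det n.inv_mul
    rwa [det_mul, h, mul_one, det_one] at this
  rw [gam_val, det_mul, det_mul, det_transpose, h1, mul_one, ← det_mul, J3_mul, det_one]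

instance : (LS p).Normal := ⟨fun x hx g => by
  obtain ⟨n, hn, rfl⟩ := mem_LS.1 hx
  rw [conj_inl]
  refine mem_LS.2 ⟨_, ?_, rfl⟩
  have : (g.right.1 n).1.det = 1 := by
    obtain e | e := gam_cases g.right <;> rw [e]
    exacts [hn, det_gam hn]
  rw [Units.val_mul, Units.val_mul, det_mul, det_mul, this, mul_one, ← det_mul, Units.mul_inv, det_one]⟩

theorem range_le (hp2 : p ≠ 2) : (th hp2).range ≤ LS p := by
  rintro _ ⟨a, rfl⟩
  exact mem_LS.2 ⟨th0 hp2 a, by simp [th0_val, tm, det_fin_three], rfl⟩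

theorem inl_conj (hp2 : p ≠ 2) {n : N3 p} {a b : Hs p} :
    SemidirectProduct.inl n * th hp2 a * (SemidirectProduct.inl n)⁻¹ = th hp2 b ↔ n.1 * tm a = tm b * n.1 := by
  rw [th_apply, th_apply, ← map_inv, ← map_mul, ← map_mul, SemidirectProduct.inl_inj, mul_inv_eq_iff_eq_mul,
    Units.ext_iff]
  rfl

theorem WL_le (hp2 : p ≠ 2) {A : G2 p} (h : A ∈ WL (LS p) (th hp2)) : A ∈ T0 p := by
  obtain ⟨g, hg, e⟩ := h
  obtain ⟨n, hn, rfl⟩ := mem_LS.1 hg
  have e0 := (inl_conj hp2).1 (e ⟨![1, 0], 0⟩)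
  have e1 := (inl_conj hp2).1 (e ⟨![0, 1], 0⟩)
  have e2 := (inl_conj hp2).1 (e ⟨0, 2⟩)
  have f := fun (M M' : Matrix (Fin 3) (Fin 3) (ZMod p)) (h : M = M') (i j : Fin 3) => congrFun (congrFun h i) j
  have a21 := f _ _ e0 2 1
  have a01 := f _ _ e0 0 1
  have a12 := f _ _ e0 1 2
  have b22 := f _ _ e1 2 2
  have b12 := f _ _ e1 1 2
  have b01 := f _ _ e1 0 1
  have c12 := f _ _ e2 1 2
  simp only [tm, mul_apply, Fin.sum_univ_three, act_v, act_c, mulVec, dotProduct, Fin.sum_univ_two, of_apply,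
    cons_val', cons_val_zero, cons_val_one, cons_val_fin_one, cons_val, Pi.zero_apply, mul_zero,
    mul_one, zero_mul, one_mul, add_zero, zero_add, half hp2] at a21 a01 a12 b22 b12 b01 c12
  have h20 : n.1 2 0 = 0 := by linear_combination a21
  have h21 : n.1 2 1 = 0 := by linear_combination b22
  have h10 : n.1 1 0 = 0 := by linear_combination c12
  rw [det_fin_three, h20, h21, h10] at hn
  rw [h21] at a01 b01
  refine ⟨?_, ?_, n.1 0 0 * n.1 2 2, ?_⟩
  · linear_combination (-A.1 0 1) * hn - n.1 0 0 * n.1 2 2 * b01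
  · linear_combination (-A.1 1 0) * hn - n.1 0 0 * n.1 1 1 * a12
  · have x0 : A.1 0 0 = n.1 0 0 ^ 2 * n.1 2 2 := by
      linear_combination (-A.1 0 0) * hn - n.1 0 0 * n.1 2 2 * a01
    have x1 : A.1 1 1 = n.1 0 0 * n.1 1 1 ^ 2 := by
      linear_combination (-A.1 1 1) * hn - n.1 0 0 * n.1 1 1 * b12
    rw [x0, x1]
    linear_combination (-n.1 0 0 ^ 2 * n.1 2 2 * (n.1 0 0 * n.1 1 1 * n.1 2 2 + 1)) * hn

theorem diag_mem (hp2 : p ≠ 2) {A : G2 p} (h1 : A.1 0 1 = 0) (h2 : A.1 1 0 = 0) : A ∈ WL ⊤ (th hp2) := by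
  have hd : A.1 0 0 * A.1 1 1 ≠ 0 := by
    have := A.det_ne_zero
    rwa [det_fin_two, h1, zero_mul, sub_zero] at this
  refine ⟨SemidirectProduct.inl (GeneralLinearGroup.mkOfDetNeZero
    !![A.1 0 0 * A.1 1 1, 0, 0; 0, A.1 1 1, 0; 0, 0, 1] ?_), trivial, fun a => (inl_conj hp2).2 ?_⟩
  · simpa [det_fin_three] using hd
  · ext i j
    fin_cases i <;> fin_cases j <;>
      simp [tm, mul_apply, Fin.sum_univ_three, mulVec, dotProduct, Fin.sum_univ_two, det_fin_two, h1, h2] <;> ring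

theorem sw_mem (hp2 : p ≠ 2) : sw p ∈ WL ⊤ (th hp2) :=
  ⟨SemidirectProduct.inr ⟨gam p, mem_zpowers _⟩, trivial, fun a => by
    rw [th_apply, conj_inl, th_apply, ← gam_th0]; simp⟩

theorem mono_mem (hp2 : p ≠ 2) {A : G2 p} (h : A ∈ Mono p) : A ∈ WL ⊤ (th hp2) := by
  obtain ⟨h1, h2⟩ | ⟨h1, h2⟩ := h
  · exact diag_mem hp2 h1 h2
  · rw [← mul_inv_cancel_right A (sw p)]
    exact mul_mem (diag_mem hp2 (by simp [sw, mul_apply, Fin.sum_univ_two, h1])
      (by simp [sw, mul_apply, Fin.sum_univ_two, h2])) (inv_mem (sw_mem hp2))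

theorem mul_eq_zero_of_conj (hp2 : p ≠ 2) {n : N3 p} {w : V2 p} {c : ZMod p}
    (h : n * th0 hp2 ⟨w, 0⟩ * n⁻¹ = th0 hp2 ⟨0, c⟩) : w 0 * w 1 = 0 := by
  have h1 : tm ⟨w, 0⟩ = (n⁻¹).1 * tm ⟨0, c⟩ * n.1 := by
    rw [← th0_val hp2, ← th0_val hp2, ← h, ← Units.val_mul, ← Units.val_mul]; congr 1; group
  have h2 : (tm (⟨0, c⟩ : Hs p) - 1) * (tm ⟨0, c⟩ - 1) = 0 := by
    ext i j; fin_cases i <;> fin_cases j <;> simp [tm, mul_apply, Fin.sum_univ_three, one_apply]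
  have h3 : tm (⟨w, 0⟩ : Hs p) - 1 = (n⁻¹).1 * (tm ⟨0, c⟩ - 1) * n.1 := by
    rw [mul_sub, sub_mul, mul_one, Units.inv_mul, h1]
  have h4 : (tm (⟨w, 0⟩ : Hs p) - 1) * (tm ⟨w, 0⟩ - 1) = 0 := by
    rw [h3]
    simp only [mul_assoc]
    rw [← mul_assoc n.1, Units.mul_inv, one_mul, ← mul_assoc (_ - _), h2, zero_mul, mul_zero]
  simpa [tm, mul_apply, Fin.sum_univ_three, one_apply] using congrFun (congrFun h4 0) 2

theorem EL_le (hp2 : p ≠ 2) : EL ⊤ (th hp2) ⊆ axes p := by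
  rintro v ⟨h0, g, -, c, e⟩
  refine ⟨h0, ?_⟩
  rw [th_apply, conj_inl, th_apply, SemidirectProduct.inl_inj] at e
  obtain h | h := gam_cases g.right <;> rw [h] at e
  · exact mul_eq_zero_of_conj hp2 e
  · rw [gam_th0, act_mk, mul_zero] at e
    simpa [sw, mulVec, dotProduct, Fin.sum_univ_two, or_comm] using mul_eq_zero_of_conj hp2 e

theorem axes_le (hp2 : p ≠ 2) : axes p ⊆ EL (LS p) (th hp2) := by
  rintro v ⟨h0, h⟩
  refine ⟨h0, ?_⟩
  obtain h | h := mul_eq_zero.1 h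
  · refine ⟨_, mem_LS.2 ⟨GeneralLinearGroup.mkOfDetNeZero !![0, 1, 0; -1, 0, 0; 0, 0, 1] (by simp [det_fin_three]),
      by simp [det_fin_three], rfl⟩, 2 * v 1, (inl_conj hp2).2 ?_⟩
    ext i j
    fin_cases i <;> fin_cases j <;> simp [tm, mul_apply, Fin.sum_univ_three, h, ← mul_assoc, half hp2]
  · refine ⟨_, mem_LS.2 ⟨GeneralLinearGroup.mkOfDetNeZero !![1, 0, 0; 0, 0, -1; 0, 1, 0] (by simp [det_fin_three]),
      by simp [det_fin_three], rfl⟩, 2 * v 0, (inl_conj hp2).2 ?_⟩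
    ext i j
    fin_cases i <;> fin_cases j <;> simp [tm, mul_apply, Fin.sum_univ_three, h, ← mul_assoc, half hp2]

end L3

theorem rz_axes (hp2 : p ≠ 2) {W : Subgroup (G2 p)} (h1 : T0 p ⊆ W) (h2 : (W : Set (G2 p)) ⊆ Mono p) :
    Rz W (axes p) := by
  have h := rz_of_normal (L3.sylH hp2) (L3.range_le hp2) (W := W) (fun _ hA => h1 (L3.WL_le hp2 hA))
    (fun _ hA => L3.mono_mem hp2 (h2 hA)) ((L3.EL_le hp2).trans (L3.axes_le hp2))
  rwa [(L3.EL_le hp2).antisymm ((L3.axes_le hp2).trans (EL_mono le_top _))] at h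

end CfsgLib.RV
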