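import Mathlib
import Cfsg.Agent.Lib.RV.Lift
import Cfsg.Agent.Lib.RV.A9
import Cfsg.Agent.Lib.Th.Cls

/-!
# Package TH: the Thompson group (plans/RV.md)
-/

set_option autoImplicit false
set_option maxRecDepth 100000

namespace CfsgLib.RV

open Subgroup Matrix Cfsg CfsgLib.Fusion

namespace TH

open CfsgLib.Th CfsgLib.Comput CfsgLib.FiTool

/-- the word of an element of order five -/
def w5 : ℕ := 0x306090309

/-- the element of order five -/
noncomputable def x5 : PC := ev lx w5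

theorem x5_pow : x5 ^ 5 = 1 := by
  rw [x5, ← evL_replicate]
  exact EX_holds (e := (List.replicate 5 w5, [])) (by decide +kernel)

theorem ψ_x5 : ψ x5 ≠ 1 := by
  rw [x5, map_ev, funext ψ_lx]
  decide +kernel

theorem ψA_x5 : ψA x5 ≠ 1 := fun h => ψ_x5 (congrArg Subtype.val h)

theorem order_x5 : orderOf x5 = 5 :=
  orderOf_eq_prime (hp := ⟨by norm_num⟩) x5_pow fun h => ψ_x5 (by rw [h, map_one])

theorem order_ψ : orderOf (ψ x5) = 5 :=
  orderOf_eq_prime (hp := ⟨by norm_num⟩) (by rw [← map_pow, x5_pow, map_one]) ψ_x5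

theorem order_ψA : orderOf (ψA x5) = 5 :=
  orderOf_eq_prime (hp := ⟨by norm_num⟩) (by rw [← map_pow, x5_pow, map_one]) ψA_x5

theorem ker_ψA : ψA.ker = Q := MonoidHom.ker_codRestrict _ _ _

theorem hfix {y : PC} (hy : y ∈ Q) (hc : Commute y x5) : y = 1 ∨ y = q 0 := by
  obtain ⟨i, hi, rfl⟩ := exists_el hy
  rcases bor_eq_true.1 (allLt_sound (p := fun i => bor (blt i 2)
    (NX (List.replicate 4 w5 ++ (sel qs i ++ [w5])) (sel qs i))) (by decide +kernel) i hi) with h2 | h2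
  · have := lt_of_blt h2
    interval_cases i
    exacts [Or.inl rfl, Or.inr ((mul_one _).trans ev_a)]
  · refine absurd ?_ (NX_sound h2)
    rw [evL_append, evL_append, evL_replicate, evL_one, show ev lx w5 = x5 from rfl, hc.eq, ← mul_assoc, ← pow_succ,
      x5_pow, one_mul]

theorem q2_mem : q 2 ∈ Q := (show ev lx 2 = q 2 from ev_lx (m := 1) (by norm_num)) ▸ qs_mem 2 (by decide)

theorem hinv {b : PC} (hc : Commute b x5) (hb : b * b = 1) : b ∈ Q := by
  rcases inv_PC hb with rfl | rfl | e | e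
  · exact one_mem _
  · exact ev_a ▸ qs_mem 1 (by decide)
  · obtain ⟨c, rfl⟩ := isConj_iff.1 e
    exact ψ.normal_ker.conj_mem _ q2_mem c
  · refine absurd (hc.map ψ).symm (not_comm_S9 order_ψ (by rw [← map_mul, hb, map_one]) ?_)
    obtain ⟨c, rfl⟩ := isConj_iff.1 e
    rw [map_mul, map_mul, map_inv, Equiv.Perm.card_support_conj, show q 3 = lt q 2 from rfl, ψ_lt]
    decide

end TH

open CfsgLib.Th TH in
theorem hyp_Th : ∃ z x : Spor.Th, Hyp 5 z x := by
  refine ⟨πC (q 0), πC x5, hyp_of_quot (Or.inl rfl) πC πC_inj (by rw [πC_a, cent_ga]) ψA ψA_surj ?_ ?_ ?_ order_x5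
    (fun y hy => hfix (ker_ψA ▸ hy)) (fun b hc hb => ker_ψA ▸ hinv hc hb) (hypQ_A9 order_ψA) ?_ ?_ fun t ht _ => ?_⟩
  · rw [ker_ψA]; exact .of_card (n := 9) card_Q
  · rw [ker_ψA]; exact ev_a ▸ qs_mem 1 (by decide)
  · exact orderOf_eq_prime (by rw [pow_two, a_sq]) es.1
  · rw [card_Th]; norm_num
  · rw [card_Th]; norm_num
  · rw [πC_a]; exact isConj_ga ht

end CfsgLib.RV
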