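import Mathlib
import Cfsg.Agent.Lib.RV.Int
import Cfsg.Agent.Lib.RV.Heis
import Cfsg.Agent.Lib.LieAll.Par
import Cfsg.Agent.Lib.LieModel.Tits.Iso
import Cfsg.Agent.Lib.MultC.Tits.Link
import Cfsg.Agent.Lib.MultC.Tits.P3

/-!
# Package TITS: the Tits group and its extension (plans/RV.md)
-/

set_option autoImplicit false
set_option maxRecDepth 100000

namespace CfsgLib.RV

open Subgroup Matrix Cfsg CfsgLib.Fusion

namespace Tt

section
open CfsgLib.RGD CfsgLib.Twist CfsgLib.ChevAut CfsgLib.LieAll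

variable {ι κ B : Type} [Fintype κ] [DecidableEq κ] {Φ : RootSys ι κ}
  {F : Type*} [Field F] {G : Type*} [Group G] {S : StSys Φ F G} {T : Tw S B} {M : Subgroup G} [Finite ι]

theorem exists_card_dvd (hM : IsTw T M) [Finite F] [Finite G] (p : ℕ) [Fact p.Prime] [CharP F p]
    (h2 : ∀ a b c : B, a = b ∨ a = c ∨ b = c) {x : M} (hx : orderOf x = p) {H : Type*} [Group H] {φ : H →* M}
    (hφ : Function.Injective φ) (h : ∀ y, Commute x (φ y)) :
    ∃ b, Nat.card H ∣ Nat.card ↥(S.U ⊓ M) * Nat.card ↥(S.H ⊓ M) * (Nat.card (Ub T M b) + 1) := by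
  have hx' : orderOf (x : G) = p := by rwa [orderOf_coe]
  obtain ⟨g, hg, J, h3, h4, -, h5⟩ := borelTits hM p (X := zpowers (x : G))
    (zpowers_le.2 x.2) (IsPGroup.of_card (n := 1) (by rw [Nat.card_zpowers, hx', pow_one]))
    (by rw [Ne, zpowers_eq_bot, ← orderOf_eq_one_iff, hx']; exact (Fact.out : p.Prime).ne_one)
  obtain ⟨b, hb⟩ := h3.subset_J h2 h4
  refine ⟨b, ?_⟩
  have h6 : ∀ y, (MulAut.conj g⁻¹).toMonoidHom.comp (M.subtype.comp φ) y ∈ S.P (T.J b) ⊓ M := fun y => by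
    have : g⁻¹ * φ y * g ∈ S.P (T.J b) ⊓ M := And.intro (P_mono hb (h5 (φ y) (φ y).2
      (centralizer_le_normalizer _ (by
        rintro _ ⟨k, rfl⟩
        exact (Commute.zpow_left (congrArg Subtype.val (h y).eq) k).eq))))
      (M.mul_mem (M.mul_mem (M.inv_mem hg) (φ y).2) hg)
    simpa using this
  rw [← card_P hM]
  exact card_dvd_of_injective (MonoidHom.codRestrict _ _ h6) fun a b e =>
    hφ (Subtype.ext ((MulAut.conj g⁻¹).injective (congrArg Subtype.val e)))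

theorem not_nine {n : ℕ} (hn : n = 2 ^ 0) {H : Type*} [Group H] {φ : H →* Lie.twistedF4 (ZMod 2) n}
    (hφ : Function.Injective φ) {t : Lie.twistedF4 (ZMod 2) n} (ht : orderOf t = 2) (h : ∀ y, Commute t (φ y)) :
    ¬ 9 ∣ Nat.card H := by
  subst hn
  have hK : Fintype.card (ZMod 2) = 2 ^ (2 * 0 + 1) := ZMod.card 2
  obtain ⟨_, θ, he, hθ⟩ := exists_theta hK
  obtain ⟨c, hc⟩ := exists_card_dvd (isTwF4 he hθ) 2 (by decide) ht hφ h
  rw [card_UF4 he hθ, card_HF4 he hθ, Ub_eq (isTwF4 he hθ), show (twF4 θ hθ).J c = symF4.J c from rfl,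
    cardJF4, hK] at hc
  intro h9
  have := h9.trans hc
  revert this
  fin_cases c <;> simp only [wtF4] <;> decide

end

section
open CfsgLib.Comput CfsgLib.MultC CfsgLib.MultC.Tits

theorem chk : allL (eqChk (stepT 1755 11 (U ++ P3.X)) (idTab 1755 11))
    [([21, 21, 21], []), ([22, 22, 22], []), ([23, 23, 23], []), ([21, 22], [23, 23, 22, 21]), ([21, 23], [23, 21]),
      ([22, 23], [23, 22]), ([0x10b0a05, 21], [23, 23, 0x10b0a05]), ([0x10080b11, 22], [23, 0x10080b11]),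
      ([0x50f0a07, 21, 22, 23, 23], [23, 23, 0x50f0a07])] = true := by decide +kernel

theorem mov : Nat.beq ((nth Net.nil (U ++ P3.X) 22).fn 0) 0 = false := by decide +kernel

theorem cert : ∃ a b x u v w : PG, a ^ 3 = 1 ∧ b ^ 3 = 1 ∧ orderOf x = 3 ∧ a * b * a⁻¹ * b⁻¹ = x ^ 2 ∧ Commute a x ∧
    Commute b x ∧ u * a * u⁻¹ = x ^ 2 ∧ v * b * v⁻¹ = x ∧ w * (a * b * x ^ 2) * w⁻¹ = x ^ 2 := by
  obtain ⟨g, hg⟩ := ((realU real0).append ((realU real0).words (k := 11) (by norm_num) P3.xw)).letters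
  have h := (model.wm hg (k := 11) (by norm_num)).allHold chk
  have e1 : ev g 21 = g 20 := ev_letter g (m := 20) (by norm_num)
  have e2 : ev g 22 = g 21 := ev_letter g (m := 21) (by norm_num)
  have e3 : ev g 23 = g 22 := ev_letter g (m := 22) (by norm_num)
  simp only [AllHold, List.forall_mem_cons, Eqn.Holds, evL_cons, evL_nil, mul_one, e1, e2, e3] at h
  obtain ⟨h1, h2, h3, h4, h5, h6, h7, h8, h9, -⟩ := h
  have h0 : g 22 ≠ 1 := fun e => by
    have := (hg 22).2 0 (by norm_num)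
    rw [e, one_smul] at this
    exact Nat.ne_of_beq_eq_false mov (model.inj _ (Net.fn_lt (hg 22).1 (by norm_num)) _ (by norm_num) this)
  have : Fact (Nat.Prime 3) := ⟨by norm_num⟩
  refine ⟨g 20, g 21, g 22, ev g 0x10b0a05, ev g 0x10080b11, ev g 0x50f0a07, by rw [← h1, pow_three],
    by rw [← h2, pow_three], orderOf_eq_prime (by rw [← h3, pow_three]) h0, ?_, h5, h6, ?_, ?_, ?_⟩
  · rw [h4, sq]; group
  · rw [h7, sq]; group
  · rw [h8]; group
  · rw [sq, mul_assoc (g 20), h9]; group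

end

theorem main {G H : Type} [Group G] [Group H] {i : H →* G} (hi : Function.Injective i) (hG : Nat.card G = 35942400)
    (hH : Nat.card H = 17971200) {a b x u v w : H} (h1 : a ^ 3 = 1) (h2 : b ^ 3 = 1) (h3 : orderOf x = 3)
    (h4 : a * b * a⁻¹ * b⁻¹ = x ^ 2) (h5 : Commute a x) (h6 : Commute b x) (h7 : u * a * u⁻¹ = x ^ 2)
    (h8 : v * b * v⁻¹ = x) (h9 : w * (a * b * x ^ 2) * w⁻¹ = x ^ 2)
    (hn : ∀ φ : Hs 3 →* G, Function.Injective φ → ∀ t, orderOf t = 2 → (∀ y, Commute t (φ y)) → False) :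
    ∃ (W W' : Subgroup (G2 3)) (E E' : Set (V2 3)), Rz W E ∧ Rz W' E' ∧ Three E ∧ Three E' ∧ W < W' := by
  have k1 : (![1, 0] : V2 3) ≠ 0 ∧ (![0, 1] : V2 3) ≠ 0 ∧ (![1, 1] : V2 3) ≠ 0 := by decide
  have k2 : om (![1, 0] : V2 3) ![0, 1] ≠ 0 ∧ om (![1, 0] : V2 3) ![1, 1] ≠ 0 ∧ om (![0, 1] : V2 3) ![1, 1] ≠ 0 := by
    decide
  have k3 : (⟨0, 2⟩ : Hs 3) = ⟨0, 1⟩ ^ 2 := Hs.ext (by decide) (by decide)
  have k4 : (⟨![1, 1], 0⟩ : Hs 3) = ⟨![1, 0], 0⟩ * ⟨![0, 1], 0⟩ * ⟨0, 2⟩ := Hs.ext (by decide) (by decide)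
  have : Fact (Nat.Prime 3) := ⟨by norm_num⟩
  have : Finite G := Nat.finite_of_card_ne_zero (by rw [hG]; norm_num)
  obtain ⟨θ, hθ, ea, eb, ex⟩ := exists_hom (p := 3) (by norm_num) h1 h2 h3 h4 h5 h6
  have hinj : Function.Injective (i.comp θ) := hi.comp hθ
  have hS : SylH (i.comp θ) := ⟨hinj, by
    have h := (i.comp θ).range.card_mul_index
    rw [← Nat.card_congr (MonoidHom.ofInjective hinj).toEquiv, Hs.card_eq, hG] at h
    omega⟩
  have hL : (i.comp θ).range ≤ i.range := by rintro _ ⟨y, rfl⟩; exact ⟨_, rfl⟩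
  have hidx : i.range.index = 2 := by
    have h := i.range.card_mul_index
    rw [← Nat.card_congr (MonoidHom.ofInjective hi).toEquiv, hH, hG] at h
    omega
  have : i.range.Normal := normal_of_index_eq_two hidx
  have e2 : θ ⟨0, 2⟩ = x ^ 2 := by rw [k3, map_pow, ex]
  have e3 : θ ⟨![1, 1], 0⟩ = a * b * x ^ 2 := by rw [k4, map_mul, map_mul, ea, eb, e2]
  have key : ∀ (y : V2 3) (g : H) (c : ZMod 3), y ≠ 0 → g * θ ⟨y, 0⟩ * g⁻¹ = θ ⟨0, c⟩ →
      y ∈ EL i.range (i.comp θ) := fun y g c h0 h =>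
    ⟨h0, i g, ⟨g, rfl⟩, c, by simpa only [map_mul, map_inv, MonoidHom.comp_apply] using congrArg i h⟩
  have hT : Three (EL i.range (i.comp θ)) :=
    ⟨![1, 0], key _ u 2 k1.1 (by rw [ea, e2, h7]), ![0, 1], key _ v 1 k1.2.1 (by rw [eb, ex, h8]),
      ![1, 1], key _ w 2 k1.2.2 (by rw [e3, e2, h9]), k2⟩
  refine ⟨_, _, _, _, rz_sub hS hL, rz_sub hS le_top, hT, ?_, WL_lt (by norm_num) hS hL (fun h => ?_) fun c hc => ?_⟩
  · obtain ⟨u, hu, v, hv, w, hw, h⟩ := hT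
    exact ⟨u, EL_mono le_top _ hu, v, EL_mono le_top _ hv, w, EL_mono le_top _ hw, h⟩
  · rw [h, index_top] at hidx
    omega
  · by_contra hc'
    rcases Nat.even_or_odd' (orderOf c) with ⟨k, hk | hk⟩
    · exact hn _ hinj _ (orderOf_pow_orderOf_div (orderOf_pos c).ne' ⟨k, hk⟩) fun y =>
        Commute.pow_left (hc _ ⟨y, rfl⟩).symm _
    · have h := pow_orderOf_eq_one c
      rw [hk, pow_succ, pow_mul] at h
      exact hc' ((mul_mem_cancel_left (pow_mem (sq_mem_of_index_two hidx c) k)).1 (h ▸ one_mem _))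

theorem transfer {G H : Type} [Group G] [Group H] (e : H ≃* G)
    (hn : ∀ φ : Hs 3 →* H, Function.Injective φ → ∀ t, orderOf t = 2 → (∀ y, Commute t (φ y)) → False)
    (φ : Hs 3 →* G) (hφ : Function.Injective φ) (t : G) (ht : orderOf t = 2) (h : ∀ y, Commute t (φ y)) : False :=
  hn (e.symm.toMonoidHom.comp φ) (e.symm.injective.comp hφ) _ ((e.symm.orderOf_eq t).trans ht)
    fun y => (h y).map e.symm

end Tt

open LieModel.Tits in
theorem rz_three : ∃ (W W' : Subgroup (G2 3)) (E E' : Set (V2 3)),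
    Rz W E ∧ Rz W' E' ∧ Three E ∧ Three E' ∧ W < W' := by
  obtain ⟨a, b, x, u, v, w, h1, h2, h3, h4, h5, h6, h7, h8, h9⟩ := Tt.cert
  obtain ⟨e, -⟩ := exists_iso
  exact Tt.main (inclusion_injective QG_le) card_PG card_QG h1 h2 h3 h4 h5 h6 h7 h8 h9
    (Tt.transfer (G := PG) (H := Lie.twistedF4 (ZMod 2) 1) e fun _ hφ _ ht h => Tt.not_nine (pow_zero 2).symm hφ ht h (by rw [Hs.card_eq]; norm_num))

end CfsgLib.RV
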